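import Cfsg.Agent.H762.CharTwo
import Cfsg.Agent.H685.ThreePSL
import Cfsg.Agent.H685.ThreeExc
import Cfsg.Agent.H685.ThreeWitt
import Cfsg.Agent.H479.AltThree
import Cfsg.Agent.OddHalf.Known

/-!
helper762 (S3263): known simple groups with a 2-central involution `τ` whose centralizer contains no two involutions
with product of order three and does not normalise a Sylow 2-subgroup.
-/

set_option autoImplicit false

namespace Cfsg.Agent.H762

open Subgroup

theorem not_odd_char_two {F : Type*} [Field F] [Fintype F] [CharP F 2] : ¬ Odd (Fintype.card F) := by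
  intro h
  obtain ⟨n, -, hn⟩ := FiniteField.card F 2
  rw [hn] at h
  exact (Nat.not_even_iff_odd.2 h) (even_two.pow_of_ne_zero n.ne_zero)

/-- transport of `ThreePair` -/
theorem ThreePair.of_equiv {G H : Type*} [Group G] [Group H] (e : G ≃* H) {τ : G} (h : ThreePair (e τ)) :
    ThreePair τ := by
  obtain ⟨a, b, h1, h2, h3, h4, h5, h6⟩ := h
  refine ⟨e.symm a, e.symm b, ?_, ?_, ?_, ?_, ?_, ?_⟩
  · apply e.injective; simpa using h1
  · apply e.injective; simpa using h2
  · apply e.injective; simpa using h3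
  · apply e.injective; simpa using h4
  · intro h; apply h5; simpa using congrArg e h
  · apply e.injective; simpa using h6

/-- **the possibilities** -/
theorem rough {M : Type*} [Group M] [Finite M] (hna : ¬ IsMulCommutative M) (hk : IsKnownSimple' M) (S : Sylow 2 M)
    {τ : M} (hτ : orderOf τ = 2) (hτc : ∀ s ∈ (S : Subgroup M), s * τ = τ * s) (hpair : ¬ ThreePair τ)
    (hnorm : ¬ ∀ g, g * τ = τ * g → ∀ s ∈ (S : Subgroup M), g * s * g⁻¹ ∈ (S : Subgroup M)) :
    (∃ n, n ≤ 8 ∧ Nonempty (M ≃* alternatingGroup (Fin n))) ∨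
      (¬ IsAlternating M ∧ ∃ p : ℕ, p.Prime ∧ p ≠ 2 ∧ IsLieTypeChar p M) ∨
      Lie.IsoSuzuki M ∨ Lie.Iso2F4 M ∨ Lie.IsoTits M ∨ IsSporadicGroup M := by
  by_cases halt : IsAlternating M
  · left
    obtain ⟨n, hn, ⟨e⟩⟩ := halt
    refine ⟨n, ?_, ⟨e⟩⟩
    by_contra hcon
    obtain ⟨a, b, h1, h2, h3, h4, h5, h6⟩ := H479.AltThree.alt_three (n := n) (by omega) (e τ) (by
      rw [MulEquiv.orderOf_eq, hτ])
    exact hpair (ThreePair.of_equiv e ⟨a, b, h1, h2, h3, h4, h5, h6⟩)
  right
  have hthree : HasThree M → False := by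
    intro h
    rcases char_two h S hτc with h | h
    · exact hnorm h
    · exact hpair h
  rcases OddHalf.Known.classify hna hk with h | ⟨p, hp, h2, h⟩ | (h | h) | h
  · exact absurd h halt
  · exact Or.inl ⟨halt, p, hp, h2, h⟩
  · right
    rcases h with h | h | h | h | h | h | h | h | ⟨-, h⟩ | ⟨-, h⟩ | ⟨h, -⟩
    · exact (hthree (H685.Three.hasThree_psl h)).elim
    · exact (hthree (H685.Three.hasThree_witt (Or.inl h))).elim
    · exact (hthree (H685.Three.hasThree_witt (Or.inr (Or.inl h)))).elim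
    · obtain ⟨F, _, _, _, m, -, h, -⟩ := h
      exact (not_odd_char_two h).elim
    · exact (hthree (H685.Three.hasThree_witt (Or.inr (Or.inr (Or.inl h))))).elim
    · exact (hthree (H685.Three.hasThree_witt (Or.inr (Or.inr (Or.inr h))))).elim
    · exact (hthree (H685.Three.hasThree_exc h)).elim
    · exact (hthree (H685.Three.hasThree_tw h)).elim
    · exact Or.inl h
    · exact Or.inr (Or.inl h)
    · omega
  · exact Or.inr (Or.inr (Or.inr (Or.inl h)))
  · exact Or.inr (Or.inr (Or.inr (Or.inr h)))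

end Cfsg.Agent.H762
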