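import Cfsg.Agent.H762.CHyp
import Cfsg.Agent.H762.Rough
import Cfsg.Agent.H753.LongThree
import Cfsg.Agent.H126.SporVal
import Cfsg.Agent.H126.ElemSixteen
import Cfsg.Agent.OddHalf.LieOddFam
import Cfsg.Agent.OddHalf.LongSL.Rk
import Cfsg.Agent.FixBN.LOAll
import Cfsg.Agent.S1163
import Cfsg.Agent.S1068
import Cfsg.Agent.H230.Rel
import Cfsg.Agent.H296.FFourRow
import Cfsg.Agent.GTwoRows.Base
import Cfsg.Agent.LFourB.FixQuat

/-!
helper762 (S3263): the centralizer of a 2-central involution.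
-/

set_option autoImplicit false

namespace Cfsg.Agent.H762

open Subgroup

/-- the situation of S3263: `C ⊴ C_G(τ)` of odd index -/
structure GHyp {G : Type*} [Group G] (τ : G) (S : Sylow 2 G) (C : Subgroup G) (m : ℕ) : Prop where
  ord : orderOf τ = 2
  mem : τ ∈ (S : Subgroup G)
  comm : ∀ s ∈ (S : Subgroup G), s * τ = τ * s
  le : C ≤ centralizer ({τ} : Set G)
  norm : (C.subgroupOf (centralizer ({τ} : Set G))).Normal
  odd : Odd (C.relIndex (centralizer ({τ} : Set G)))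
  hyp : CHyp ↥C m

namespace GHyp

variable {G : Type*} [Group G] [Finite G] {τ : G} {S : Sylow 2 G} {C : Subgroup G} {m : ℕ} (h : GHyp τ S C m)
include h

/-- 2-elements of the centralizer lie in `C` -/
theorem two_mem {x : G} (hx : x * τ = τ * x) (h2 : ∃ k, x ^ 2 ^ k = 1) : x ∈ C := by
  have hn := h.norm
  have hxH : x ∈ centralizer ({τ} : Set G) := mem_centralizer_singleton_iff.2 hx
  obtain ⟨k, hk⟩ := h2
  have h1 : (QuotientGroup.mk (⟨x, hxH⟩ : ↥(centralizer ({τ} : Set G))) :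
      ↥(centralizer ({τ} : Set G)) ⧸ C.subgroupOf (centralizer ({τ} : Set G))) ^ 2 ^ k = 1 := by
    rw [← QuotientGroup.mk_pow]
    have h3 : (⟨x, hxH⟩ : ↥(centralizer ({τ} : Set G))) ^ 2 ^ k = 1 := Subtype.ext hk
    rw [h3]; rfl
  have h2 : orderOf (QuotientGroup.mk (⟨x, hxH⟩ : ↥(centralizer ({τ} : Set G))) :
      ↥(centralizer ({τ} : Set G)) ⧸ C.subgroupOf (centralizer ({τ} : Set G))) = 1 := by
    have h3 := orderOf_dvd_of_pow_eq_one h1
    have h4 := orderOf_dvd_natCard (QuotientGroup.mk (⟨x, hxH⟩ : ↥(centralizer ({τ} : Set G))) :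
      ↥(centralizer ({τ} : Set G)) ⧸ C.subgroupOf (centralizer ({τ} : Set G)))
    have h5 : Odd (Nat.card (↥(centralizer ({τ} : Set G)) ⧸ C.subgroupOf (centralizer ({τ} : Set G)))) := h.odd
    have h6 : Nat.Coprime (2 ^ k) (Nat.card (↥(centralizer ({τ} : Set G)) ⧸ C.subgroupOf (centralizer ({τ} : Set G)))) :=
      Nat.Coprime.pow_left _ (Nat.coprime_two_left.2 h5)
    exact Nat.dvd_one.1 (h6.gcd_eq_one ▸ Nat.dvd_gcd h3 h4)
  rw [orderOf_eq_one_iff, QuotientGroup.eq_one_iff] at h2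
  exact h2

theorem S_le : (S : Subgroup G) ≤ C := by
  intro s hs
  obtain ⟨k, hk⟩ := S.isPGroup' ⟨s, hs⟩
  exact h.two_mem (h.comm s hs) ⟨k, by simpa using congrArg Subtype.val hk⟩

theorem not_pair : ¬ ThreePair τ := by
  rintro ⟨a, b, ha, hb, ha2, hb2, hne, h3⟩
  have haC : a ∈ C := h.two_mem ha ⟨1, by rw [pow_one, pow_two, ha2]⟩
  have hbC : b ∈ C := h.two_mem hb ⟨1, by rw [pow_one, pow_two, hb2]⟩
  apply h.hyp.three
  have h4 : orderOf (⟨a * b, mul_mem haC hbC⟩ : ↥C) = 3 := by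
    apply orderOf_eq_prime
    · apply Subtype.ext
      show (a * b) ^ 3 = 1
      rw [pow_three', h3]
    · intro h5
      exact hne (congrArg Subtype.val h5)
  rw [← h4]
  exact orderOf_dvd_natCard _

theorem not_norm : ¬ ∀ g, g * τ = τ * g → ∀ s ∈ (S : Subgroup G), g * s * g⁻¹ ∈ (S : Subgroup G) := by
  intro hn
  refine h.hyp.closed ((S : Subgroup G).subgroupOf C) ⟨fun x hx g => ?_⟩ S.isPGroup'.comap_subtype ?_
  · exact hn g (mem_centralizer_singleton_iff.1 (h.le g.2)) x hx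
  · have h1 : (S : Subgroup G).relIndex C ∣ (S : Subgroup G).index := relIndex_dvd_index_of_le h.S_le
    intro h2
    have hfact : Fact (Nat.Prime 2) := ⟨Nat.prime_two⟩
    exact S.not_dvd_index (h2.trans h1)

theorem card_two : ∃ a, Odd a ∧ Nat.card G = 2 ^ (12 * (2 * m + 1)) * a := by
  obtain ⟨a, ha, h1⟩ := h.hyp.two
  have hfact : Fact (Nat.Prime 2) := ⟨Nat.prime_two⟩
  have h2 : Odd C.index := by
    rw [← Nat.not_even_iff_odd, even_iff_two_dvd]
    intro h3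
    exact S.not_dvd_index (h3.trans (index_dvd_of_le h.S_le))
  refine ⟨a * C.index, ha.mul h2, ?_⟩
  rw [← C.card_mul_index, h1, mul_assoc]

theorem dvd_card : 2 ^ (12 * (2 * m + 1)) ∣ Nat.card G := by
  obtain ⟨a, -, h1⟩ := h.card_two
  rw [h1]; exact dvd_mul_right _ _

theorem not_dvd_card : ¬ 2 ^ (12 * (2 * m + 1) + 1) ∣ Nat.card G := by
  obtain ⟨a, ha, h1⟩ := h.card_two
  rw [h1, pow_succ]
  intro h2
  have h3 := Nat.dvd_of_mul_dvd_mul_left (by positivity) h2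
  exact (Nat.not_even_iff_odd.2 ha) (even_iff_two_dvd.2 h3)

/-- the exponent of two in `|G|` -/
theorem eq_of_card {N k : ℕ} (hN : Odd N) (h1 : Nat.card G = 2 ^ k * N) : k = 12 * (2 * m + 1) := by
  have a1 := h.dvd_card
  have a2 := h.not_dvd_card
  rw [h1] at a1 a2
  apply le_antisymm
  · by_contra hcon
    apply a2
    exact (pow_dvd_pow 2 (by omega)).trans (dvd_mul_right _ _)
  · have h2 : 2 ^ (12 * (2 * m + 1)) ∣ 2 ^ k :=
      Nat.Coprime.dvd_of_dvd_mul_right (Nat.Coprime.pow_left _ (Nat.coprime_two_left.2 hN)) a1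
    exact (Nat.pow_dvd_pow_iff_le_right (by norm_num)).1 h2

theorem cent_le_normalizer : centralizer ({τ} : Set G) ≤ normalizer (C : Set G) := by
  have hn := h.norm
  intro g hg
  rw [mem_normalizer_iff]
  intro x
  constructor
  · intro hx
    exact hn.conj_mem ⟨x, h.le hx⟩ hx ⟨g, hg⟩
  · intro hx
    have h1 := hn.conj_mem ⟨g * x * g⁻¹, h.le hx⟩ hx ⟨g⁻¹, inv_mem hg⟩
    have h2 : g⁻¹ * (g * x * g⁻¹) * g⁻¹⁻¹ ∈ C := h1
    have e : g⁻¹ * (g * x * g⁻¹) * g⁻¹⁻¹ = x := by group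
    rwa [e] at h2

/-- `m ≥ 1` : no odd Lie type -/
theorem not_lo (hm : 1 ≤ m) (hlo : FixBN.LOAut G) : False := by
  obtain ⟨hperf, Q, hQn, hQ2, x, hx, y, hxy⟩ := h.hyp.perf hm
  have hfix : ∀ g, g ∈ FixBN.Reduce.fixSub (MulAut.conj τ) ↔ g ∈ centralizer ({τ} : Set G) := by
    intro g
    rw [mem_centralizer_singleton_iff]
    show τ * g * τ⁻¹ = g ↔ _
    rw [mul_inv_eq_iff_eq_mul]
    exact eq_comm
  have hττ : τ * τ = 1 := by rw [← pow_two, ← h.ord, pow_orderOf_eq_one]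
  have hO : Q ≤ pCore 2 ↥C := Lib.Cores.le_pCore hQn hQ2
  have h1 := hlo (MulAut.conj τ) (fun g => by
      show τ * (τ * g * τ⁻¹) * τ⁻¹ = g
      have e : τ * (τ * g * τ⁻¹) * τ⁻¹ = (τ * τ) * g * (τ * τ)⁻¹ := by group
      rw [e, hττ]; group) (pCoreOf 2 C) C
    (fun x hx => by
      obtain ⟨x', -, rfl⟩ := hx
      exact (hfix _).2 (h.le x'.2))
    (fun g hg x hx => by
      have h2 := H230.normalizer_le_normalizer_pCoreOf 2 C (h.cent_le_normalizer ((hfix g).1 hg))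
      exact (mem_normalizer_iff.1 h2 x).1 hx)
    ((Lib.Cores.pCore_isPGroup 2).map _)
    (fun g hg => (hfix g).2 (h.le hg))
    (by
      rw [← map_subtype_commutator, hperf, ← MonoidHom.range_eq_map, range_subtype])
    y y.2 x ⟨x, hO hx, rfl⟩
  exact hxy (Subtype.ext h1.symm)

/-- conjugation by an element of `C_G(τ)` of 3-power order is trivial on `C` (`m = 0`) -/
theorem three_trivial (hm : m = 0) {w : G} (hw : w ∈ centralizer ({τ} : Set G)) (hk : ∃ k : ℕ, w ^ 3 ^ k = 1) {t : G}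
    (ht : t ∈ C) : w * t = t * w := by
  obtain ⟨k, hk⟩ := hk
  have h1 := h.hyp.aut hm (C.normalizerMonoidHom ⟨w, h.cent_le_normalizer hw⟩) ⟨k, by
    rw [← map_pow]
    have e : (⟨w, h.cent_le_normalizer hw⟩ : ↥(normalizer (C : Set G))) ^ 3 ^ k = 1 := Subtype.ext hk
    rw [e, map_one]⟩
  have h2 := congrArg Subtype.val (DFunLike.congr_fun h1 ⟨t, ht⟩)
  have h3 : w * t * w⁻¹ = t := h2
  rwa [mul_inv_eq_iff_eq_mul] at h3

omit h in
/-- three divides `|SL₂(F)|` -/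
theorem three_dvd_sl (F : Type*) [Field F] [Finite F] : 3 ∣ Nat.card (Matrix.SpecialLinearGroup (Fin 2) F) := by
  let A : Matrix.SpecialLinearGroup (Fin 2) F := ⟨!![0, -1; 1, -1], by rw [Matrix.det_fin_two_of]; ring⟩
  have h1 : orderOf A = 3 := by
    apply orderOf_eq_prime
    · apply Subtype.ext
      rw [pow_three', Matrix.SpecialLinearGroup.coe_mul, Matrix.SpecialLinearGroup.coe_mul]
      show !![0, -1; 1, -1] * !![0, -1; 1, -1] * !![0, -1; 1, -1] = (1 : Matrix (Fin 2) (Fin 2) F)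
      rw [Matrix.mul_fin_two, Matrix.mul_fin_two, Matrix.one_fin_two]
      ext i j
      fin_cases i <;> fin_cases j <;> simp
    · intro h1
      have h2 := congrArg (fun X : Matrix.SpecialLinearGroup (Fin 2) F => (X : Matrix (Fin 2) (Fin 2) F) 1 0) h1
      have h3 : (1 : F) = 0 := h2
      exact one_ne_zero h3
  rw [← h1]
  exact orderOf_dvd_natCard _

/-- `m = 0` : no odd Lie type -/
theorem not_rk (hm : m = 0) {q : ℕ} (hq : OddHalf.LieOddFam.OddPow q) (hrk : OddHalf.LieOddFam.Rk G q) : False := by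
  have hl := OddHalf.LongSL.hasLong_of_rk hq hrk
  have hn := h.norm
  rcases H753.three_of_hasLong hl h.ord h.mem h.comm with ⟨F, _, _, J, hF, hF2, hJ, ⟨e⟩⟩ | ⟨T, w, hT, hTC, hw, hk, t, ht, hwt⟩
  · have h2F : (2 : F) ≠ 0 := GTwoRows.two_ne hF2
    have hqs := GTwoRows.isQuasisimple_sl hF
    have hJn : (C.subgroupOf J).Normal := by
      refine ⟨fun x hx g => ?_⟩
      exact (mem_normalizer_iff.1 (h.cent_le_normalizer (hJ g.2)) x).1 hx
    have htwo : ∀ x : ↥J, (∃ k, x ^ 2 ^ k = 1) → x ∈ C.subgroupOf J := by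
      rintro x ⟨k, hk⟩
      exact h.two_mem (mem_centralizer_singleton_iff.1 (hJ x.2)) ⟨k, by simpa using congrArg Subtype.val hk⟩
    rcases Lib.ComponentSolvable.quasisimple_normal_cases hqs (hJn.map e.toMonoidHom e.surjective) with h1 | h1
    · have h2 : J ≤ C := by
        rw [← Subgroup.subgroupOf_eq_top]
        apply Subgroup.map_injective (f := e.toMonoidHom) e.injective
        rw [h1, Subgroup.map_top_of_surjective _ e.surjective]
      apply h.hyp.three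
      refine dvd_trans ?_ (card_dvd_of_le h2)
      rw [Nat.card_congr e.toEquiv]
      exact three_dvd_sl F
    · obtain ⟨P⟩ : Nonempty (Sylow 2 (Matrix.SpecialLinearGroup (Fin 2) F)) := inferInstance
      obtain ⟨x, hx, y, hy, hxy⟩ := LFourB.FixQuat.exists_not_comm h2F P
      have h3 : x ∈ center (Matrix.SpecialLinearGroup (Fin 2) F) := by
        apply h1
        obtain ⟨k, hk⟩ := P.isPGroup' ⟨x, hx⟩
        refine ⟨e.symm x, htwo _ ⟨k, ?_⟩, e.apply_symm_apply x⟩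
        rw [← map_pow]
        have h4 : x ^ 2 ^ k = 1 := by simpa using congrArg Subtype.val hk
        rw [h4, map_one]
      exact hxy ((mem_center_iff.1 h3 y).symm)
  · -- `T ≤ C`, `w` acts on `C`
    obtain ⟨k, hk'⟩ := hT ⟨t, ht⟩
    have htC : t ∈ C := h.two_mem (mem_centralizer_singleton_iff.1 (hTC ht)) ⟨k, by simpa using congrArg Subtype.val hk'⟩
    exact hwt (h.three_trivial hm hw hk htC)

/-- `m = 0` : not of rank one over an odd field -/
theorem not_rank_one (hm : m = 0) (hx : OddHalf.LieOddFam.XL27 G ∨ OddHalf.LieOddFam.XL2Big G ∨ Lie.IsoRee G) :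
    False := by
  obtain ⟨A, hA, hc⟩ := h.hyp.elem hm
  refine H126.ElemSixteen.no_elem16 hx (A.map C.subtype) ?_ ?_
  · rintro _ ⟨x, hx, rfl⟩
    exact congrArg Subtype.val (hA x hx)
  · have h1 := Nat.card_congr (A.equivMapOfInjective C.subtype (subtype_injective C)).toEquiv
    rw [← h1]
    exact hc

/-- small alternating groups -/
theorem not_small_alt {n : ℕ} (hn : n ≤ 8) (e : G ≃* alternatingGroup (Fin n)) : False := by
  have h1 : 2 ^ 12 ∣ Nat.card G := (pow_dvd_pow 2 (by omega)).trans h.dvd_card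
  rw [Nat.card_congr e.toEquiv] at h1
  have h2 : Nat.card (alternatingGroup (Fin n)) ∣ Nat.card (Equiv.Perm (Fin n)) := card_subgroup_dvd_card _
  rw [Nat.card_eq_fintype_card (α := Equiv.Perm (Fin n)), Fintype.card_perm, Fintype.card_fin] at h2
  have h3 : 2 ^ 12 ∣ Nat.factorial 8 := (h1.trans h2).trans (Nat.factorial_dvd_factorial hn)
  rw [show Nat.factorial 8 = 40320 by decide] at h3
  omega

theorem not_suzuki (hs : Lie.IsoSuzuki G) : False := by
  obtain ⟨F, _, _, k, hk, hF, ⟨e⟩⟩ := hs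
  have h1 := (S1163.result hk hF).1
  have h0 : (2 ^ (2 * k + 1)) ^ 2 = 2 ^ ((2 * k + 1) * 2) := (pow_mul _ _ _).symm
  rw [← Nat.card_congr e.toEquiv, mul_assoc] at h1
  have hev : Even (2 ^ (2 * k + 1)) := (even_two).pow_of_ne_zero (by omega)
  have hpos : 1 ≤ 2 ^ (2 * k + 1) := Nat.one_le_two_pow
  have o1 : Odd (2 ^ (2 * k + 1) - 1) := Nat.Even.sub_odd hpos hev odd_one
  have o3 : Odd ((2 ^ (2 * k + 1)) ^ 2 + 1) := (hev.pow_of_ne_zero (by norm_num)).add_odd odd_one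
  have h2 := h.eq_of_card (o1.mul o3) (h1.trans (by rw [← h0]))
  omega

theorem two_F4 (hs : Lie.Iso2F4 G) {K : Type*} [Field K] [Fintype K] (hK : Fintype.card K = 2 ^ (2 * m + 1)) :
    1 ≤ m ∧ Nonempty (G ≃* ↥(Lie.twistedF4 K (2 ^ m))) := by
  obtain ⟨F, _, _, k, hk, hF, ⟨e⟩⟩ := hs
  have h1 := S1068.result hF
  have h0 : (2 ^ (2 * k + 1)) ^ 12 = 2 ^ ((2 * k + 1) * 12) := (pow_mul _ _ _).symm
  rw [← Nat.card_congr e.toEquiv, mul_assoc, mul_assoc, mul_assoc] at h1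
  have hev : Even (2 ^ (2 * k + 1)) := (even_two).pow_of_ne_zero (by omega)
  have hpos : 1 ≤ 2 ^ (2 * k + 1) := Nat.one_le_two_pow
  have o1 : Odd (2 ^ (2 * k + 1) - 1) := Nat.Even.sub_odd hpos hev odd_one
  have o3 : Odd ((2 ^ (2 * k + 1)) ^ 3 + 1) := (hev.pow_of_ne_zero (by norm_num)).add_odd odd_one
  have o4 : Odd ((2 ^ (2 * k + 1)) ^ 4 - 1) :=
    Nat.Even.sub_odd (Nat.one_le_pow _ _ (by omega)) (hev.pow_of_ne_zero (by norm_num)) odd_one
  have o6 : Odd ((2 ^ (2 * k + 1)) ^ 6 + 1) := (hev.pow_of_ne_zero (by norm_num)).add_odd odd_one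
  have h2 := h.eq_of_card (o1.mul (o3.mul (o4.mul o6))) (h1.trans (by rw [← h0]))
  have h3 : k = m := by omega
  subst h3
  refine ⟨hk, ⟨e.trans ?_⟩⟩
  have σ : F ≃+* K := FiniteField.ringEquivOfCardEq (by rw [hF, hK])
  exact H296.FFour.twCongr σ _

/-- **the theorem** -/
theorem main [IsSimpleGroup G] (hna : ¬ IsMulCommutative G) (hk : IsKnownSimple' G)
    {K : Type*} [Field K] [Fintype K] (hK : Fintype.card K = 2 ^ (2 * m + 1)) :
    1 ≤ m ∧ Nonempty (G ≃* ↥(Lie.twistedF4 K (2 ^ m))) := by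
  rcases rough hna hk S h.ord h.comm h.not_pair h.not_norm with ⟨n, hn, ⟨e⟩⟩ | ⟨halt, p, hp, h2, hG⟩ | hG | hG | hG | hG
  · exact (h.not_small_alt hn e).elim
  · exfalso
    rcases Nat.eq_zero_or_pos m with hm | hm
    · rcases OddHalf.LieOddFam.lieOdd_cases ⟨p, hp, h2, hG⟩ halt with h1 | h1 | h1 | ⟨q, hq, hrk⟩
      · exact h.not_rank_one hm (Or.inl h1)
      · exact h.not_rank_one hm (Or.inr (Or.inl h1))
      · exact h.not_rank_one hm (Or.inr (Or.inr h1))
      · exact h.not_rk hm hq hrk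
    · exact h.not_lo hm (FixBN.loAut_of_isLieTypeChar h2 hG)
  · exact (h.not_suzuki hG).elim
  · exact h.two_F4 hG hK
  · exact (H126.SporVal.spor_two (Or.inr hG) m h.dvd_card h.not_dvd_card).elim
  · exact (H126.SporVal.spor_two (Or.inl hG) m h.dvd_card h.not_dvd_card).elim

end GHyp

end Cfsg.Agent.H762
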