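import Cfsg.Agent.H762.Defs
import Cfsg.Agent.H248.TitsRGD

/-!
helper762 (S3263): groups of Lie type of characteristic two with `HasThree` : the centralizer of a 2-central involution
normalises its Sylow 2-subgroup or contains two involutions with product of order three.
-/

set_option autoImplicit false

namespace Cfsg.Agent.H762

open CoxeterSystem Cfsg.Agent.ChevalleyStructure.CoxeterGeom Cfsg.Agent.Tits.Roots Cfsg.Agent.Tits.Core
  Cfsg.Agent.Tits.RootComb Cfsg.Agent.Nodes.Comb Cfsg.Agent.Nodes.Reps Cfsg.Agent.Nodes.BNOf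
  Cfsg.Agent.Nodes.StabComb Cfsg.Agent.Nodes.Bruhat Cfsg.Agent.Nodes.LeviDec
open Subgroup

/-- two involutions of `C(τ)` with product of order three -/
def ThreePair {G : Type*} [Group G] (τ : G) : Prop :=
  ∃ a b : G, a * τ = τ * a ∧ b * τ = τ * b ∧ a * a = 1 ∧ b * b = 1 ∧ a * b ≠ 1 ∧ a * b * (a * b) * (a * b) = 1

theorem char_two {G : Type*} [Group G] [Finite G] (h : HasThree G) (S : Sylow 2 G) {τ : G}
    (hτc : ∀ s ∈ (S : Subgroup G), s * τ = τ * s) :
    (∀ g, g * τ = τ * g → ∀ s ∈ (S : Subgroup G), g * s * g⁻¹ ∈ (S : Subgroup G)) ∨ ThreePair τ := by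
  have hfact : Fact (Nat.Prime 2) := ⟨Nat.prime_two⟩
  obtain ⟨l, M, A, h, T, n, X, hW, R, hX, h3⟩ := h
  have hGG : GG M.toCoxeterSystem h T X = ⊤ := by
    rw [eq_top_iff, ← hX]
    exact le_sup_right
  have hUp : IsPGroup 2 (RGD.Sup X (RGD.Pos M.toCoxeterSystem h)) := R.isPGroup_Upos
  have hUi : ¬ 2 ∣ (RGD.Sup X (RGD.Pos M.toCoxeterSystem h)).index := by
    have h1 := KFacts.RgdSyl.not_dvd_relIndex R
    rwa [hGG, relIndex_top_right] at h1
  let P : Sylow 2 G := hUp.toSylow hUi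
  obtain ⟨g, hg⟩ := MulAction.exists_smul_eq G S P
  have hmem : ∀ x, x ∈ RGD.Sup X (RGD.Pos M.toCoxeterSystem h) ↔ g⁻¹ * x * g ∈ (S : Subgroup G) := by
    intro x
    show x ∈ (P : Subgroup G) ↔ _
    rw [← hg, Sylow.coe_subgroup_smul, Subgroup.mem_pointwise_smul_iff_inv_smul_mem]
    rw [← map_inv]
    show (MulAut.conj g⁻¹) x ∈ _ ↔ _
    rw [MulAut.conj_apply, inv_inv]
  set τ' := g * τ * g⁻¹ with hτ'
  have hconj : ∀ x, x * τ' = τ' * x ↔ (g⁻¹ * x * g) * τ = τ * (g⁻¹ * x * g) := by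
    intro x
    constructor
    · intro h1
      calc g⁻¹ * x * g * τ = g⁻¹ * (x * τ') * g := by rw [hτ']; group
        _ = g⁻¹ * (τ' * x) * g := by rw [h1]
        _ = τ * (g⁻¹ * x * g) := by rw [hτ']; group
    · intro h1
      calc x * τ' = g * (g⁻¹ * x * g * τ) * g⁻¹ := by rw [hτ']; group
        _ = g * (τ * (g⁻¹ * x * g)) * g⁻¹ := by rw [h1]
        _ = τ' * x := by rw [hτ']; group
  let C : Subgroup G := centralizer {τ'}
  have hC : ∀ x, x ∈ C ↔ x * τ' = τ' * x := fun x => mem_centralizer_singleton_iff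
  have hUC : RGD.Sup X (RGD.Pos M.toCoxeterSystem h) ≤ C := by
    intro u hu
    rw [hC, hconj]
    exact hτc _ ((hmem u).1 hu)
  by_cases hJ : H248.TitsRGD.JU T n C = ∅
  · left
    have h1 := H248.TitsRGD.le_PJ R hUC (by rw [hGG]; exact le_top)
    rw [hJ] at h1
    have h2 := h1.trans (PJ_le_normalizer_VJ R ∅)
    have h4 : VJ M.toCoxeterSystem h X ∅ = RGD.Sup X (RGD.Pos M.toCoxeterSystem h) := by
      unfold VJ
      congr 1
      ext x
      constructor
      · rintro ⟨hx1, hx2, -⟩; exact ⟨hx1, hx2⟩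
      · rintro ⟨hx1, hx2⟩
        refine ⟨hx1, hx2, ?_⟩
        by_contra hcon
        push Not at hcon
        have h5 := RGD.ht_pos hx1 hx2
        have h6 : ht x ≤ 0 := Finset.sum_nonpos fun i _ => hcon i (Set.notMem_empty i)
        omega
    intro k hk s hs
    have h5 : g * k * g⁻¹ ∈ C := by
      rw [hC, hconj]
      have e : g⁻¹ * (g * k * g⁻¹) * g = k := by group
      rwa [e]
    have h6 := h2 h5
    rw [h4, mem_normalizer_iff] at h6
    have h7 : g * s * g⁻¹ ∈ RGD.Sup X (RGD.Pos M.toCoxeterSystem h) := by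
      rw [hmem]
      have e : g⁻¹ * (g * s * g⁻¹) * g = s := by group
      rwa [e]
    have h8 := (h6 _).1 h7
    rw [hmem] at h8
    have e : g⁻¹ * (g * k * g⁻¹ * (g * s * g⁻¹) * (g * k * g⁻¹)⁻¹) * g = k * s * k⁻¹ := by group
    rwa [e] at h8
  · right
    obtain ⟨i, hi⟩ := Set.nonempty_iff_ne_empty.2 hJ
    obtain ⟨a, ha, ha2, ha1, hrel⟩ := h3 i
    have hsr : sr i ∈ RootsJ M.toCoxeterSystem h (H248.TitsRGD.JU T n C) := by
      refine ⟨isRoot_sr _ h i, fun k hk => sr_ne ?_⟩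
      rintro rfl; exact hk hi
    have haC : a ∈ C := H248.TitsRGD.X_le R hUC hsr ha
    have hb : n i * a * (n i)⁻¹ ∈ X (-sr i) := by
      have := R.conj_mem (rp_simple M.toCoxeterSystem R.nsys i) (isRoot_sr M.toCoxeterSystem h i) ha
      rwa [rep_simple_sr] at this
    have hbC : n i * a * (n i)⁻¹ ∈ C := H248.TitsRGD.X_le R hUC (RootsJ.neg (cs := M.toCoxeterSystem) (h := h) hsr) hb
    have hcube := cube_of_node ha2 hrel
    have hne : a * (n i * a * (n i)⁻¹) ≠ 1 := by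
      intro h1
      have h2 : n i * a * (n i)⁻¹ = a := by
        have h4 := eq_inv_of_mul_eq_one_right h1
        rw [h4, inv_eq_iff_mul_eq_one]; exact ha2
      rw [h2] at hrel
      have h5 : n i = a := by
        calc n i = (a * a) * n i * (a * a) := by rw [ha2, one_mul, mul_one]
          _ = a * (a * n i * a) * a := by group
          _ = a := by rw [← hrel, ha2, one_mul]
      have h6 : cj (n i) (X (sr i)) = X (sr i) := by
        rw [h5]; exact cj_eq_of_mem ha
      rw [R.conj i _ (isRoot_sr _ h i), rep_simple_sr] at h6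
      apply R.notp i
      rw [h6, sup_idem]
      exact R.pgrp i
    have hconj' : ∀ x, x ∈ C → (g⁻¹ * x * g) * τ = τ * (g⁻¹ * x * g) := fun x hx => (hconj x).1 ((hC x).1 hx)
    generalize hbd : n i * a * (n i)⁻¹ = b at *
    have hbb : b * b = 1 := by
      rw [← hbd]
      calc n i * a * (n i)⁻¹ * (n i * a * (n i)⁻¹) = n i * (a * a) * (n i)⁻¹ := by group
        _ = 1 := by rw [ha2, mul_one, mul_inv_cancel]
    refine ⟨g⁻¹ * a * g, g⁻¹ * b * g, hconj' _ haC, hconj' _ hbC, ?_, ?_, ?_, ?_⟩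
    · calc g⁻¹ * a * g * (g⁻¹ * a * g) = g⁻¹ * (a * a) * g := by group
        _ = 1 := by rw [ha2, mul_one, inv_mul_cancel]
    · calc g⁻¹ * b * g * (g⁻¹ * b * g) = g⁻¹ * (b * b) * g := by group
        _ = 1 := by rw [hbb, mul_one, inv_mul_cancel]
    · intro h1
      apply hne
      have e : a * b = g * (g⁻¹ * a * g * (g⁻¹ * b * g)) * g⁻¹ := by group
      rw [e, h1]; group
    · calc g⁻¹ * a * g * (g⁻¹ * b * g) * (g⁻¹ * a * g * (g⁻¹ * b * g)) * (g⁻¹ * a * g * (g⁻¹ * b * g)) =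
          g⁻¹ * (a * b * (a * b) * (a * b)) * g := by group
        _ = 1 := by rw [hcube, mul_one, inv_mul_cancel]

end Cfsg.Agent.H762
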