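import Cfsg.Agent.H762.ClosedCore

/-!
helper762 (for S3217): `closed_small` : if `Z(S) = ⟨τ⟩` for a Sylow 2-subgroup `S` of a group of Lie type of
characteristic two and `C(τ)` normalises `S` then `|S| ≤ 8`.
-/

set_option autoImplicit false

namespace Cfsg.Agent.H762

open CoxeterSystem Cfsg.Agent.ChevalleyStructure.CoxeterGeom Cfsg.Agent.Tits.Roots Cfsg.Agent.Tits.Core
  Cfsg.Agent.Tits.RootComb Cfsg.Agent.Nodes.Comb Cfsg.Agent.Nodes.Reps Cfsg.Agent.Nodes.BNOf
  Cfsg.Agent.Nodes.StabComb Cfsg.Agent.Nodes.Bruhat Cfsg.Agent.Nodes.LeviDec Cfsg.Agent.Nodes.OppDec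
open Subgroup Closed

namespace Closed

/-- two involutions are conjugate, or some involution commutes with both -/
theorem dihedral {G : Type*} [Group G] [Finite G] {s t : G} (hs : s * s = 1) (ht : t * t = 1) :
    (∃ g, g * s * g⁻¹ = t) ∨ ∃ z, z ≠ 1 ∧ z * z = 1 ∧ z * s = s * z ∧ z * t = t * z := by
  set r := t * s with hr
  have hs1 : s⁻¹ = s := by rw [inv_eq_iff_mul_eq_one]; exact hs
  have ht1 : t⁻¹ = t := by rw [inv_eq_iff_mul_eq_one]; exact ht
  have hri : r⁻¹ = s * t := by rw [hr, mul_inv_rev, hs1, ht1]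
  have h1 : SemiconjBy s r⁻¹ r := by
    show s * r⁻¹ = r * s
    rw [hri, hr, ← mul_assoc, hs, one_mul, mul_assoc, hs, mul_one]
  have htr : t = r * s := by rw [hr, mul_assoc, hs, mul_one]
  have hpos := orderOf_pos r
  rcases Nat.even_or_odd' (orderOf r) with ⟨k, hk | hk⟩
  · right
    have hk0 : k ≠ 0 := by rintro rfl; omega
    have h2 : r ^ k * r ^ k = 1 := by rw [← pow_add, ← two_mul, ← hk, pow_orderOf_eq_one]
    have h3 : s * (r⁻¹) ^ k = r ^ k * s := h1.pow_right k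
    have h4 : (r⁻¹) ^ k = r ^ k := by
      rw [inv_pow, inv_eq_iff_mul_eq_one]; exact h2
    rw [h4] at h3
    refine ⟨r ^ k, pow_ne_one_of_lt_orderOf hk0 (by omega), h2, h3.symm, ?_⟩
    have h5 : r ^ k * r = r * r ^ k := (pow_mul_comm' r k)
    calc r ^ k * t = r ^ k * r * s := by rw [htr]; group
      _ = r * (r ^ k * s) := by rw [h5]; group
      _ = r * (s * r ^ k) := by rw [h3]
      _ = t * r ^ k := by rw [htr]; group
  · left
    refine ⟨r ^ (k + 1), ?_⟩
    have h3 : s * (r⁻¹) ^ (k + 1) = r ^ (k + 1) * s := h1.pow_right (k + 1)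
    have h4 : r ^ (k + 1) * r ^ (k + 1) = r := by
      rw [← pow_add]
      have e : k + 1 + (k + 1) = orderOf r + 1 := by omega
      rw [e, pow_succ, pow_orderOf_eq_one, one_mul]
    rw [mul_assoc, ← inv_pow, h3, ← mul_assoc, h4, ← htr]

variable {I W Y : Type*} [Fintype I] [DecidableEq I] [Group W] [Group Y] {M : CoxeterMatrix I}
  {cs : CoxeterSystem M W} {A : I → I → ℤ} {h : IsCartan M A} {T : Subgroup Y} {n : I → Y}
  {X : (I → ℤ) → Subgroup Y}

/-- rank one -/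
theorem rank_one [Finite W] [Finite Y] (R : RGD cs h 2 T n X) {τ : Y} (C : Ctx cs h X τ)
    (hGG : GG cs h T X = ⊤) (j : I) (hV : RGD.Sup X (RGD.PosNe cs h j) = ⊥) {t : Y}
    (ht : t ∈ RGD.Sup X (RGD.Pos cs h)) (ht2 : t * t = 1) (ht1 : t ≠ 1) (htτ : t ≠ τ) : False := by
  have hU : RGD.Sup X (RGD.Pos cs h) = X (sr j) := by rw [R.Upos_eq j, hV, sup_bot_eq]
  have hI : ∀ i, i = j := by
    intro i
    by_contra hij
    apply X_ne_bot R (isRoot_sr cs h i)
    rw [eq_bot_iff, ← hV]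
    refine RGD.le_Sup (S := RGD.PosNe cs h j) ⟨isRoot_sr cs h i, sr_nonneg i, fun he => ?_⟩
    have h1 := congrFun he i
    rw [sr_self, sr_ne hij] at h1
    exact one_ne_zero h1
  have hW : ∀ w : W, w = 1 ∨ w = cs.simple j := by
    intro w
    by_cases hw : w = 1
    · exact Or.inl hw
    right
    obtain ⟨i, hi⟩ := cs.exists_leftDescent_of_ne_one hw
    rw [hI i] at hi
    have hi' : cs.length (cs.simple j * w) < cs.length w := hi
    by_contra hcon
    have h1 : cs.simple j * w ≠ 1 := by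
      intro h1
      apply hcon
      rw [← simple_mul_simple_cancel_left cs (w := w) j, h1, mul_one]
    obtain ⟨i', hi2⟩ := cs.exists_leftDescent_of_ne_one h1
    rw [hI i'] at hi2
    have hi3 : cs.length (cs.simple j * (cs.simple j * w)) < cs.length (cs.simple j * w) := hi2
    rw [simple_mul_simple_cancel_left] at hi3
    omega
  have hneg : ∀ {y}, y ∈ X (sr j) → n j * y * (n j)⁻¹ ∈ X (-sr j) := by
    intro y hy
    have := R.conj_mem (rp_simple cs R.nsys j) (isRoot_sr cs h j) hy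
    rwa [rep_simple_sr] at this
  have hinf : ∀ {y}, y ∈ RGD.Sup X (RGD.Pos cs h) → y ∈ X (-sr j) → y = 1 := by
    intro y h1 h2
    refine eq_one_of_mem_U_of_mem_BN R h1 (X_le_BN (isRoot_sr cs h j).neg ?_ h2)
    exact neg_nonpos.2 (sr_nonneg j)
  have hBn : ∀ {b y}, b ∈ RGD.B cs h T X → y ∈ RGD.Sup X (RGD.Pos cs h) →
      b * y * b⁻¹ ∈ RGD.Sup X (RGD.Pos cs h) := fun hb hy =>
    (mem_normalizer_iff.1 (R.B_le_normalizer_U hb) _).1 hy
  have hBτ : ∀ {b}, b ∈ RGD.B cs h T X → b * τ * b⁻¹ = τ := by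
    intro b hb
    obtain ⟨t', ht', u, hu, rfl⟩ := R.mem_B.1 hb
    have e1 := T_comm R C ht'
    have e2 := C.cen u hu
    calc t' * u * τ * (t' * u)⁻¹ = t' * (u * τ) * u⁻¹ * t'⁻¹ := by group
      _ = t' * τ * t'⁻¹ := by rw [e2]; group
      _ = τ := by rw [e1]; group
  have hσ : n j * τ * (n j)⁻¹ ∈ X (-sr j) := hneg (by rw [← hU]; exact C.mem)
  have hσ1 : n j * τ * (n j)⁻¹ ≠ 1 := by
    intro h1
    apply C.ne
    calc τ = (n j)⁻¹ * (n j * τ * (n j)⁻¹) * n j := by group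
      _ = 1 := by rw [h1]; group
  rcases dihedral (conj_sq C (n j)) ht2 with ⟨g, hg⟩ | ⟨z, hz1, hz2, hzs, hzt⟩
  · -- `t` is conjugate to `τ`
    have hg2 : (g * n j) * τ * (g * n j)⁻¹ = t := by
      rw [← hg]; group
    obtain ⟨w, hw⟩ := (mem_GG R).1 (show g * n j ∈ GG cs h T X by rw [hGG]; exact mem_top _)
    rcases hW w with rfl | rfl
    · apply htτ
      rw [← hg2]
      exact hBτ hw.mem_of_one
    · obtain ⟨b₁, hb₁, k, hk, b₂, hb₂, e⟩ := hw
      rw [e] at hg2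
      have h1 : b₁ * (k * τ * k⁻¹) * b₁⁻¹ = t := by
        rw [← hg2]
        nth_rewrite 1 [← hBτ hb₂]
        group
      rw [conj_unique R C hk (rp_simple cs R.nsys j)] at h1
      have h2 : b₁⁻¹ * t * b₁⁻¹⁻¹ ∈ RGD.Sup X (RGD.Pos cs h) := hBn (inv_mem hb₁) ht
      have h3 : b₁⁻¹ * t * b₁⁻¹⁻¹ = n j * τ * (n j)⁻¹ := by rw [← h1]; group
      rw [h3] at h2
      exact hσ1 (hinf h2 hσ)
  · -- an involution commuting with `t` and a conjugate of `τ`
    have h1 : (n j)⁻¹ * z * n j ∈ RGD.Sup X (RGD.Pos cs h) := by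
      apply C.max
      · calc (n j)⁻¹ * z * n j * τ = (n j)⁻¹ * (z * (n j * τ * (n j)⁻¹)) * n j := by group
          _ = (n j)⁻¹ * (n j * τ * (n j)⁻¹ * z) * n j := by rw [hzs]
          _ = τ * ((n j)⁻¹ * z * n j) := by group
      · calc (n j)⁻¹ * z * n j * ((n j)⁻¹ * z * n j) = (n j)⁻¹ * (z * z) * n j := by group
          _ = 1 := by rw [hz2]; group
    rw [hU] at h1
    have h2 : z ∈ X (-sr j) := by
      have := hneg h1
      have e : n j * ((n j)⁻¹ * z * n j) * (n j)⁻¹ = z := by group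
      rwa [e] at this
    obtain ⟨a, ha, t', ht', b, hb, e⟩ := R.rk1 j z h2 hz1
    rw [hU] at ht
    have h3 : b * t * b⁻¹ ∈ X (sr j) := mul_mem (mul_mem hb ht) (inv_mem hb)
    have h4 := hneg h3
    have h5 : t' * (n j * (b * t * b⁻¹) * (n j)⁻¹) * t'⁻¹ ∈ X (-sr j) := by
      have h6 := R.tor _ (isRoot_sr cs h j).neg t' ht'
      rw [← h6]
      exact conj_mem_cj.2 h4
    have h6 : a⁻¹ * t * a = t' * (n j * (b * t * b⁻¹) * (n j)⁻¹) * t'⁻¹ := by
      calc a⁻¹ * t * a = a⁻¹ * (z * t * z⁻¹) * a := by rw [hzt]; group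
        _ = _ := by rw [e]; group
    rw [← h6] at h5
    have h7 : a⁻¹ * t * a ∈ RGD.Sup X (RGD.Pos cs h) := by
      rw [hU]; exact mul_mem (mul_mem (inv_mem ha) ht) ha
    have h8 := hinf h7 h5
    apply ht1
    calc t = a * (a⁻¹ * t * a) * a⁻¹ := by group
      _ = 1 := by rw [h8]; group

end Closed

theorem closed_small {M : Type*} [Group M] [Finite M] (h : HasThree M) (S : Sylow 2 M) {τ : M} (h1 : τ ≠ 1)
    (hτ : τ ∈ (S : Subgroup M)) (hτc : ∀ s ∈ (S : Subgroup M), s * τ = τ * s)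
    (hZ : ∀ x ∈ (S : Subgroup M), (∀ s ∈ (S : Subgroup M), s * x = x * s) → x = 1 ∨ x = τ)
    (hnorm : ∀ g, g * τ = τ * g → ∀ s ∈ (S : Subgroup M), g * s * g⁻¹ ∈ (S : Subgroup M))
    (hinv : ∃ t ∈ (S : Subgroup M), t * t = 1 ∧ t ≠ 1 ∧ t ≠ τ) : Nat.card (S : Subgroup M) ≤ 8 := by
  have hfact : Fact (Nat.Prime 2) := ⟨Nat.prime_two⟩
  obtain ⟨l, Mx, A, h, T, n, X, hW, R, hX, -⟩ := h
  have hGG : GG Mx.toCoxeterSystem h T X = ⊤ := by
    rw [eq_top_iff, ← hX]
    exact le_sup_right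
  have hUp : IsPGroup 2 (RGD.Sup X (RGD.Pos Mx.toCoxeterSystem h)) := R.isPGroup_Upos
  have hUi : ¬ 2 ∣ (RGD.Sup X (RGD.Pos Mx.toCoxeterSystem h)).index := by
    have h1 := KFacts.RgdSyl.not_dvd_relIndex R
    rwa [hGG, relIndex_top_right] at h1
  let P : Sylow 2 M := hUp.toSylow hUi
  obtain ⟨g, hg⟩ := MulAction.exists_smul_eq M S P
  have hmem : ∀ x, x ∈ RGD.Sup X (RGD.Pos Mx.toCoxeterSystem h) ↔ g⁻¹ * x * g ∈ (S : Subgroup M) := by
    intro x
    show x ∈ (P : Subgroup M) ↔ _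
    rw [← hg, Sylow.coe_subgroup_smul, Subgroup.mem_pointwise_smul_iff_inv_smul_mem]
    rw [← map_inv]
    show (MulAut.conj g⁻¹) x ∈ _ ↔ _
    rw [MulAut.conj_apply, inv_inv]
  have hmem' : ∀ x, x ∈ (S : Subgroup M) ↔ g * x * g⁻¹ ∈ RGD.Sup X (RGD.Pos Mx.toCoxeterSystem h) := by
    intro x
    rw [hmem]
    have e : g⁻¹ * (g * x * g⁻¹) * g = x := by group
    rw [e]
  have hconj : ∀ x, x * (g * τ * g⁻¹) = (g * τ * g⁻¹) * x ↔ (g⁻¹ * x * g) * τ = τ * (g⁻¹ * x * g) := by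
    intro x
    constructor
    · intro h1
      calc g⁻¹ * x * g * τ = g⁻¹ * (x * (g * τ * g⁻¹)) * g := by group
        _ = g⁻¹ * ((g * τ * g⁻¹) * x) * g := by rw [h1]
        _ = τ * (g⁻¹ * x * g) := by group
    · intro h1
      calc x * (g * τ * g⁻¹) = g * (g⁻¹ * x * g * τ) * g⁻¹ := by group
        _ = g * (τ * (g⁻¹ * x * g)) * g⁻¹ := by rw [h1]
        _ = (g * τ * g⁻¹) * x := by group
  have hsq : τ * τ = 1 := by
    rcases hZ (τ * τ) (mul_mem hτ hτ) (fun s hs => by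
      rw [← mul_assoc, hτc s hs, mul_assoc, hτc s hs, ← mul_assoc]) with h2 | h2
    · exact h2
    · exact absurd (mul_eq_left.1 h2) h1
  have C : Ctx Mx.toCoxeterSystem h X (g * τ * g⁻¹) := by
    refine ⟨?_, ?_, (hmem' τ).1 hτ, ?_, ?_, ?_, ?_⟩
    · intro h2
      apply h1
      calc τ = g⁻¹ * (g * τ * g⁻¹) * g := by group
        _ = 1 := by rw [h2]; group
    · calc g * τ * g⁻¹ * (g * τ * g⁻¹) = g * (τ * τ) * g⁻¹ := by group
        _ = 1 := by rw [hsq]; group
    · intro u hu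
      exact (hconj u).2 (hτc _ ((hmem u).1 hu))
    · intro z hz hzc
      have h2 := hZ _ ((hmem z).1 hz) (fun s hs => by
        have h3 := hzc _ ((hmem' s).1 hs)
        calc s * (g⁻¹ * z * g) = g⁻¹ * (g * s * g⁻¹ * z) * g := by group
          _ = g⁻¹ * (z * (g * s * g⁻¹)) * g := by rw [h3]
          _ = g⁻¹ * z * g * s := by group)
      rcases h2 with h2 | h2
      · left
        calc z = g * (g⁻¹ * z * g) * g⁻¹ := by group
          _ = 1 := by rw [h2]; group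
      · right
        rw [← h2]; group
    · intro k hk u hu
      rw [hmem]
      have h2 := hnorm _ ((hconj k).1 hk) _ ((hmem u).1 hu)
      have e : g⁻¹ * k * g * (g⁻¹ * u * g) * (g⁻¹ * k * g)⁻¹ = g⁻¹ * (k * u * k⁻¹) * g := by group
      rwa [e] at h2
    · intro k hk hk2
      rw [hmem]
      set c := g⁻¹ * k * g with hc
      have hc2 : c * c = 1 := by
        rw [hc]
        calc g⁻¹ * k * g * (g⁻¹ * k * g) = g⁻¹ * (k * k) * g := by group
          _ = 1 := by rw [hk2]; group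
      have hcn : zpowers c ≤ normalizer ((S : Subgroup M) : Set M) := by
        rw [zpowers_le, mem_normalizer_iff]
        have h2 := hnorm c ((hconj k).1 hk)
        intro s
        refine ⟨h2 s, fun hs => ?_⟩
        have h3 := h2 _ hs
        have hci : c⁻¹ = c := by rw [inv_eq_iff_mul_eq_one]; exact hc2
        have e : c * (c * s * c⁻¹) * c⁻¹ = (c * c) * s * (c * c)⁻¹ := by group
        rw [e, hc2] at h3
        simpa using h3
      have hcp : IsPGroup 2 (zpowers c) := by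
        apply IsPGroup.of_card_dvd_pow (n := 1)
        rw [Nat.card_zpowers, pow_one]
        apply orderOf_dvd_of_pow_eq_one
        rw [pow_two]; exact hc2
      have h2 : IsPGroup 2 ((S : Subgroup M) ⊔ zpowers c : Subgroup M) :=
        IsPGroup.to_sup_of_normal_left' S.isPGroup' hcp hcn
      have h3 := S.is_maximal' h2 le_sup_left
      have h4 : c ∈ ((S : Subgroup M) ⊔ zpowers c : Subgroup M) := mem_sup_right (mem_zpowers c)
      rw [h3] at h4
      exact h4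
  have hcard : Nat.card (S : Subgroup M) = Nat.card (RGD.Sup X (RGD.Pos Mx.toCoxeterSystem h)) :=
    Nat.card_congr
      { toFun := fun x => ⟨g * x * g⁻¹, (hmem' x).1 x.2⟩
        invFun := fun x => ⟨g⁻¹ * x * g, (hmem x).1 x.2⟩
        left_inv := fun x => Subtype.ext (by show g⁻¹ * (g * x * g⁻¹) * g = x; group)
        right_inv := fun x => Subtype.ext (by show g * (g⁻¹ * x * g) * g⁻¹ = x; group) }
  rw [hcard]
  by_cases hV : ∀ i, RGD.Sup X (RGD.PosNe Mx.toCoxeterSystem h i) ≠ ⊥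
  · exact card_U_le R C hV
  · push Not at hV
    obtain ⟨j, hj⟩ := hV
    obtain ⟨t, ht, ht2, ht1, htτ⟩ := hinv
    exfalso
    refine rank_one R C hGG j hj ((hmem' t).1 ht) ?_ ?_ ?_
    · calc g * t * g⁻¹ * (g * t * g⁻¹) = g * (t * t) * g⁻¹ := by group
        _ = 1 := by rw [ht2]; group
    · intro h2
      apply ht1
      calc t = g⁻¹ * (g * t * g⁻¹) * g := by group
        _ = 1 := by rw [h2]; group
    · intro h2
      apply htτ
      calc t = g⁻¹ * (g * t * g⁻¹) * g := by group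
        _ = τ := by rw [h2]; group

end Cfsg.Agent.H762
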