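import Cfsg.Agent.H762.Defs
import Cfsg.Agent.H248.TitsRGD
import Cfsg.Agent.GTwoFour.Tools

/-!
helper762 (for S3217): a group with a root group datum of characteristic two in which a 2-central involution `τ` with
`Z(U) = ⟨τ⟩` has centralizer normalising `U` has `|U| ≤ 8` (rank at least two).
-/

set_option autoImplicit false

namespace Cfsg.Agent.H762.Closed

open CoxeterSystem Cfsg.Agent.ChevalleyStructure.CoxeterGeom Cfsg.Agent.Tits.Roots Cfsg.Agent.Tits.Core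
  Cfsg.Agent.Tits.RootComb Cfsg.Agent.Nodes.Comb Cfsg.Agent.Nodes.Reps Cfsg.Agent.Nodes.BNOf
  Cfsg.Agent.Nodes.StabComb Cfsg.Agent.Nodes.Bruhat Cfsg.Agent.Nodes.LeviDec Cfsg.Agent.Nodes.OppDec
open Subgroup

variable {I W Y : Type*} [Fintype I] [DecidableEq I] [Group W] [Group Y] {M : CoxeterMatrix I}
  {cs : CoxeterSystem M W} {A : I → I → ℤ} {h : IsCartan M A} {T : Subgroup Y} {n : I → Y}
  {X : (I → ℤ) → Subgroup Y}

/-- the situation: `Z(U) = ⟨τ⟩` and `C(τ)` normalises `U` -/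
structure Ctx (cs : CoxeterSystem M W) (h : IsCartan M A) (X : (I → ℤ) → Subgroup Y) (τ : Y) : Prop where
  ne : τ ≠ 1
  sq : τ * τ = 1
  mem : τ ∈ RGD.Sup X (RGD.Pos cs h)
  cen : ∀ u ∈ RGD.Sup X (RGD.Pos cs h), u * τ = τ * u
  zz : ∀ z ∈ RGD.Sup X (RGD.Pos cs h), (∀ u ∈ RGD.Sup X (RGD.Pos cs h), u * z = z * u) → z = 1 ∨ z = τ
  norm : ∀ g, g * τ = τ * g → ∀ u ∈ RGD.Sup X (RGD.Pos cs h), g * u * g⁻¹ ∈ RGD.Sup X (RGD.Pos cs h)
  max : ∀ g, g * τ = τ * g → g * g = 1 → g ∈ RGD.Sup X (RGD.Pos cs h)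

theorem V_le_U (i : I) : RGD.Sup X (RGD.PosNe cs h i) ≤ RGD.Sup X (RGD.Pos cs h) :=
  RGD.Sup_mono fun _ hz => ⟨hz.1, hz.2.1⟩

theorem X_le_U {x : I → ℤ} (hx : IsRoot cs h x) (h0 : 0 ≤ x) : X x ≤ RGD.Sup X (RGD.Pos cs h) :=
  RGD.le_Sup (S := RGD.Pos cs h) ⟨hx, h0⟩

variable (R : RGD cs h 2 T n X) {τ : Y} (C : Ctx cs h X τ)

include R in
theorem conj_V [Finite W] (i : I) {u v : Y} (hu : u ∈ RGD.Sup X (RGD.Pos cs h)) (hv : v ∈ RGD.Sup X (RGD.PosNe cs h i)) :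
    u * v * u⁻¹ ∈ RGD.Sup X (RGD.PosNe cs h i) := by
  have h1 : RGD.Sup X (RGD.Pos cs h) ≤ normalizer (RGD.Sup X (RGD.PosNe cs h i) : Set Y) := by
    rw [R.Upos_eq i]
    exact sup_le (R.X_le_normalizer_V i) le_normalizer
  exact (mem_normalizer_iff.1 (h1 hu) v).1 hv

include R in
theorem conj_n_V (i : I) {v : Y} (hv : v ∈ RGD.Sup X (RGD.PosNe cs h i)) :
    n i * v * (n i)⁻¹ ∈ RGD.Sup X (RGD.PosNe cs h i) := by
  have h1 := R.cj_n_V i
  rw [← h1]
  exact conj_mem_cj.2 hv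

include R in
theorem conj_n_V' (i : I) {v : Y} (hv : v ∈ RGD.Sup X (RGD.PosNe cs h i)) :
    (n i)⁻¹ * v * n i ∈ RGD.Sup X (RGD.PosNe cs h i) := by
  have h1 := R.cj_n_V i
  rw [← h1] at hv
  exact mem_cj.1 hv

include R in
theorem comm_U [Finite W] (i : I) {z : Y} (hx : ∀ x ∈ X (sr i), x * z = z * x)
    (hv : ∀ v ∈ RGD.Sup X (RGD.PosNe cs h i), v * z = z * v) : ∀ u ∈ RGD.Sup X (RGD.Pos cs h), u * z = z * u := by
  have h1 : RGD.Sup X (RGD.Pos cs h) ≤ centralizer {z} := by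
    rw [R.Upos_eq i]
    refine sup_le (fun x hx' => ?_) (fun v hv' => ?_)
    · exact mem_centralizer_singleton_iff.2 (hx x hx')
    · exact mem_centralizer_singleton_iff.2 (hv v hv')
  exact fun u hu => mem_centralizer_singleton_iff.1 (h1 hu)

include R in
theorem U_mul [Finite W] (i : I) {u : Y} (hu : u ∈ RGD.Sup X (RGD.Pos cs h)) :
    ∃ x ∈ X (sr i), ∃ v ∈ RGD.Sup X (RGD.PosNe cs h i), u = x * v := by
  have h1 : u ∈ ((X (sr i) ⊔ RGD.Sup X (RGD.PosNe cs h i) : Subgroup Y) : Set Y) := by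
    rw [← R.Upos_eq i]; exact hu
  rw [Subgroup.coe_mul_of_left_le_normalizer_right _ _ (R.X_le_normalizer_V i), Set.mem_mul] at h1
  obtain ⟨x, hx, v, hv, e⟩ := h1
  exact ⟨x, hx, v, hv, e.symm⟩

include R C in
theorem T_comm {t : Y} (ht : t ∈ T) : t * τ = τ * t := by
  have hn : ∀ t ∈ T, ∀ u ∈ RGD.Sup X (RGD.Pos cs h), t * u * t⁻¹ ∈ RGD.Sup X (RGD.Pos cs h) := fun t ht u hu =>
    (mem_normalizer_iff.1 (R.T_le_normalizer_U ht) u).1 hu
  rcases C.zz _ (hn t ht τ C.mem) (fun u hu => by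
    have h1 := C.cen _ (hn _ (inv_mem ht) u hu)
    rw [inv_inv] at h1
    calc u * (t * τ * t⁻¹) = t * ((t⁻¹ * u * t) * τ) * t⁻¹ := by group
      _ = t * (τ * (t⁻¹ * u * t)) * t⁻¹ := by rw [h1]
      _ = t * τ * t⁻¹ * u := by group) with h1 | h1
  · exfalso
    apply C.ne
    calc τ = t⁻¹ * (t * τ * t⁻¹) * t := by group
      _ = 1 := by rw [h1]; group
  · calc t * τ = (t * τ * t⁻¹) * t := by group
      _ = τ * t := by rw [h1]

include R C in
theorem eq_one_of_comm [Finite W] {w : W} {k : Y} (hk : Rp cs R.nsys w k) (hc : k * τ = τ * k) : w = 1 := by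
  have h0 : w⁻¹ = 1 := by
    apply eq_one_of_nonneg cs h
    intro i
    by_contra hcon
    have hroot : IsRoot cs h (rep cs h w⁻¹ (sr i)) := ⟨_, _, rfl⟩
    have h1 := (hroot.not_nonneg_iff_neg).1 hcon
    apply R.not_neg_le_B i
    intro x hx
    have h2 : k⁻¹ * x * k ∈ X (-rep cs h w⁻¹ (sr i)) := by
      have := R.conj_mem' hk (isRoot_sr cs h i).neg hx
      rwa [map_neg] at this
    have h3 : k⁻¹ * x * k ∈ RGD.Sup X (RGD.Pos cs h) := X_le_U hroot.neg h1 h2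
    have h4 := C.norm k hc _ h3
    have h5 : k * (k⁻¹ * x * k) * k⁻¹ = x := by group
    rw [h5] at h4
    exact RGD.U_le_B h4
  exact inv_eq_one.1 h0

include R C in
theorem n_not_comm [Finite W] (i : I) : ¬ n i * τ = τ * n i := by
  intro hc
  have h1 := eq_one_of_comm R C (rp_simple cs R.nsys i) hc
  have h6 := cs.length_simple i
  rw [h1, cs.length_one] at h6
  exact absurd h6 (by decide)

include R C in
theorem conj_unique {w : W} {k k' : Y} (hk : Rp cs R.nsys w k) (hk' : Rp cs R.nsys w k') :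
    k * τ * k⁻¹ = k' * τ * k'⁻¹ := by
  have h1 := hk.unique hk'
  have h2 := T_comm R C h1
  calc k * τ * k⁻¹ = k * (τ * (k⁻¹ * k')) * k'⁻¹ := by group
    _ = k * ((k⁻¹ * k') * τ) * k'⁻¹ := by rw [h2]
    _ = k' * τ * k'⁻¹ := by group

include C in
theorem mem_inv_conj {k : Y} (hk : k * τ * k⁻¹ ∈ RGD.Sup X (RGD.Pos cs h)) :
    k⁻¹ * τ * k ∈ RGD.Sup X (RGD.Pos cs h) := by
  have h1 := C.cen _ hk
  apply C.max
  · calc k⁻¹ * τ * k * τ = k⁻¹ * (τ * (k * τ * k⁻¹)) * k := by group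
      _ = k⁻¹ * (k * τ * k⁻¹ * τ) * k := by rw [h1]
      _ = τ * (k⁻¹ * τ * k) := by group
  · calc k⁻¹ * τ * k * (k⁻¹ * τ * k) = k⁻¹ * (τ * τ) * k := by group
      _ = 1 := by rw [C.sq]; group

include R C in
theorem mem_of_normal [Finite W] [Finite Y] {N : Subgroup Y} (hN : N ≤ RGD.Sup X (RGD.Pos cs h)) (h0 : N ≠ ⊥)
    (hn : ∀ u ∈ RGD.Sup X (RGD.Pos cs h), ∀ x ∈ N, u * x * u⁻¹ ∈ N) : τ ∈ N := by
  have : Fact (Nat.Prime 2) := ⟨Nat.prime_two⟩
  obtain ⟨m, hm⟩ := (Subgroup.ne_bot_iff_exists_ne_one).1 h0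
  obtain ⟨z, hz, hz1, hzc⟩ := GTwoFour.Tools.exists_fixed_mod (N := N) (M := ⊥) R.isPGroup_Upos hN hn
    (fun y _ x hx => by rw [mem_bot] at hx ⊢; rw [hx]; group) ⟨m, m.2, fun h => hm (Subtype.ext (mem_bot.1 h))⟩
  rcases C.zz z (hN hz) (fun u hu => by
    have h1 := mem_bot.1 (hzc u hu)
    exact (commutatorElement_eq_one_iff_mul_comm).1 h1) with h1 | h1
  · exact absurd (mem_bot.2 h1) hz1
  · rwa [← h1]

include R C in
theorem tau_mem_V [Finite W] [Finite Y] (i : I) (hV : RGD.Sup X (RGD.PosNe cs h i) ≠ ⊥) :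
    τ ∈ RGD.Sup X (RGD.PosNe cs h i) :=
  mem_of_normal R C (V_le_U i) hV fun _ hu _ hx => conj_V R i hu hx

include R C in
theorem sigma_mem_V [Finite W] [Finite Y] (i : I) (hV : RGD.Sup X (RGD.PosNe cs h i) ≠ ⊥) :
    n i * τ * (n i)⁻¹ ∈ RGD.Sup X (RGD.PosNe cs h i) := conj_n_V R i (tau_mem_V R C i hV)

include R C in
theorem sigma_comm (i : I) {v : Y} (hv : v ∈ RGD.Sup X (RGD.PosNe cs h i)) :
    v * (n i * τ * (n i)⁻¹) = n i * τ * (n i)⁻¹ * v := by
  have h1 := C.cen _ (V_le_U i (conj_n_V' R i hv))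
  calc v * (n i * τ * (n i)⁻¹) = n i * ((n i)⁻¹ * v * n i * τ) * (n i)⁻¹ := by group
    _ = n i * (τ * ((n i)⁻¹ * v * n i)) * (n i)⁻¹ := by rw [h1]
    _ = n i * τ * (n i)⁻¹ * v := by group

include C in
theorem conj_sq (g : Y) : g * τ * g⁻¹ * (g * τ * g⁻¹) = 1 := by
  calc g * τ * g⁻¹ * (g * τ * g⁻¹) = g * (τ * τ) * g⁻¹ := by group
    _ = 1 := by rw [C.sq]; group

include R C in
theorem T_sigma (i : I) {t : Y} (ht : t ∈ T) : t * (n i * τ * (n i)⁻¹) * t⁻¹ = n i * τ * (n i)⁻¹ := by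
  have h1 : Rp cs R.nsys (cs.simple i) (t * n i) := by
    have := (rp_of_mem (cs := cs) (hN := R.nsys) ht).mul (rp_simple cs R.nsys i)
    rwa [one_mul] at this
  have h2 := conj_unique R C h1 (rp_simple cs R.nsys i)
  calc t * (n i * τ * (n i)⁻¹) * t⁻¹ = t * n i * τ * (t * n i)⁻¹ := by group
    _ = _ := h2

include R C in
/-- two nodes whose involutions do not commute -/
theorem exists_pair [Finite W] [Finite Y] (hV : ∀ i, RGD.Sup X (RGD.PosNe cs h i) ≠ ⊥) :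
    ∃ j i, (n j * τ * (n j)⁻¹) * (n i * τ * (n i)⁻¹) * (n j * τ * (n j)⁻¹)⁻¹ * (n i * τ * (n i)⁻¹)⁻¹ = τ := by
  classical
  -- a minimal counterexample
  have hex : ∃ m, ∃ w k, cs.length w = m ∧ Rp cs R.nsys w k ∧ k * τ * k⁻¹ ∉ RGD.Sup X (RGD.Pos cs h) := by
    obtain ⟨k, hk⟩ := exists_rp cs R.nsys (w0 cs)
    refine ⟨_, w0 cs, k, rfl, hk, fun hcon => ?_⟩
    have h1 : k * τ * k⁻¹ ∈ UN cs h X := by
      rw [← cj_U R hk]; exact conj_mem_cj.2 C.mem
    have h2 : k * τ * k⁻¹ ∈ RGD.Sup X (RGD.Pos cs h) ⊓ UN cs h X := ⟨hcon, h1⟩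
    rw [U_inf_UN R, mem_bot] at h2
    apply C.ne
    calc τ = k⁻¹ * (k * τ * k⁻¹) * k := by group
      _ = 1 := by rw [h2]; group
  obtain ⟨w, k, hm, hk, hkn⟩ := Nat.find_spec hex
  have hmin : ∀ {w' k'}, Rp cs R.nsys w' k' → cs.length w' < cs.length w →
      k' * τ * k'⁻¹ ∈ RGD.Sup X (RGD.Pos cs h) := by
    intro w' k' hk' hlt
    by_contra hcon
    rw [hm] at hlt
    exact Nat.find_min hex hlt ⟨w', k', rfl, hk', hcon⟩
  have hw1 : w ≠ 1 := by
    rintro rfl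
    have h1 := conj_unique R C hk rp_one
    rw [h1] at hkn
    apply hkn
    rw [one_mul, inv_one, mul_one]; exact C.mem
  obtain ⟨j, hj⟩ := cs.exists_leftDescent_of_ne_one hw1
  have hj' : cs.length (cs.simple j * w) < cs.length w := hj
  have hjl := cs.length_simple_mul w j
  set w' := cs.simple j * w with hw'
  have hww : w = cs.simple j * w' := by rw [hw', simple_mul_simple_cancel_left]
  have hw'1 : w' ≠ 1 := by
    intro h1
    rw [h1, mul_one] at hww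
    rw [hww] at hk
    rw [conj_unique R C hk (rp_simple cs R.nsys j)] at hkn
    exact hkn (V_le_U j (sigma_mem_V R C j (hV j)))
  obtain ⟨i, hi⟩ := cs.exists_rightDescent_of_ne_one hw'1
  have hi' : cs.length (w' * cs.simple i) < cs.length w' := hi
  have hil := cs.length_mul_simple w' i
  set u := w' * cs.simple i with hu
  have hw'u : w' = u * cs.simple i := by rw [hu, simple_mul_simple_cancel_right]
  have hju := cs.length_simple_mul u j
  obtain ⟨ku, hku⟩ := exists_rp cs R.nsys u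
  -- positivity
  have hpi : 0 ≤ rep cs h u (sr i) := nonneg_of_lt cs h u i (by rw [← hw'u]; exact hi')
  have hwl : cs.length w ≤ cs.length (cs.simple j * u) + 1 := by
    rw [hww, hw'u, ← mul_assoc]
    have := cs.length_mul_simple (cs.simple j * u) i
    omega
  have hpj : 0 ≤ rep cs h u⁻¹ (sr j) := by
    apply nonneg_of_lt cs h u⁻¹ j
    rw [cs.length_inv, ← cs.length_inv (u⁻¹ * cs.simple j), mul_inv_rev, inv_inv, cs.inv_simple]
    omega
  have hne : rep cs h u (sr i) ≠ sr j := by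
    intro he
    have h1 : 0 ≤ rep cs h w (sr i) := by
      rw [hww, hw'u, rep_mul_apply, rep_mul_apply, rep_simple_sr, map_neg, map_neg, he, rep_simple_sr, neg_neg]
      exact sr_nonneg j
    have h2 := (lt_iff' cs h w i).2 h1
    have h3 : w * cs.simple i = cs.simple j * u := by
      rw [hww, hw'u, ← mul_assoc, simple_mul_simple_cancel_right]
    rw [h3] at h2
    omega
  have hne' : rep cs h u⁻¹ (sr j) ≠ sr i := by
    intro he
    apply hne
    rw [← he, rep_apply_inv]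
  -- the two involutions
  set a := n j * τ * (n j)⁻¹ with ha
  set si := n i * τ * (n i)⁻¹ with hsi
  have haV := sigma_mem_V R C j (hV j)
  have hsV := sigma_mem_V R C i (hV i)
  have haU := V_le_U j haV
  have hsU := V_le_U i hsV
  rw [← ha] at haV haU
  rw [← hsi] at hsV hsU
  set b := ku * si * ku⁻¹ with hb
  have hbU : b ∈ RGD.Sup X (RGD.Pos cs h) := by
    have h1 : Rp cs R.nsys w' (ku * n i) := by rw [hw'u]; exact hku.mul (rp_simple cs R.nsys i)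
    have h2 := hmin h1 hj'
    have e : b = ku * n i * τ * (ku * n i)⁻¹ := by rw [hb, hsi]; group
    rw [e]; exact h2
  have haU' : ku⁻¹ * a * ku ∈ RGD.Sup X (RGD.Pos cs h) := by
    have h1 : Rp cs R.nsys (u⁻¹ * cs.simple j) (ku⁻¹ * n j) := hku.inv.mul (rp_simple cs R.nsys j)
    have hl : cs.length (u⁻¹ * cs.simple j) < cs.length w := by
      rw [← cs.length_inv (u⁻¹ * cs.simple j), mul_inv_rev, inv_inv, cs.inv_simple]
      omega
    have h2 := hmin h1 hl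
    have e : ku⁻¹ * a * ku = ku⁻¹ * n j * τ * (ku⁻¹ * n j)⁻¹ := by rw [ha]; group
    rw [e]; exact h2
  set z := a * b * a⁻¹ * b⁻¹ with hz
  have hz1 : z ≠ 1 := by
    intro h1
    have hab : a * b = b * a := by
      calc a * b = (a * b * a⁻¹ * b⁻¹) * b * a := by group
        _ = b * a := by rw [← hz, h1, one_mul]
    apply hkn
    have h2 : Rp cs R.nsys w ((n j)⁻¹ * ku * n i) := by
      have := ((rp_simple cs R.nsys j).inv.mul hku).mul (rp_simple cs R.nsys i)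
      rwa [cs.inv_simple, mul_assoc (cs.simple j), ← hw'u, ← hww] at this
    rw [conj_unique R C hk h2]
    apply C.max
    · have e : (n j)⁻¹ * ku * n i * τ * ((n j)⁻¹ * ku * n i)⁻¹ = (n j)⁻¹ * b * n j := by rw [hb, hsi]; group
      rw [e]
      calc (n j)⁻¹ * b * n j * τ = (n j)⁻¹ * (b * a) * n j := by rw [ha]; group
        _ = (n j)⁻¹ * (a * b) * n j := by rw [hab]
        _ = τ * ((n j)⁻¹ * b * n j) := by rw [ha]; group
    · exact conj_sq C _
  have hac : ∀ v ∈ RGD.Sup X (RGD.PosNe cs h j), v * a = a * v := fun v hv => sigma_comm R C j hv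
  have hsc : ∀ v ∈ RGD.Sup X (RGD.PosNe cs h i), v * si = si * v := fun v hv => sigma_comm R C i hv
  -- general fact
  have gen : ∀ (l : I) {p q : Y}, (∀ v ∈ RGD.Sup X (RGD.PosNe cs h l), v * p = p * v) →
      p ∈ RGD.Sup X (RGD.PosNe cs h l) → q ∈ RGD.Sup X (RGD.Pos cs h) →
      q * p * q⁻¹ ∈ RGD.Sup X (RGD.PosNe cs h l) ∧ ∀ v ∈ RGD.Sup X (RGD.PosNe cs h l), v * (q * p * q⁻¹) =
        q * p * q⁻¹ * v := by
    intro l p q h1 h2 h3
    refine ⟨conj_V R l h3 h2, fun v hv => ?_⟩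
    have h4 := conj_V R l (inv_mem h3) hv
    rw [inv_inv] at h4
    have h5 := h1 _ h4
    calc v * (q * p * q⁻¹) = q * (q⁻¹ * v * q * p) * q⁻¹ := by group
      _ = q * (p * (q⁻¹ * v * q)) * q⁻¹ := by rw [h5]
      _ = q * p * q⁻¹ * v := by group
  have hai : a⁻¹ = a := by
    rw [inv_eq_iff_mul_eq_one]; exact conj_sq C (n j)
  have hsii : si⁻¹ = si := by
    rw [inv_eq_iff_mul_eq_one]; exact conj_sq C (n i)
  obtain ⟨hg1, hg2⟩ := gen j hac haV hbU
  have hzV : z ∈ RGD.Sup X (RGD.PosNe cs h j) := by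
    have e : z = a * (b * a * b⁻¹) := by rw [hz, hai]; group
    rw [e]; exact mul_mem haV hg1
  have hzc : ∀ v ∈ RGD.Sup X (RGD.PosNe cs h j), v * z = z * v := by
    intro v hv
    have e : z = a * (b * a * b⁻¹) := by rw [hz, hai]; group
    rw [e]
    calc v * (a * (b * a * b⁻¹)) = (v * a) * (b * a * b⁻¹) := by group
      _ = a * (v * (b * a * b⁻¹)) := by rw [hac v hv]; group
      _ = a * (b * a * b⁻¹) * v := by rw [hg2 v hv]; group
  obtain ⟨hg3, hg4⟩ := gen i hsc hsV haU'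
  set z' := ku⁻¹ * z * ku with hz'
  have ez' : z' = (ku⁻¹ * a * ku) * si * (ku⁻¹ * a * ku)⁻¹ * si := by
    have e : z' = (ku⁻¹ * a * ku) * si * (ku⁻¹ * a * ku)⁻¹ * si⁻¹ := by
      rw [hz', hz, hb]
      group
    rw [e, hsii]
  have hzV' : z' ∈ RGD.Sup X (RGD.PosNe cs h i) := by
    rw [ez']; exact mul_mem hg3 hsV
  have hzc' : ∀ v ∈ RGD.Sup X (RGD.PosNe cs h i), v * z' = z' * v := by
    intro v hv
    rw [ez', ← mul_assoc, hg4 v hv, mul_assoc, hsc v hv, ← mul_assoc]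
  have hzX : ∀ x ∈ X (sr j), x * z = z * x := by
    intro x hx
    have h1 : ku⁻¹ * x * ku ∈ RGD.Sup X (RGD.PosNe cs h i) :=
      RGD.le_Sup (S := RGD.PosNe cs h i) ⟨(isRoot_sr cs h j).act _, hpj, hne'⟩
        (R.conj_mem' hku (isRoot_sr cs h j) hx)
    have h2 := hzc' _ h1
    calc x * z = ku * (ku⁻¹ * x * ku * z') * ku⁻¹ := by rw [hz']; group
      _ = ku * (z' * (ku⁻¹ * x * ku)) * ku⁻¹ := by rw [h2]
      _ = z * x := by rw [hz']; group
  have hzX' : ∀ x ∈ X (sr i), x * z' = z' * x := by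
    intro x hx
    have h1 : ku * x * ku⁻¹ ∈ RGD.Sup X (RGD.PosNe cs h j) :=
      RGD.le_Sup (S := RGD.PosNe cs h j) ⟨(isRoot_sr cs h i).act _, hpi, hne⟩
        (R.conj_mem hku (isRoot_sr cs h i) hx)
    have h2 := hzc _ h1
    calc x * z' = ku⁻¹ * (ku * x * ku⁻¹ * z) * ku := by rw [hz']; group
      _ = ku⁻¹ * (z * (ku * x * ku⁻¹)) * ku := by rw [h2]
      _ = z' * x := by rw [hz']; group
  have hzτ : z = τ := (C.zz z (V_le_U j hzV) (comm_U R j hzX hzc)).resolve_left hz1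
  have hz1' : z' ≠ 1 := by
    intro h1
    apply hz1
    calc z = ku * z' * ku⁻¹ := by rw [hz']; group
      _ = 1 := by rw [h1]; group
  have hzτ' : z' = τ := (C.zz z' (V_le_U i hzV') (comm_U R i hzX' hzc')).resolve_left hz1'
  have hu1 : u = 1 := by
    refine eq_one_of_comm R C hku ?_
    calc ku * τ = ku * z' := by rw [hzτ']
      _ = z * ku := by rw [hz']; group
      _ = τ * ku := by rw [hzτ]
  refine ⟨j, i, ?_⟩
  have hkT : ku ∈ T := by
    rw [hu1] at hku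
    exact hku.mem_of_one
  have hbs : b = si := T_sigma R C i hkT
  rw [← ha, ← hsi, ← hbs, ← hz, hzτ]

/-! ### the node groups have order two -/

include R C in
theorem neg_conj [Finite W] (j : I) {y : Y} (hy : y ∈ X (-sr j)) (hy1 : y ≠ 1) :
    ∃ x ∈ X (sr j), y * τ * y⁻¹ = x * (n j * τ * (n j)⁻¹) * x⁻¹ := by
  obtain ⟨a, ha, t, ht, b, hb, rfl⟩ := R.rk1 j y hy hy1
  refine ⟨a, ha, ?_⟩
  have h1 := C.cen b (X_le_U (isRoot_sr cs h j) (sr_nonneg j) hb)
  have h2 := T_sigma R C j ht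
  calc a * t * n j * b * τ * (a * t * n j * b)⁻¹ = a * t * n j * (b * τ) * b⁻¹ * (n j)⁻¹ * t⁻¹ * a⁻¹ := by group
    _ = a * (t * (n j * τ * (n j)⁻¹) * t⁻¹) * a⁻¹ := by rw [h1]; group
    _ = _ := by rw [h2]

include R C in
theorem neg_comm [Finite W] (j : I) {y : Y} (hy : y ∈ X (-sr j)) (hc : y * τ = τ * y) : y = 1 := by
  by_contra hy1
  obtain ⟨x, hx, e⟩ := neg_conj R C j hy hy1
  apply n_not_comm R C j
  have h1 := C.cen x (X_le_U (isRoot_sr cs h j) (sr_nonneg j) hx)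
  have h2 : n j * τ * (n j)⁻¹ = τ := by
    calc n j * τ * (n j)⁻¹ = x⁻¹ * (x * (n j * τ * (n j)⁻¹) * x⁻¹) * x := by group
      _ = x⁻¹ * (y * τ * y⁻¹) * x := by rw [e]
      _ = x⁻¹ * (τ * x) := by rw [hc]; group
      _ = τ := by rw [← h1]; group
  calc n j * τ = n j * τ * (n j)⁻¹ * n j := by group
    _ = τ * n j := by rw [h2]

/-- the conjugates of `τ` under the minimal parabolic -/
def Kl (n : I → Y) (X : (I → ℤ) → Subgroup Y) (τ : Y) (j : I) (g : Y) : Prop :=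
  g = τ ∨ ∃ x ∈ X (sr j), g = x * (n j * τ * (n j)⁻¹) * x⁻¹

include C in
theorem Kl.conj_x {j : I} {g x : Y} (hg : Kl n X τ j g) (hx : x ∈ X (sr j)) : Kl n X τ j (x * g * x⁻¹) := by
  rcases hg with rfl | ⟨y, hy, rfl⟩
  · left
    rw [C.cen x (X_le_U (isRoot_sr cs h j) (sr_nonneg j) hx)]; group
  · right
    exact ⟨x * y, mul_mem hx hy, by group⟩

include R C in
theorem Kl.conj_neg [Finite W] {j : I} {y : Y} (hy : y ∈ X (-sr j)) : Kl n X τ j (y * τ * y⁻¹) := by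
  by_cases hy1 : y = 1
  · left; rw [hy1]; group
  · right; exact neg_conj R C j hy hy1

include R C in
theorem n_sq (j : I) : n j * (n j * τ * (n j)⁻¹) * (n j)⁻¹ = τ := by
  have h1 := T_comm R C (R.sq_mem_T j)
  calc n j * (n j * τ * (n j)⁻¹) * (n j)⁻¹ = n j * n j * τ * (n j * n j)⁻¹ := by group
    _ = τ := by rw [h1]; group

include R C in
theorem n_inv (j : I) : (n j)⁻¹ * τ * n j = n j * τ * (n j)⁻¹ := by
  have h1 := n_sq R C j
  calc (n j)⁻¹ * τ * n j = (n j)⁻¹ * (n j * (n j * τ * (n j)⁻¹) * (n j)⁻¹) * n j := by rw [h1]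
    _ = _ := by group

include R C in
theorem Kl.conj_n [Finite W] {j : I} {g : Y} (hg : Kl n X τ j g) : Kl n X τ j (n j * g * (n j)⁻¹) := by
  rcases hg with rfl | ⟨y, hy, rfl⟩
  · right; exact ⟨1, one_mem _, by group⟩
  · have h1 : n j * y * (n j)⁻¹ ∈ X (-sr j) := by
      have := R.conj_mem (rp_simple cs R.nsys j) (isRoot_sr cs h j) hy
      rwa [rep_simple_sr] at this
    have e : n j * (y * (n j * τ * (n j)⁻¹) * y⁻¹) * (n j)⁻¹ =
        (n j * y * (n j)⁻¹) * τ * (n j * y * (n j)⁻¹)⁻¹ := by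
      nth_rewrite 2 [← n_sq R C j]
      group
    rw [e]
    exact Kl.conj_neg R C h1

include R C in
theorem Kl.conj_n' [Finite W] {j : I} {g : Y} (hg : Kl n X τ j g) : Kl n X τ j ((n j)⁻¹ * g * n j) := by
  rcases hg with rfl | ⟨y, hy, rfl⟩
  · right; exact ⟨1, one_mem _, by rw [n_inv R C j]; group⟩
  · have h1 : (n j)⁻¹ * y * n j ∈ X (-sr j) := by
      have := R.conj_mem' (rp_simple cs R.nsys j) (isRoot_sr cs h j) hy
      rwa [cs.inv_simple, rep_simple_sr] at this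
    have e : (n j)⁻¹ * (y * (n j * τ * (n j)⁻¹) * y⁻¹) * n j =
        ((n j)⁻¹ * y * n j) * τ * ((n j)⁻¹ * y * n j)⁻¹ := by group
    rw [e]
    exact Kl.conj_neg R C h1

include R C in
theorem Kl.mul [Finite W] {j : I} {x₀ : Y} (hx₀ : x₀ ∈ X (sr j))
    (he : x₀ * (n j * τ * (n j)⁻¹) * x₀⁻¹ = n j * τ * (n j)⁻¹ * τ) {g g' : Y} (hg : Kl n X τ j g)
    (hg' : Kl n X τ j g') (hne : g ≠ g') : Kl n X τ j (g * g') := by
  -- multiplication by `τ`
  have key : ∀ {g}, Kl n X τ j g → g ≠ τ → Kl n X τ j (g * τ) := by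
    rintro g (rfl | ⟨x, hx, rfl⟩) hgn
    · exact absurd rfl hgn
    · right
      refine ⟨x * x₀, mul_mem hx hx₀, ?_⟩
      have h1 := C.cen _ (inv_mem (X_le_U (isRoot_sr cs h j) (sr_nonneg j) hx))
      calc x * (n j * τ * (n j)⁻¹) * x⁻¹ * τ = x * (n j * τ * (n j)⁻¹) * (x⁻¹ * τ) := by group
        _ = x * (n j * τ * (n j)⁻¹ * τ) * x⁻¹ := by rw [h1]; group
        _ = x * (x₀ * (n j * τ * (n j)⁻¹) * x₀⁻¹) * x⁻¹ := by rw [he]
        _ = _ := by group
  rcases hg' with rfl | ⟨x, hx, rfl⟩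
  · exact key hg hne
  · set σ := n j * τ * (n j)⁻¹ with hσ
    have h1 := Kl.conj_n' R C (Kl.conj_x C hg (inv_mem hx))
    have h2 : (n j)⁻¹ * (x⁻¹ * g * x⁻¹⁻¹) * n j ≠ τ := by
      intro h3
      apply hne
      calc g = x * (n j * ((n j)⁻¹ * (x⁻¹ * g * x⁻¹⁻¹) * n j) * (n j)⁻¹) * x⁻¹ := by group
        _ = x * σ * x⁻¹ := by rw [h3]
    have h3 := Kl.conj_x C (Kl.conj_n R C (key h1 h2)) hx
    have e : x * (n j * ((n j)⁻¹ * (x⁻¹ * g * x⁻¹⁻¹) * n j * τ) * (n j)⁻¹) * x⁻¹ = g * (x * σ * x⁻¹) := by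
      rw [hσ]; group
    rwa [e] at h3

include R C in
theorem card_X [Finite W] [Finite Y] (j : I) (hV : RGD.Sup X (RGD.PosNe cs h j) ≠ ⊥) {g : Y}
    (hg : g ∈ RGD.Sup X (RGD.Pos cs h)) (he : g * (n j * τ * (n j)⁻¹) * g⁻¹ = n j * τ * (n j)⁻¹ * τ) :
    Nat.card (X (sr j)) = 2 := by
  have : Fact (Nat.Prime 2) := ⟨Nat.prime_two⟩
  set σ := n j * τ * (n j)⁻¹ with hσ
  obtain ⟨x₀, hx₀, v, hv, rfl⟩ := U_mul R j hg
  have he' : x₀ * σ * x₀⁻¹ = σ * τ := by
    have h1 := sigma_comm R C j hv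
    rw [← hσ] at h1
    rw [← he]
    calc x₀ * σ * x₀⁻¹ = x₀ * (σ * v) * v⁻¹ * x₀⁻¹ := by group
      _ = x₀ * (v * σ) * v⁻¹ * x₀⁻¹ := by rw [h1]
      _ = _ := by group
  have hσU : σ ∈ RGD.Sup X (RGD.Pos cs h) := V_le_U j (sigma_mem_V R C j hV)
  have hXU := X_le_U (X := X) (isRoot_sr cs h j) (sr_nonneg j)
  have hsq : ∀ {g}, Kl n X τ j g → g * g = 1 := by
    rintro g (rfl | ⟨x, hx, rfl⟩)
    · exact C.sq
    · calc x * (n j * τ * (n j)⁻¹) * x⁻¹ * (x * (n j * τ * (n j)⁻¹) * x⁻¹) = x * n j * (τ * τ) * (n j)⁻¹ * x⁻¹ := by group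
        _ = 1 := by rw [C.sq]; group
  let S : Subgroup Y :=
    { carrier := {g | g = 1 ∨ Kl n X τ j g}
      one_mem' := Or.inl rfl
      mul_mem' := by
        rintro a b (rfl | ha) (rfl | hb)
        · left; rw [one_mul]
        · right; rwa [one_mul]
        · right; rwa [mul_one]
        · by_cases hab : a = b
          · left; rw [hab]; exact hsq hb
          · right; exact Kl.mul R C hx₀ he' ha hb hab
      inv_mem' := by
        rintro a (rfl | ha)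
        · left; exact inv_one
        · right
          rw [inv_eq_of_mul_eq_one_left (hsq ha)]; exact ha }
  have hSU : S ≤ RGD.Sup X (RGD.Pos cs h) := by
    rintro g (rfl | rfl | ⟨x, hx, rfl⟩)
    · exact one_mem _
    · exact C.mem
    · exact mul_mem (mul_mem (hXU hx) hσU) (inv_mem (hXU hx))
  have hne : ∀ x ∈ X (sr j), x * σ * x⁻¹ ≠ τ := by
    intro x hx h1
    apply n_not_comm R C j
    have h2 := C.cen x (hXU hx)
    have h3 : σ = τ := by
      calc σ = x⁻¹ * (x * σ * x⁻¹) * x := by group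
        _ = x⁻¹ * (τ * x) := by rw [h1]; group
        _ = τ := by rw [← h2]; group
    calc n j * τ = σ * n j := by rw [hσ]; group
      _ = τ * n j := by rw [h3]
  have hne1 : ∀ x : Y, x * σ * x⁻¹ ≠ 1 := by
    intro x h1
    apply C.ne
    calc τ = (n j)⁻¹ * x⁻¹ * (x * σ * x⁻¹) * x * n j := by rw [hσ]; group
      _ = 1 := by rw [h1]; group
  let f : Option (Option (X (sr j))) → S := fun o => match o with
    | none => 1
    | some none => ⟨τ, Or.inr (Or.inl rfl)⟩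
    | some (some x) => ⟨x * σ * (x : Y)⁻¹, Or.inr (Or.inr ⟨x, x.2, rfl⟩)⟩
  have hf : Function.Bijective f := by
    constructor
    · rintro (_ | _ | x) (_ | _ | y) hxy
      · rfl
      · exact absurd (congrArg Subtype.val hxy).symm C.ne
      · exact absurd (congrArg Subtype.val hxy).symm (hne1 y)
      · exact absurd (congrArg Subtype.val hxy) C.ne
      · rfl
      · exact absurd (congrArg Subtype.val hxy).symm (hne y y.2)
      · exact absurd (congrArg Subtype.val hxy) (hne1 x)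
      · exact absurd (congrArg Subtype.val hxy) (hne x x.2)
      · have h1 : (x : Y) * σ * (x : Y)⁻¹ = y * σ * (y : Y)⁻¹ := congrArg Subtype.val hxy
        have h2 : (n j)⁻¹ * ((y : Y)⁻¹ * x) * n j ∈ X (-sr j) := by
          have := R.conj_mem' (rp_simple cs R.nsys j) (isRoot_sr cs h j) (mul_mem (inv_mem y.2) x.2)
          rwa [cs.inv_simple, rep_simple_sr] at this
        have h3 := neg_comm R C j h2 (by
          calc (n j)⁻¹ * ((y : Y)⁻¹ * x) * n j * τ = (n j)⁻¹ * (y : Y)⁻¹ * (x * σ * (x : Y)⁻¹) * x * n j := by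
                rw [hσ]; group
            _ = (n j)⁻¹ * (y : Y)⁻¹ * (y * σ * (y : Y)⁻¹) * x * n j := by rw [h1]
            _ = τ * ((n j)⁻¹ * ((y : Y)⁻¹ * x) * n j) := by rw [hσ]; group)
        have h4 : (y : Y)⁻¹ * x = 1 := by
          calc (y : Y)⁻¹ * x = n j * ((n j)⁻¹ * ((y : Y)⁻¹ * x) * n j) * (n j)⁻¹ := by group
            _ = 1 := by rw [h3]; group
        have h5 : x = y := Subtype.ext (inv_mul_eq_one.1 h4).symm
        rw [h5]
    · rintro ⟨g, rfl | rfl | ⟨x, hx, rfl⟩⟩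
      · exact ⟨none, rfl⟩
      · exact ⟨some none, rfl⟩
      · exact ⟨some (some ⟨x, hx⟩), rfl⟩
  have hcard : Nat.card S = Nat.card (X (sr j)) + 2 := by
    rw [← Nat.card_congr (Equiv.ofBijective f hf), Finite.card_option, Finite.card_option]
  obtain ⟨a, ha⟩ := (IsPGroup.iff_card (p := 2)).1 (R.isPGroup_Upos.to_le hSU)
  obtain ⟨b, hb⟩ := (IsPGroup.iff_card (p := 2)).1 (R.pgrp j)
  rw [ha, hb] at hcard
  have hb0 : b ≠ 0 := by
    rintro rfl
    obtain ⟨u, hu, hu1⟩ := exists_ne_one R j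
    rw [pow_zero, Nat.card_eq_one_iff_unique] at hb
    have := hb.1
    exact hu1 (congrArg Subtype.val (Subsingleton.elim (⟨u, hu⟩ : X (sr j)) 1))
  have hb1 : b = 1 := by
    by_contra hcon
    obtain ⟨c, rfl⟩ : ∃ c, b = c + 2 := ⟨b - 2, by omega⟩
    have h1 : 2 ^ (c + 2) = 4 * 2 ^ c := by ring
    have h2 := Nat.one_le_two_pow (n := c)
    rw [h1] at hcard
    rcases a with _ | _ | a
    · rw [pow_zero] at hcard
      omega
    · rw [zero_add, pow_one] at hcard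
      omega
    · have h3 : 2 ^ (a + 2) = 4 * 2 ^ a := by ring
      rw [h3] at hcard
      omega
  rw [hb, hb1, pow_one]

/-! ### the bound -/

include R in
/-- two elements of `U` outside `V_i` differ by an element of `V_i` when `|X_i| = 2` -/
theorem mul_inv_mem_V [Finite W] (i : I) (h2 : Nat.card (X (sr i)) = 2) {g g' : Y}
    (hg : g ∈ RGD.Sup X (RGD.Pos cs h)) (hg' : g' ∈ RGD.Sup X (RGD.Pos cs h))
    (hn : g ∉ RGD.Sup X (RGD.PosNe cs h i)) (hn' : g' ∉ RGD.Sup X (RGD.PosNe cs h i)) :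
    g * g'⁻¹ ∈ RGD.Sup X (RGD.PosNe cs h i) := by
  obtain ⟨x, hx, v, hv, rfl⟩ := U_mul R i hg
  obtain ⟨x', hx', v', hv', rfl⟩ := U_mul R i hg'
  have hx1 : x ≠ 1 := by
    rintro rfl; exact hn (by rwa [one_mul])
  have hx1' : x' ≠ 1 := by
    rintro rfl; exact hn' (by rwa [one_mul])
  have hxx : x = x' := by
    have hf : Finite (X (sr i)) := Nat.finite_of_card_ne_zero (by rw [h2]; decide)
    obtain ⟨a, b, hab, huniv⟩ := Nat.card_eq_two_iff.1 h2
    have h3 : ∀ z : X (sr i), z = a ∨ z = b := by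
      intro z
      have : z ∈ ({a, b} : Set (X (sr i))) := by rw [huniv]; trivial
      simpa using this
    have h4 : ∀ {z : Y} (hz : z ∈ X (sr i)), z ≠ 1 → (⟨z, hz⟩ : X (sr i)) ≠ 1 := fun hz h5 h6 =>
      h5 (congrArg Subtype.val h6)
    have e1 := h4 hx hx1
    have e2 := h4 hx' hx1'
    apply congrArg Subtype.val (a₁ := (⟨x, hx⟩ : X (sr i))) (a₂ := ⟨x', hx'⟩)
    rcases h3 1 with h5 | h5 <;> rcases h3 ⟨x, hx⟩ with h6 | h6 <;> rcases h3 ⟨x', hx'⟩ with h7 | h7 <;>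
      simp_all
  rw [hxx]
  have e : x' * v * (x' * v')⁻¹ = x' * (v * v'⁻¹) * x'⁻¹ := by group
  rw [e]
  exact conj_V R i (X_le_U (isRoot_sr cs h i) (sr_nonneg i) hx') (mul_mem hv (inv_mem hv'))

open scoped commutatorElement in
include R C in
theorem card_U_le [Finite W] [Finite Y] (hV : ∀ i, RGD.Sup X (RGD.PosNe cs h i) ≠ ⊥) :
    Nat.card (RGD.Sup X (RGD.Pos cs h)) ≤ 8 := by
  obtain ⟨j, i, hji⟩ := exists_pair R C hV
  have hsj := sigma_mem_V R C j (hV j)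
  have hsi := sigma_mem_V R C i (hV i)
  have hcj : ∀ v ∈ RGD.Sup X (RGD.PosNe cs h j), v * (n j * τ * (n j)⁻¹) = n j * τ * (n j)⁻¹ * v :=
    fun v hv => sigma_comm R C j hv
  have hci : ∀ v ∈ RGD.Sup X (RGD.PosNe cs h i), v * (n i * τ * (n i)⁻¹) = n i * τ * (n i)⁻¹ * v :=
    fun v hv => sigma_comm R C i hv
  have hsqj := conj_sq C (n j)
  have hsqi := conj_sq C (n i)
  have hnj : ∀ v ∈ RGD.Sup X (RGD.PosNe cs h j), n j * v * (n j)⁻¹ ∈ RGD.Sup X (RGD.PosNe cs h j) :=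
    fun v hv => conj_n_V R j hv
  generalize hσj : n j * τ * (n j)⁻¹ = a at hji hsj hcj hsqj
  generalize hσi : n i * τ * (n i)⁻¹ = b at hji hsi hci hsqi
  set U := RGD.Sup X (RGD.Pos cs h) with hU
  set Vj := RGD.Sup X (RGD.PosNe cs h j) with hVj
  set Vi := RGD.Sup X (RGD.PosNe cs h i) with hVi
  have haU : a ∈ U := V_le_U j hsj
  have hbU : b ∈ U := V_le_U i hsi
  have ha1 : a⁻¹ = a := by rw [inv_eq_iff_mul_eq_one]; exact hsqj
  have hb1 : b⁻¹ = b := by rw [inv_eq_iff_mul_eq_one]; exact hsqi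
  have hab : ¬ a * b = b * a := by
    intro h1
    apply C.ne
    rw [← hji, h1]; group
  have hjX : Nat.card (X (sr j)) = 2 := by
    refine card_X R C j (hV j) hbU ?_
    rw [hσj]
    have h1 := C.cen a haU
    calc b * a * b⁻¹ = a * (a⁻¹ * b * a * b⁻¹) := by group
      _ = a * (a * b * a⁻¹ * b⁻¹) := by rw [ha1]
      _ = a * τ := by rw [hji]
  have hiX : Nat.card (X (sr i)) = 2 := by
    refine card_X R C i (hV i) haU ?_
    rw [hσi]
    calc a * b * a⁻¹ = (a * b * a⁻¹ * b⁻¹) * b := by group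
      _ = τ * b := by rw [hji]
      _ = b * τ := (C.cen b hbU).symm
  have haVi : a ∉ Vi := fun h1 => hab (hci a h1)
  have hbVj : b ∉ Vj := fun h1 => hab (hcj b h1).symm
  -- `Q = V_i ∩ V_j`
  have hdj : ∀ v ∈ Vj, v ∈ Vj ⊓ Vi ∨ v * a⁻¹ ∈ Vj ⊓ Vi := by
    intro v hv
    by_cases h1 : v ∈ Vi
    · exact Or.inl ⟨hv, h1⟩
    · exact Or.inr (mem_inf.2 ⟨mul_mem hv (inv_mem hsj), mul_inv_mem_V R i hiX (V_le_U j hv) haU h1 haVi⟩)
  have hdi : ∀ v ∈ Vi, v ∈ Vj ⊓ Vi ∨ v * b⁻¹ ∈ Vj ⊓ Vi := by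
    intro v hv
    by_cases h1 : v ∈ Vj
    · exact Or.inl ⟨h1, hv⟩
    · exact Or.inr (mem_inf.2 ⟨mul_inv_mem_V R j hjX (V_le_U i hv) hbU h1 hbVj, mul_mem hv (inv_mem hsi)⟩)
  have hdU : ∀ u ∈ U, u ∈ Vj ∨ u * b⁻¹ ∈ Vj := by
    intro u hu
    by_cases h1 : u ∈ Vj
    · exact Or.inl h1
    · exact Or.inr (mul_inv_mem_V R j hjX hu hbU h1 hbVj)
  -- commutators
  have hcomm : ∀ {V : Subgroup Y} {c : Y}, (∀ v ∈ V, v * c = c * v) → (∀ v ∈ V, v ∈ Vj ⊓ Vi ∨ v * c⁻¹ ∈ Vj ⊓ Vi) →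
      c ∈ V → ⁅V, V⁆ ≤ ⁅Vj ⊓ Vi, Vj ⊓ Vi⁆ := by
    intro V c hc hd hcV
    rw [commutator_le]
    intro p hp q hq
    have e1 : ∀ {p q : Y}, p ∈ V → q ∈ V → ⁅p * c⁻¹, q⁆ = ⁅p, q⁆ := by
      intro p q hp hq
      have h2 := hc _ (inv_mem hp)
      have h3 := hc _ hq
      rw [commutatorElement_def, commutatorElement_def]
      calc p * c⁻¹ * q * (p * c⁻¹)⁻¹ * q⁻¹ = p * c⁻¹ * (q * c) * p⁻¹ * q⁻¹ := by group
        _ = p * c⁻¹ * (c * q) * p⁻¹ * q⁻¹ := by rw [h3]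
        _ = _ := by group
    have e2 : ∀ {p q : Y}, p ∈ V → q ∈ V → ⁅p, q * c⁻¹⁆ = ⁅p, q⁆ := by
      intro p q hp hq
      rw [← commutatorElement_inv, e1 hq hp, commutatorElement_inv]
    have e3 : ∃ p' ∈ Vj ⊓ Vi, ∃ q' ∈ Vj ⊓ Vi, ⁅p, q⁆ = ⁅p', q'⁆ := by
      rcases hd p hp with h1 | h1 <;> rcases hd q hq with h2 | h2
      · exact ⟨p, h1, q, h2, rfl⟩
      · exact ⟨p, h1, _, h2, (e2 hp hq).symm⟩
      · exact ⟨_, h1, q, h2, (e1 hp hq).symm⟩
      · exact ⟨_, h1, _, h2, by rw [e1 hp (mul_mem hq (inv_mem hcV)), e2 hp hq]⟩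
    obtain ⟨p', hp', q', hq', e⟩ := e3
    rw [e]
    exact commutator_mem_commutator hp' hq'
  have hNj : ⁅Vj, Vj⁆ = ⁅Vj ⊓ Vi, Vj ⊓ Vi⁆ :=
    le_antisymm (hcomm hcj hdj hsj) (commutator_mono inf_le_left inf_le_left)
  have hQab : ⁅Vj ⊓ Vi, Vj ⊓ Vi⁆ = ⊥ := by
    by_contra hN0
    have hNU : ⁅Vj ⊓ Vi, Vj ⊓ Vi⁆ ≤ Vj ⊓ Vi := by
      rw [commutator_le]
      intro p hp q hq
      rw [commutatorElement_def]
      exact mul_mem (mul_mem (mul_mem hp hq) (inv_mem hp)) (inv_mem hq)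
    have hτN : τ ∈ ⁅Vj ⊓ Vi, Vj ⊓ Vi⁆ := by
      refine mem_of_normal R C (hNU.trans (inf_le_left.trans (V_le_U j))) hN0 ?_
      intro u hu x hx
      rw [← hNj] at hx ⊢
      have h1 : u * x * u⁻¹ ∈ cj u ⁅Vj, Vj⁆ := conj_mem_cj.2 hx
      unfold cj at h1
      rw [map_commutator] at h1
      refine commutator_mono ?_ ?_ h1
      all_goals
        rintro _ ⟨y, hy, rfl⟩
        exact conj_V R j hu hy
    have hσN : a ∈ ⁅Vj ⊓ Vi, Vj ⊓ Vi⁆ := by
      rw [← hNj] at hτN ⊢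
      have h1 : n j * τ * (n j)⁻¹ ∈ cj (n j) ⁅Vj, Vj⁆ := conj_mem_cj.2 hτN
      rw [hσj] at h1
      unfold cj at h1
      rw [map_commutator] at h1
      refine commutator_mono ?_ ?_ h1
      all_goals
        rintro _ ⟨y, hy, rfl⟩
        exact hnj y hy
    exact haVi (hNU hσN).2
  -- `Q` is central in `U`
  have hQc : ∀ q ∈ Vj ⊓ Vi, ∀ u ∈ U, u * q = q * u := by
    intro q hq u hu
    have h1 : ∀ v ∈ Vj ⊓ Vi, v * q = q * v := by
      intro v hv
      have h2 := commutator_mem_commutator hv hq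
      rw [hQab, mem_bot, commutatorElement_eq_one_iff_mul_comm] at h2
      exact h2
    have h2 : ∀ v ∈ Vj, v * q = q * v := by
      intro v hv
      rcases hdj v hv with h3 | h3
      · exact h1 v h3
      · have h4 := h1 _ h3
        have h5 := hcj q hq.1
        calc v * q = v * a⁻¹ * (a * q) := by group
          _ = (v * a⁻¹ * q) * a := by rw [← h5]; group
          _ = q * v := by rw [h4]; group
    rcases hdU u hu with h3 | h3
    · exact h2 u h3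
    · have h4 := h2 _ h3
      have h5 := hci q hq.2
      calc u * q = u * b⁻¹ * (b * q) := by group
        _ = (u * b⁻¹ * q) * b := by rw [← h5]; group
        _ = q * u := by rw [h4]; group
  have hQ2 : ∀ q ∈ Vj ⊓ Vi, q = 1 ∨ q = τ := fun q hq => C.zz q (V_le_U j hq.1) (hQc q hq)
  -- counting
  classical
  have hsub : (U : Set Y) ⊆ ((({1, τ, a, τ * a, b, τ * b, a * b, τ * a * b} : Finset Y)) : Set Y) := by
    intro u hu
    have h1 : ∀ v ∈ Vj, v = 1 ∨ v = τ ∨ v = a ∨ v = τ * a := by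
      intro v hv
      rcases hdj v hv with h3 | h3
      · rcases hQ2 v h3 with h4 | h4
        · exact Or.inl h4
        · exact Or.inr (Or.inl h4)
      · rcases hQ2 _ h3 with h4 | h4
        · exact Or.inr (Or.inr (Or.inl (mul_inv_eq_one.1 h4)))
        · exact Or.inr (Or.inr (Or.inr (mul_inv_eq_iff_eq_mul.1 h4)))
    rcases hdU u hu with h3 | h3
    · rcases h1 u h3 with h4 | h4 | h4 | h4 <;> simp [h4]
    · rcases h1 _ h3 with h4 | h4 | h4 | h4 <;> rw [mul_inv_eq_iff_eq_mul] at h4 <;> simp [h4]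
  have h1 := Set.ncard_le_ncard hsub (Finset.finite_toSet _)
  rw [Set.ncard_coe_finset] at h1
  have h2 : (U : Set Y).ncard = Nat.card U := rfl
  rw [h2] at h1
  exact h1.trans ((Finset.card_insert_le _ _).trans (Nat.succ_le_succ ((Finset.card_insert_le _ _).trans
    (Nat.succ_le_succ Finset.card_le_six))))

end Cfsg.Agent.H762.Closed
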