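import Cfsg.Agent.H851.SimsDefs
import Cfsg.Prelude.Def_Classification2

/-!
helper762 (market task 453, for S3386): general consequences of the Sims configuration `Cfg`.
-/

set_option autoImplicit false

namespace Cfsg.Agent.H762.SimsCfg

open Cfsg Cfsg.Agent.H851.Sims
open Subgroup

variable {G : Type*} [Group G] {c : ℕ} {S A Q : Subgroup G} {g : G}

/-- `A ⊓ S ≠ 1` gives `O_p(A) ⊓ S ≠ 1` -/
theorem inf_ne_bot {p : ℕ} (h : Cfg c p S A Q g) (hA : A ⊓ S ≠ ⊥) : Q ⊓ S ≠ ⊥ := by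
  have hS := h.norm
  intro h0
  apply hA
  rw [eq_bot_iff, ← h0]
  refine le_inf ?_ inf_le_right
  intro y hy
  refine h.Qcent (mem_inf.2 ⟨?_, hy.1⟩)
  rw [mem_centralizer_iff]
  intro x hx
  have hx : x ∈ Q := hx
  have h1 : x * y * x⁻¹ * y⁻¹ ∈ Q ⊓ S := by
    constructor
    · have h2 : y * x⁻¹ * y⁻¹ ∈ Q := (mem_normalizer_iff.1 (h.Qnorm hy.1) _).1 (Q.inv_mem hx)
      have h3 := mul_mem (show x ∈ Q from hx) h2
      rwa [← mul_assoc, ← mul_assoc] at h3
    · exact S.mul_mem (hS.conj_mem _ hy.2 x) (S.inv_mem hy.2)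
  rw [h0, mem_bot] at h1
  calc x * y = x * y * x⁻¹ * y⁻¹ * (y * x) := by group
    _ = y * x := by rw [h1, one_mul]

/-- the normaliser of an `A`-invariant proper nontrivial subgroup of `S` is `A` -/
theorem norm_eq {p : ℕ} (h : Cfg c p S A Q g) {X : Subgroup G} (hX : X ≤ S) (h1 : X ≠ ⊥) (h2 : ¬ S ≤ X)
    (hn : A ≤ normalizer (X : Set G)) : normalizer (X : Set G) = A := by
  rcases h.coatom.le_iff.1 hn with h3 | h3
  · exfalso
    have hN : X.Normal := normalizer_eq_top_iff.1 h3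
    have hs := h.simple
    have hN' : (X.subgroupOf S).Normal := normal_subgroupOf
    rcases hs.eq_bot_or_eq_top_of_normal _ hN' with h4 | h4
    · apply h1
      rw [subgroupOf_eq_bot] at h4
      exact eq_bot_iff.2 fun x hx => (disjoint_iff_inf_le.1 h4) ⟨hx, hX hx⟩
    · exact h2 (subgroupOf_eq_top.1 h4)
  · exact h3

theorem norm_eq_comm {p : ℕ} (h : Cfg c p S A Q g) {X : Subgroup G} (hX : X ≤ S) (h1 : X ≠ ⊥)
    (h2 : ∀ x ∈ X, ∀ y ∈ X, x * y = y * x) (hn : A ≤ normalizer (X : Set G)) : normalizer (X : Set G) = A := by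
  refine norm_eq h hX h1 (fun h3 => ?_) hn
  obtain ⟨a, ha, b, hb, hab⟩ := h.nonab
  exact hab (h2 a (h3 ha) b (h3 hb))

theorem norm_inf {p : ℕ} (h : Cfg c p S A Q g) (hA : A ⊓ S ≠ ⊥) : normalizer ((Q ⊓ S : Subgroup G) : Set G) = A := by
  have hS := h.norm
  refine norm_eq h inf_le_right (inf_ne_bot h hA) (fun h3 => h.notle fun x hx => h.Qle (h3 hx).1) ?_
  intro a ha
  rw [mem_normalizer_iff]
  intro x
  constructor
  · intro hx
    exact ⟨(mem_normalizer_iff.1 (h.Qnorm ha) _).1 hx.1, hS.conj_mem _ hx.2 a⟩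
  · intro hx
    refine ⟨(mem_normalizer_iff.1 (h.Qnorm ha) _).2 hx.1, ?_⟩
    have h1 := hS.conj_mem _ hx.2 a⁻¹
    have e : a⁻¹ * (a * x * a⁻¹) * a⁻¹⁻¹ = x := by group
    rwa [e] at h1

/-- elements of `C_S(R)`, `R = Q ⊓ S`, of order prime to `p` are trivial -/
theorem cent_pprime [Finite G] {p : ℕ} (h : Cfg c p S A Q g) (hA : A ⊓ S ≠ ⊥) {x : G} (hx : x ∈ S)
    (hc : ∀ r ∈ Q ⊓ S, x * r = r * x) (ho : (orderOf x).Coprime p) : x = 1 := by
  have hS := h.norm
  have hfact : Fact p.Prime := ⟨h.prime⟩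
  have hxA : x ∈ A := by
    rw [← norm_inf h hA, mem_normalizer_iff]
    intro r
    constructor
    · intro hr
      rw [hc r hr, mul_inv_cancel_right]; exact hr
    · intro hr
      have h1 := hc _ hr
      have h2 : x * r * x⁻¹ = r := by
        have h3 : x * (x * r * x⁻¹) = x * r := by rw [h1]; group
        exact mul_left_cancel h3
      rwa [h2] at hr
  have hxQ : x ∈ Q := by
    refine h.Qcent (mem_inf.2 ⟨?_, hxA⟩)
    rw [mem_centralizer_iff]
    intro y hy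
    have hy : y ∈ Q := hy
    set r := y⁻¹ * (x * y * x⁻¹) with hr
    have hrR : r ∈ Q ⊓ S := by
      constructor
      · exact Q.mul_mem (Q.inv_mem hy) ((mem_normalizer_iff.1 (h.Qnorm hxA) _).1 hy)
      · have e : r = (y⁻¹ * x * y⁻¹⁻¹) * x⁻¹ := by rw [hr]; group
        rw [e]
        exact S.mul_mem (hS.conj_mem _ hx y⁻¹) (S.inv_mem hx)
    have hxr : ∀ n : ℕ, x * r ^ n = r ^ n * x := fun n => hc _ (pow_mem hrR n)
    have key : ∀ n : ℕ, x ^ n * y = y * r ^ n * x ^ n := by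
      intro n
      induction n with
      | zero => simp
      | succ n ih =>
        calc x ^ (n + 1) * y = x * (x ^ n * y) := by rw [pow_succ', mul_assoc]
          _ = x * (y * r ^ n * x ^ n) := by rw [ih]
          _ = y * r * x * (r ^ n * x ^ n) := by rw [hr]; group
          _ = y * r * (x * r ^ n) * x ^ n := by group
          _ = y * r * (r ^ n * x) * x ^ n := by rw [hxr]
          _ = y * r ^ (n + 1) * x ^ (n + 1) := by rw [pow_succ' r, pow_succ' x]; group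
    have h1 := key (orderOf x)
    rw [pow_orderOf_eq_one, one_mul, mul_one] at h1
    have h2 : r ^ orderOf x = 1 := by
      have h3 : y * 1 = y * r ^ orderOf x := by rw [mul_one]; exact h1
      exact (mul_left_cancel h3).symm
    obtain ⟨k, hk⟩ := h.Qp ⟨r, hrR.1⟩
    have hk' : r ^ p ^ k = 1 := congrArg Subtype.val hk
    have h4 : orderOf r ∣ (orderOf x).gcd (p ^ k) := Nat.dvd_gcd (orderOf_dvd_of_pow_eq_one h2) (orderOf_dvd_of_pow_eq_one hk')
    rw [Nat.Coprime.pow_right k ho, Nat.dvd_one, orderOf_eq_one_iff] at h4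
    have h5 : x * y * x⁻¹ = y := by
      have : y * r = y := by rw [h4, mul_one]
      rwa [hr, mul_inv_cancel_left] at this
    calc y * x = x * y * x⁻¹ * x := by rw [h5]
      _ = x * y := by group
  obtain ⟨k, hk⟩ := h.Qp ⟨x, hxQ⟩
  have hk' : x ^ p ^ k = 1 := congrArg Subtype.val hk
  have h4 : orderOf x ∣ (orderOf x).gcd (p ^ k) := Nat.dvd_gcd dvd_rfl (orderOf_dvd_of_pow_eq_one hk')
  rwa [Nat.Coprime.pow_right k ho, Nat.dvd_one, orderOf_eq_one_iff] at h4

/-- `C_S(R) ≤ R`, `R = Q ⊓ S` -/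
theorem cent_le [Finite G] {p : ℕ} (h : Cfg c p S A Q g) (hA : A ⊓ S ≠ ⊥) {x : G} (hx : x ∈ S)
    (hc : ∀ r ∈ Q ⊓ S, x * r = r * x) : x ∈ Q ⊓ S := by
  have hS := h.norm
  have hfact : Fact p.Prime := ⟨h.prime⟩
  have hN := norm_inf h hA
  set C := centralizer ((Q ⊓ S : Subgroup G) : Set G) ⊓ S with hC
  have hmem : ∀ {y}, y ∈ C ↔ (∀ r ∈ Q ⊓ S, y * r = r * y) ∧ y ∈ S := by
    intro y
    rw [hC, mem_inf, mem_centralizer_iff]
    exact ⟨fun ⟨h1, h2⟩ => ⟨fun r hr => (h1 r hr).symm, h2⟩, fun ⟨h1, h2⟩ => ⟨fun r hr => (h1 r hr).symm, h2⟩⟩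
  have hCA : C ≤ A := by
    intro y hy
    rw [← hN]
    exact centralizer_le_normalizer _ (mem_inf.1 hy).1
  have hAC : A ≤ normalizer (C : Set G) := by
    have aux : ∀ a ∈ A, ∀ y ∈ C, a * y * a⁻¹ ∈ C := by
      intro a ha y hy
      rw [hmem] at hy ⊢
      refine ⟨fun r hr => ?_, hS.conj_mem _ hy.2 a⟩
      have h1 : a⁻¹ * r * a ∈ Q ⊓ S := by
        have h2 : a⁻¹ ∈ normalizer ((Q ⊓ S : Subgroup G) : Set G) := by rw [hN]; exact inv_mem ha
        have h3 := (mem_normalizer_iff.1 h2 r).1 hr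
        rwa [inv_inv] at h3
      calc a * y * a⁻¹ * r = a * (y * (a⁻¹ * r * a)) * a⁻¹ := by group
        _ = a * ((a⁻¹ * r * a) * y) * a⁻¹ := by rw [hy.1 _ h1]
        _ = r * (a * y * a⁻¹) := by group
    intro a ha
    rw [mem_normalizer_iff]
    intro y
    refine ⟨aux a ha y, fun hy => ?_⟩
    have h1 := aux a⁻¹ (inv_mem ha) _ hy
    have e : a⁻¹ * (a * y * a⁻¹) * a⁻¹⁻¹ = y := by group
    rwa [e] at h1
  have hCp : IsPGroup p C := by
    rintro ⟨y, hy⟩
    obtain ⟨k, m, hm, he⟩ := Nat.exists_eq_pow_mul_and_not_dvd (n := orderOf y) (orderOf_pos y).ne' p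
      h.prime.ne_one
    refine ⟨k, Subtype.ext ?_⟩
    show y ^ p ^ k = 1
    have hy' := hmem.1 (pow_mem hy (p ^ k))
    refine cent_pprime h hA hy'.2 hy'.1 ?_
    have h1 : orderOf (y ^ p ^ k) = m := by
      rw [orderOf_pow_of_dvd (pow_ne_zero _ h.prime.ne_zero) (by rw [he]; exact dvd_mul_right _ _), he,
        Nat.mul_div_cancel_left _ (pow_pos h.prime.pos _)]
    rw [h1]
    exact ((Nat.Prime.coprime_iff_not_dvd h.prime).2 hm).symm
  exact ⟨h.Qmax C hCA hAC hCp (hmem.2 ⟨hc, hx⟩), hx⟩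

/-- elements of `A`, distinct modulo `Q`, are at most `c` -/
theorem inj_bound [Finite G] {p : ℕ} (h : Cfg c p S A Q g) {ι : Type*} (f : ι → G) (hf : ∀ i, f i ∈ A)
    (hinj : ∀ i j, (f i)⁻¹ * f j ∈ Q → i = j) : Nat.card ι ≤ c := by
  refine le_trans ?_ h.Qidx
  let φ : ι → ↥A ⧸ Q.subgroupOf A := fun i => QuotientGroup.mk ⟨f i, hf i⟩
  have hφ : Function.Injective φ := by
    intro i j hij
    apply hinj
    have h1 := (QuotientGroup.eq (s := Q.subgroupOf A)).1 hij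
    exact h1
  exact Nat.card_le_card_of_injective φ hφ

end Cfsg.Agent.H762.SimsCfg
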