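import Cfsg.Agent.H762.SimsCfg
import Cfsg.Agent.H762.TwFMove
import Cfsg.Agent.S1068

/-!
helper762 (market task 453, for S3386): the Sims bound for `²F₄(q)`.
-/

set_option autoImplicit false

namespace Cfsg.Agent.H762.SimsTwF

open Cfsg Cfsg.Agent.H851.Sims Cfsg.Agent.H762.SimsCfg
open Cfsg.Agent.SplitTwo Cfsg.Agent.SplitTwo.ZS Cfsg.Agent.TitsThree.RankTwoZ Cfsg.Agent.SplitTwo.RootSysZ
open Cfsg.Agent.KFacts.TwF4 Cfsg.Agent.KFacts.TwF4.Arc Cfsg.Agent.KFacts.TwF4.Irr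
open Cfsg.Agent.KFacts.TwF4.Inv Cfsg.Agent.KFacts.TwF4.Layers Cfsg.Agent.CpAutTwF Cfsg.Agent.H762.AutPL
open Cfsg.Agent.H762.Loc
open Subgroup

universe u v

section

variable {F : Type*} [Field F] {σ : F →+* F} {Γ : Type v} [Group Γ] (D : Full σ Γ)
  {G : Type u} [Group G] {c : ℕ} {S A Q : Subgroup G} {g : G}

/-- the conjugation action of `a` on `Γ ≃ S` -/
noncomputable def act [S.Normal] (ε : ↥S ≃* Γ) : G →* MulAut Γ := (MulAut.congr ε).toMonoidHom.comp MulAut.conjNormal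

theorem act_apply [S.Normal] (ε : ↥S ≃* Γ) (a : G) (x : Γ) :
    (ε.symm (act ε a x) : G) = a * (ε.symm x : G) * a⁻¹ := by
  have h1 : act ε a x = ε (MulAut.conjNormal a (ε.symm x)) := rfl
  rw [h1, ε.symm_apply_apply, MulAut.conjNormal_apply]

/-- the subgroup of `G` corresponding to `X ≤ Γ` -/
def pull (ε : ↥S ≃* Γ) (X : Subgroup Γ) : Subgroup G := (X.comap ε.toMonoidHom).map S.subtype

theorem mem_pull (ε : ↥S ≃* Γ) {X : Subgroup Γ} {x : G} : x ∈ pull ε X ↔ ∃ y ∈ X, (ε.symm y : G) = x := by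
  constructor
  · rintro ⟨y, hy, rfl⟩
    exact ⟨ε y, hy, by rw [ε.symm_apply_apply]; rfl⟩
  · rintro ⟨y, hy, rfl⟩
    refine ⟨ε.symm y, ?_, rfl⟩
    show ε (ε.symm y) ∈ X
    rwa [ε.apply_symm_apply]

theorem symm_mem_pull (ε : ↥S ≃* Γ) {X : Subgroup Γ} {y : Γ} : (ε.symm y : G) ∈ pull ε X ↔ y ∈ X := by
  rw [mem_pull]
  constructor
  · rintro ⟨z, hz, h⟩
    have : z = y := ε.symm.injective (Subtype.ext h)
    rwa [← this]
  · intro h
    exact ⟨y, h, rfl⟩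

theorem pull_le (ε : ↥S ≃* Γ) (X : Subgroup Γ) : pull ε X ≤ S := by
  intro x hx
  obtain ⟨y, -, rfl⟩ := (mem_pull ε).1 hx
  exact (ε.symm y).2

theorem pull_norm [S.Normal] (ε : ↥S ≃* Γ) {X : Subgroup Γ} (h : ∀ a ∈ A, ∀ x ∈ X, act ε a x ∈ X) :
    A ≤ normalizer (pull ε X : Set G) := by
  have aux : ∀ a ∈ A, ∀ x ∈ pull ε X, a * x * a⁻¹ ∈ pull ε X := by
    intro a ha x hx
    obtain ⟨y, hy, rfl⟩ := (mem_pull ε).1 hx
    rw [← act_apply, symm_mem_pull]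
    exact h a ha y hy
  intro a ha
  rw [mem_normalizer_iff]
  intro x
  refine ⟨aux a ha x, fun hx => ?_⟩
  have h1 := aux a⁻¹ (A.inv_mem ha) _ hx
  have e : a⁻¹ * (a * x * a⁻¹) * a⁻¹⁻¹ = x := by group
  rwa [e] at h1

theorem symm_norm (ε : ↥S ≃* Γ) {X : Subgroup Γ} {t : Γ} (h : t ∈ normalizer (X : Set Γ)) :
    (ε.symm t : G) ∈ normalizer (pull ε X : Set G) := by
  rw [mem_normalizer_iff]
  intro x
  constructor
  · intro hx
    obtain ⟨y, hy, rfl⟩ := (mem_pull ε).1 hx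
    refine (mem_pull ε).2 ⟨t * y * t⁻¹, (mem_normalizer_iff.1 h y).1 hy, ?_⟩
    rw [map_mul, map_mul, map_inv]
    rfl
  · intro hx
    obtain ⟨y, hy, e⟩ := (mem_pull ε).1 hx
    have h1 : t⁻¹ * y * t ∈ X := by
      have h2 := (mem_normalizer_iff.1 (inv_mem h) y).1 hy
      rwa [inv_inv] at h2
    refine (mem_pull ε).2 ⟨t⁻¹ * y * t, h1, ?_⟩
    rw [map_mul, map_mul, map_inv]
    show (ε.symm t : G)⁻¹ * (ε.symm y : G) * (ε.symm t : G) = x
    rw [e]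
    group

theorem Pt_ne_bot (h : Γ) (a : ZMod 8) : Pt D h a ≠ ⊥ := by
  intro h0
  have h1 : h * D.e a 0 1 * h⁻¹ ∈ Pt D h a := (mem_Pt D).2 ⟨1, rfl⟩
  rw [h0, mem_bot, mul_inv_eq_one, mul_eq_left] at h1
  exact one_ne_zero (D.e_eq_one h1).2

theorem Pt_comm (h : Γ) (a : ZMod 8) {x y : Γ} (hx : x ∈ Pt D h a) (hy : y ∈ Pt D h a) : x * y = y * x := by
  obtain ⟨u, rfl⟩ := (mem_Pt D).1 hx
  obtain ⟨v, rfl⟩ := (mem_Pt D).1 hy
  have h1 : D.e a 0 u * D.e a 0 v = D.e a 0 v * D.e a 0 u := by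
    rw [D.e_mul, D.e_mul]
    simp [add_comm]
  calc h * D.e a 0 u * h⁻¹ * (h * D.e a 0 v * h⁻¹) = h * (D.e a 0 u * D.e a 0 v) * h⁻¹ := by group
    _ = h * (D.e a 0 v * D.e a 0 u) * h⁻¹ := by rw [h1]
    _ = h * D.e a 0 v * h⁻¹ * (h * D.e a 0 u * h⁻¹) := by group

theorem pull_ne_bot (ε : ↥S ≃* Γ) {X : Subgroup Γ} (h : X ≠ ⊥) : pull ε X ≠ ⊥ := by
  intro h0
  apply h
  rw [eq_bot_iff]
  intro x hx
  have h1 := (symm_mem_pull ε).2 hx
  rw [h0, mem_bot] at h1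
  have h2 : ε.symm x = 1 := Subtype.ext h1
  rw [mem_bot]
  exact ε.symm.injective (by rw [h2, map_one])

theorem pull_comm (ε : ↥S ≃* Γ) {X : Subgroup Γ} (h : ∀ x ∈ X, ∀ y ∈ X, x * y = y * x) :
    ∀ x ∈ pull ε X, ∀ y ∈ pull ε X, x * y = y * x := by
  intro x hx y hy
  obtain ⟨x', hx', rfl⟩ := (mem_pull ε).1 hx
  obtain ⟨y', hy', rfl⟩ := (mem_pull ε).1 hy
  have h1 := congrArg (fun z => ((ε.symm z : ↥S) : G)) (h x' hx' y' hy')
  simp only [map_mul] at h1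
  exact h1

/-- `A` normalises a point: the torus lies in `A` -/
theorem bound_pt [Finite F] [Finite Γ] [Finite G] [S.Normal] (ε : ↥S ≃* Γ) (hcfg : Cfg c 2 S A Q g) (h : Γ)
    (a : ZMod 8) (hA : ∀ b ∈ A, ∀ x ∈ Pt D h a, act ε b x ∈ Pt D h a) : Nat.card F ≤ c + 1 := by
  classical
  have hN := norm_eq_comm hcfg (pull_le ε (Pt D h a)) (pull_ne_bot ε (Pt_ne_bot D h a))
    (pull_comm ε fun x hx y hy => Pt_comm D h a hx hy) (pull_norm ε hA)
  have hT : ∀ t ∈ D.T, (ε.symm (h * t * h⁻¹) : G) ∈ A := by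
    intro t ht
    rw [← hN]
    apply symm_norm
    have aux : ∀ t ∈ D.T, ∀ x ∈ Pt D h a, h * t * h⁻¹ * x * (h * t * h⁻¹)⁻¹ ∈ Pt D h a := by
      intro t ht x hx
      obtain ⟨u, rfl⟩ := (mem_Pt D).1 hx
      obtain ⟨v, hv⟩ := D.T_conj_Zc ht (a := a) ⟨u, rfl⟩
      refine (mem_Pt D).2 ⟨v, ?_⟩
      rw [hv]
      group
    rw [mem_normalizer_iff]
    intro x
    refine ⟨aux t ht x, fun hx => ?_⟩
    have h1 := aux t⁻¹ (inv_mem ht) _ hx
    have e : h * t⁻¹ * h⁻¹ * (h * t * h⁻¹ * x * (h * t * h⁻¹)⁻¹) * (h * t⁻¹ * h⁻¹)⁻¹ = x := by group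
    rwa [e] at h1
  have hchoice : ∀ v : {v : F // v ≠ 0}, ∃ t ∈ D.T, t * D.e 2 0 1 * t⁻¹ = D.e 2 0 v.1 := fun v =>
    D.T_trans one_ne_zero v.2
  choose t ht htv using hchoice
  have hb := inj_bound hcfg (fun v => (ε.symm (h * t v * h⁻¹) : G)) (fun v => hT _ (ht v)) (by
    intro v w hvw
    have hvw' : (ε.symm (h * ((t v)⁻¹ * t w) * h⁻¹) : G) ∈ Q := by
      have e : h * ((t v)⁻¹ * t w) * h⁻¹ = (h * t v * h⁻¹)⁻¹ * (h * t w * h⁻¹) := by group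
      rw [e, map_mul, map_inv]
      exact hvw
    obtain ⟨k, hk⟩ := hcfg.Qp ⟨_, hvw'⟩
    have hk' : ((ε.symm (h * ((t v)⁻¹ * t w) * h⁻¹) : ↥S) : G) ^ 2 ^ k = 1 := congrArg Subtype.val hk
    have hk2 : (ε.symm (h * ((t v)⁻¹ * t w) * h⁻¹)) ^ 2 ^ k = 1 := Subtype.ext hk'
    rw [← map_pow] at hk2
    have hk3 : (h * ((t v)⁻¹ * t w) * h⁻¹) ^ 2 ^ k = 1 := ε.symm.injective (by rw [hk2, map_one])
    rw [conj_pow, mul_inv_eq_one, mul_eq_left] at hk3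
    have h1 : (t v)⁻¹ * t w ∈ D.T := mul_mem (inv_mem (ht v)) (ht w)
    have hodd := AutNorm.odd_T D
    have h2 : ((t v)⁻¹ * t w) ^ Nat.card D.T = 1 := by
      have h3 := pow_card_eq_one' (x := (⟨_, h1⟩ : D.T))
      exact congrArg Subtype.val h3
    have h4 : orderOf ((t v)⁻¹ * t w) ∣ (Nat.card D.T).gcd (2 ^ k) :=
      Nat.dvd_gcd (orderOf_dvd_of_pow_eq_one h2) (orderOf_dvd_of_pow_eq_one hk3)
    rw [Nat.Coprime.pow_right k (Nat.coprime_two_right.2 hodd), Nat.dvd_one, orderOf_eq_one_iff, inv_mul_eq_one] at h4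
    have h5 := htv v
    rw [h4, htv w] at h5
    exact Subtype.ext ((D.injE 2 _ _ _ _ h5).2).symm)
  have hcard : Nat.card {v : F // v ≠ 0} + 1 = Nat.card F := by
    have : Fintype F := Fintype.ofFinite F
    rw [Nat.card_eq_fintype_card, Nat.card_eq_fintype_card, Fintype.card_subtype_compl, Fintype.card_subtype_eq]
    have := Fintype.card_pos (α := F)
    omega
  omega

theorem Q2_comm {x y : Γ} (hx : x ∈ D.Q2) (hy : y ∈ D.Q2) : x * y = y * x := by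
  obtain ⟨u, s, z, t, w, rfl⟩ := (mem_Q2 D).1 hx
  obtain ⟨u', s', z', t', w', rfl⟩ := (mem_Q2 D).1 hy
  rw [q2_mul, q2_mul, add_comm u, add_comm s, add_comm z, add_comm t, add_comm w]

/-- the main bound -/
theorem bound [Finite F] [Finite Γ] [Finite G] [S.Normal] (ε : ↥S ≃* Γ) (hcfg : Cfg c 2 S A Q g)
    (hAS : A ⊓ S ≠ ⊥) (hF : ∃ c : Fˣ, c ≠ 1) (hR : D.R.p = 2) (hRJ : ∀ x ∈ Q ⊓ S, ∀ h : x ∈ S, ε ⟨x, h⟩ ∈ J D.XZ 1 8) :
    Nat.card F ≤ c + 1 := by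
  -- `Zc 2` centralises `R`
  have hZ : ∀ z ∈ D.Zc 2, (ε.symm z : G) ∈ Q ⊓ S := by
    intro z hz
    refine cent_le hcfg hAS (ε.symm z).2 fun r hr => ?_
    have h1 := D.comm_PL (PL.U_le D (hRJ r hr hr.2)) hz
    have h2 := congrArg (fun w => ((ε.symm w : ↥S) : G)) h1
    simp only [map_mul, ε.symm_apply_apply] at h2
    exact h2.symm
  have hZc : ∀ z ∈ D.Zc 2, ∀ r ∈ Q ⊓ S, (ε.symm z : G) * r = r * (ε.symm z : G) := by
    intro z hz r hr
    have h1 := D.comm_PL (PL.U_le D (hRJ r hr hr.2)) hz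
    have h2 := congrArg (fun w => ((ε.symm w : ↥S) : G)) h1
    simp only [map_mul, ε.symm_apply_apply] at h2
    exact h2.symm
  have hN := norm_inf hcfg hAS
  -- so do the conjugates
  have hconj : ∀ a ∈ A, ∀ r ∈ Q ⊓ S, a * r * a⁻¹ ∈ Q ⊓ S := by
    intro a ha r hr
    rw [← hN] at ha
    exact (mem_normalizer_iff.1 ha r).1 hr
  have hZA : ∀ a ∈ A, ∀ z ∈ D.Zc 2, (ε.symm (act ε a z) : G) ∈ Q ⊓ S := by
    intro a ha z hz
    rw [act_apply]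
    exact hconj a ha _ (hZ z hz)
  have hZAc : ∀ a ∈ A, ∀ z ∈ D.Zc 2, ∀ r ∈ Q ⊓ S, (ε.symm (act ε a z) : G) * r = r * (ε.symm (act ε a z) : G) := by
    intro a ha z hz r hr
    rw [act_apply]
    have h1 := hZc z hz _ (hconj a⁻¹ (A.inv_mem ha) r hr)
    rw [inv_inv] at h1
    calc a * (ε.symm z : G) * a⁻¹ * r = a * ((ε.symm z : G) * (a⁻¹ * r * a)) * a⁻¹ := by group
      _ = a * ((a⁻¹ * r * a) * (ε.symm z : G)) * a⁻¹ := by rw [h1]
      _ = r * (a * (ε.symm z : G) * a⁻¹) := by group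
  have hl := loc D hF hR (A.map (act ε)) (by
    rintro _ ⟨a, ha, rfl⟩ _ ⟨b, hb, rfl⟩ x hx y hy
    apply ε.symm.injective
    apply Subtype.ext
    rw [map_mul, map_mul]
    exact hZAc a ha x hx _ (hZA b hb y hy))
  rcases hl with hl | ⟨h, hl⟩
  · by_cases hfix : ∀ b ∈ A, ∀ x ∈ D.Zc 2, act ε b x ∈ D.Zc 2
    · refine bound_pt D ε hcfg 1 2 ?_
      rw [Pt_one]
      exact hfix
    · push Not at hfix
      obtain ⟨b, hb, x, hx, hbx⟩ := hfix
      set y := act ε b x with hy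
      have hyQ2 : y ∈ D.Q2 := hl _ ⟨b, hb, rfl⟩ x hx
      -- `V`
      set V : Subgroup Γ := Subgroup.closure {w | ∃ a ∈ A, ∃ z ∈ D.Zc 2, w = act ε a z} with hV
      have hVQ2 : V ≤ D.Q2 := by
        rw [hV, closure_le]
        rintro _ ⟨a, ha, z, hz, rfl⟩
        exact hl _ ⟨a, ha, rfl⟩ z hz
      have hZV : D.Zc 2 ≤ V := by
        intro z hz
        refine subset_closure ⟨1, one_mem _, z, hz, ?_⟩
        rw [map_one]; rfl
      have hVA : ∀ a ∈ A, ∀ w ∈ V, act ε a w ∈ V := by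
        intro a ha
        have h1 : V ≤ V.comap (act ε a).toMonoidHom := by
          rw [hV, closure_le]
          rintro _ ⟨b, hb, z, hz, rfl⟩
          refine subset_closure ⟨a * b, A.mul_mem ha hb, z, hz, ?_⟩
          rw [map_mul]; rfl
        exact fun w hw => h1 hw
      have hVne : V ≠ ⊥ := by
        intro h0
        have h1 : D.e 2 0 1 ∈ V := hZV ⟨1, rfl⟩
        rw [h0, mem_bot] at h1
        exact one_ne_zero (D.e_eq_one h1).2
      have hNV := norm_eq_comm hcfg (pull_le ε V) (pull_ne_bot ε hVne)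
        (pull_comm ε fun x hx y hy => Q2_comm D (hVQ2 hx) (hVQ2 hy)) (pull_norm ε hVA)
      have hQA : ∀ t ∈ D.Q, (ε.symm t : G) ∈ A := by
        intro t ht
        rw [← hNV]
        apply symm_norm
        have aux : ∀ t ∈ D.Q, ∀ w ∈ V, t * w * t⁻¹ ∈ V := by
          intro t ht w hw
          have h1 := comm_QQ2 D ht (hVQ2 hw)
          have e : t * w * t⁻¹ = (t * w * t⁻¹ * w⁻¹) * w := by group
          rw [e]
          exact mul_mem (hZV h1) hw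
        rw [mem_normalizer_iff]
        intro w
        refine ⟨aux t ht w, fun hw => ?_⟩
        have h1 := aux t⁻¹ (inv_mem ht) _ hw
        have e : t⁻¹ * (t * w * t⁻¹) * t⁻¹⁻¹ = w := by group
        rwa [e] at h1
      have hchoice := moveQ D hyQ2 hbx
      choose t ht htv using hchoice
      have hb2 := inj_bound hcfg (fun v => (ε.symm (t v) : G)) (fun v => hQA _ (ht v)) (by
        intro v w hvw
        have h1 : (ε.symm ((t v)⁻¹ * t w) : G) ∈ Q ⊓ S := by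
          refine ⟨?_, (ε.symm ((t v)⁻¹ * t w)).2⟩
          rw [map_mul, map_inv]
          exact hvw
        have h2 := hZAc b hb x hx _ h1
        rw [← hy] at h2
        have h3 : y * ((t v)⁻¹ * t w) = (t v)⁻¹ * t w * y := by
          apply ε.symm.injective
          apply Subtype.ext
          rw [map_mul, map_mul ε.symm _ y]
          exact h2
        have h4 : t w * y * (t w)⁻¹ = t v * y * (t v)⁻¹ := by
          calc t w * y * (t w)⁻¹ = t v * ((t v)⁻¹ * t w * y) * (t w)⁻¹ := by group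
            _ = t v * (y * ((t v)⁻¹ * t w)) * (t w)⁻¹ := by rw [h3]
            _ = t v * y * (t v)⁻¹ := by group
        rw [htv, htv, mul_left_cancel_iff] at h4
        exact ((D.injE 2 _ _ _ _ h4).2).symm)
      omega
  · exact bound_pt D ε hcfg h 3 fun b hb x hx => hl _ ⟨b, hb, rfl⟩ x hx

end

/-- the Sylow 2-subgroup of `²F₄(q)` -/
theorem sylow_J {K : Type*} [Field K] [Fintype K] (m : ℕ) (hK : Fintype.card K = 2 ^ (2 * m + 1))
    [CharP K 2] {φ : K →+* K} (hφ : ChevalleyStructure.TwF4.TwistedFix.Rln φ (2 ^ m)) :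
    ∃ P : Sylow 2 ↥(Cfsg.Lie.twistedF4 K (2 ^ m)), (P : Subgroup ↥(Cfsg.Lie.twistedF4 K (2 ^ m))) =
      J (Inst.full hK hφ).XZ 1 8 := by
  have hfact : Fact (Nat.Prime 2) := ⟨Nat.prime_two⟩
  let S := Inst.full hK hφ
  have hR : S.R.p = 2 := rfl
  have hq : Nat.card K = 2 ^ (2 * m + 1) := by rw [Nat.card_eq_fintype_card, hK]
  have hfin : Finite ↥(Cfsg.Lie.twistedF4 K (2 ^ m)) := inferInstance
  have hp : IsPGroup 2 (J S.XZ 1 8) := isPGroup_J S.zsys8 (two_X S hR) 8 1 8 (by norm_num) (by norm_num)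
  refine ⟨hp.toSylow ?_, rfl⟩
  intro h2
  have h1 := (J S.XZ 1 8).card_mul_index
  rw [PL.card_U S, hq, S1068.result hK, mul_assoc, mul_assoc, mul_assoc] at h1
  have h3 := Nat.eq_of_mul_eq_mul_left (by positivity) h1
  rw [h3] at h2
  have hev : Even (2 ^ (2 * m + 1)) := (even_two).pow_of_ne_zero (by omega)
  have hpos : 1 ≤ 2 ^ (2 * m + 1) := Nat.one_le_two_pow
  have o1 : Odd (2 ^ (2 * m + 1) - 1) := Nat.Even.sub_odd hpos hev odd_one
  have o3 : Odd ((2 ^ (2 * m + 1)) ^ 3 + 1) := (hev.pow_of_ne_zero (by norm_num)).add_odd odd_one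
  have o4 : Odd ((2 ^ (2 * m + 1)) ^ 4 - 1) :=
    Nat.Even.sub_odd (Nat.one_le_pow _ _ (by omega)) (hev.pow_of_ne_zero (by norm_num)) odd_one
  have o6 : Odd ((2 ^ (2 * m + 1)) ^ 6 + 1) := (hev.pow_of_ne_zero (by norm_num)).add_odd odd_one
  have h4 := o1.mul (o3.mul (o4.mul o6))
  exact (Nat.not_even_iff_odd.2 h4) (even_iff_two_dvd.2 h2)

/-- **the Sims bound for `²F₄(q)`** -/
theorem twF4_bound (c : ℕ) : ∃ N : ℕ, ∀ {G : Type u} [Group G] [Finite G] (S A Q : Subgroup G) (g : G),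
    Cfg c 2 S A Q g → A ⊓ S ≠ ⊥ → Lie.Iso2F4 S → Nat.card S ≤ N := by
  refine ⟨(c + 1) ^ 12 * (c + 1) * ((c + 1) ^ 3 + 1) * (c + 1) ^ 4 * ((c + 1) ^ 6 + 1), ?_⟩
  intro G _ _ S A Q g hcfg hAS hiso
  have hSn := hcfg.norm
  obtain ⟨K, hKf, hKfin, m, hm, hK, ⟨ε₀⟩⟩ := hiso
  have hfact : Fact (Nat.Prime 2) := ⟨Nat.prime_two⟩
  have hchar := ChevalleyStructure.TwF4.Twisted.charP_two hK
  obtain ⟨φ, hφ⟩ := ChevalleyStructure.TwF4.TwistedFix.exists_rln hK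
  have hq : Nat.card K = 2 ^ (2 * m + 1) := by rw [Nat.card_eq_fintype_card, hK]
  have hfin : Finite ↥(Cfsg.Lie.twistedF4 K (2 ^ m)) := inferInstance
  obtain ⟨P, hP⟩ := sylow_J m hK hφ
  -- move `R` into `J 1 8`
  have hRp : IsPGroup 2 (((Q ⊓ S).subgroupOf S).map ε₀.toMonoidHom) :=
    ((hcfg.Qp.to_le inf_le_left).comap_subtype).map _
  obtain ⟨P', hP'⟩ := hRp.exists_le_sylow
  obtain ⟨k, hk⟩ := MulAction.exists_smul_eq (Cfsg.Lie.twistedF4 K (2 ^ m)) P' P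
  let ε := ε₀.trans (MulAut.conj k)
  have hRJ : ∀ x ∈ Q ⊓ S, ∀ h : x ∈ S, ε ⟨x, h⟩ ∈ J (Inst.full hK hφ).XZ 1 8 := by
    intro x hx h
    rw [← hP, ← hk]
    have h1 : ε₀ ⟨x, h⟩ ∈ (P' : Subgroup (Cfsg.Lie.twistedF4 K (2 ^ m))) := by
      apply hP'
      exact ⟨⟨x, h⟩, hx, rfl⟩
    rw [Sylow.coe_subgroup_smul, Subgroup.mem_pointwise_smul_iff_inv_smul_mem]
    have h2 : (MulAut.conj k)⁻¹ • (ε ⟨x, h⟩) = ε₀ ⟨x, h⟩ := by
      show (MulAut.conj k)⁻¹ (MulAut.conj k (ε₀ ⟨x, h⟩)) = _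
      rw [← MulAut.mul_apply, inv_mul_cancel, MulAut.one_apply]
    rw [h2]
    exact h1
  have hF : ∃ c : Kˣ, c ≠ 1 := by
    have : Nontrivial Kˣ := by
      rw [← Finite.one_lt_card_iff_nontrivial, Nat.card_units, hq]
      have h1 : 2 ^ 3 ≤ 2 ^ (2 * m + 1) := Nat.pow_le_pow_right (by norm_num) (by omega)
      omega
    exact exists_ne 1
  have hb := bound (Inst.full hK hφ) ε hcfg hAS hF rfl hRJ
  rw [hq] at hb
  have hcard : Nat.card S = (2 ^ (2 * m + 1)) ^ 12 * (2 ^ (2 * m + 1) - 1) * ((2 ^ (2 * m + 1)) ^ 3 + 1) *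
      ((2 ^ (2 * m + 1)) ^ 4 - 1) * ((2 ^ (2 * m + 1)) ^ 6 + 1) := by
    rw [Nat.card_congr ε.toEquiv, S1068.result hK]
  rw [hcard]
  have h1 : 2 ^ (2 * m + 1) - 1 ≤ c + 1 := le_trans (Nat.sub_le _ _) hb
  have h2 : (2 ^ (2 * m + 1)) ^ 4 - 1 ≤ (c + 1) ^ 4 := le_trans (Nat.sub_le _ _) (Nat.pow_le_pow_left hb 4)
  gcongr

end Cfsg.Agent.H762.SimsTwF
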