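import Cfsg.Agent.H762.AutPL
import Cfsg.Agent.KFacts.TwF4.AutNorm

/-!
helper762: the conjugates of `Z_4` in `²F₄(q)` ("points"), pairs of points, and sets of commuting points.
-/

set_option autoImplicit false

namespace Cfsg.Agent.H762.Loc

open Cfsg.Agent.SplitTwo Cfsg.Agent.SplitTwo.ZS Cfsg.Agent.TitsThree.RankTwoZ Cfsg.Agent.SplitTwo.RootSysZ
open Cfsg.Agent.KFacts.TwF4 Cfsg.Agent.KFacts.TwF4.Arc Cfsg.Agent.KFacts.TwF4.Irr
open Cfsg.Agent.KFacts.TwF4.Inv Cfsg.Agent.KFacts.TwF4.Layers Cfsg.Agent.CpAutTwF Cfsg.Agent.H762.AutPL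
open Subgroup

universe u

variable {F : Type*} [Field F] {σ : F →+* F} {G : Type u} [Group G] (S : Full σ G)

/-- the conjugates of `Zc a` -/
def Pt (k : G) (a : ZMod 8) : Subgroup G := (S.Zc a).map (MulAut.conj k).toMonoidHom

theorem mem_Pt {k : G} {a : ZMod 8} {x : G} : x ∈ Pt S k a ↔ ∃ u, k * S.e a 0 u * k⁻¹ = x := by
  constructor
  · rintro ⟨y, ⟨u, rfl⟩, rfl⟩
    exact ⟨u, rfl⟩
  · rintro ⟨u, rfl⟩
    exact ⟨_, ⟨u, rfl⟩, rfl⟩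

theorem Pt_one (a : ZMod 8) : Pt S 1 a = S.Zc a := by
  ext x
  rw [mem_Pt]
  simp only [one_mul, inv_one, mul_one]
  rfl

theorem Pt_mul (g k : G) (a : ZMod 8) : Pt S (g * k) a = (Pt S k a).map (MulAut.conj g).toMonoidHom := by
  unfold Pt
  rw [Subgroup.map_map]
  congr 1
  ext x
  show g * k * x * (g * k)⁻¹ = g * (k * x * k⁻¹) * g⁻¹
  group

theorem Pt_rot (k : G) (n : ℤ) (a : ZMod 8) : Pt S (k * S.rot ^ n) a = Pt S k (a + n) := by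
  rw [Pt_mul]
  unfold Pt
  have h : (S.Zc a).map (MulAut.conj (S.rot ^ n)).toMonoidHom = S.Zc (a + n) := by
    ext x
    constructor
    · rintro ⟨y, ⟨u, rfl⟩, rfl⟩
      exact ⟨u, (S.rotk_e n a 0 u).symm⟩
    · rintro ⟨u, rfl⟩
      exact ⟨_, ⟨u, rfl⟩, S.rotk_e n a 0 u⟩
  rw [← h, Subgroup.map_map]

theorem Pt_n2 (k : G) (a : ZMod 8) : Pt S (k * S.n2) a = Pt S k (4 - a) := by
  rw [Pt_mul]
  unfold Pt
  have h : (S.Zc a).map (MulAut.conj S.n2).toMonoidHom = S.Zc (4 - a) := by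
    ext x
    constructor
    · rintro ⟨y, ⟨u, rfl⟩, rfl⟩
      exact ⟨u, (S.n2_e a 0 u).symm⟩
    · rintro ⟨u, rfl⟩
      exact ⟨_, ⟨u, rfl⟩, S.n2_e a 0 u⟩
  rw [← h, Subgroup.map_map]

theorem exists_int (a : ZMod 8) : ∃ n : ℤ, (n : ZMod 8) = a := ⟨a.val, by rw [Int.cast_natCast]; exact ZMod.natCast_zmod_val a⟩

theorem ncomm3 (a : ZMod 8) : S.e a 0 1 * S.e (a + 3) 0 1 ≠ S.e (a + 3) 0 1 * S.e a 0 1 := by
  intro h
  have r := S.e_e3 a 0 1 0 1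
  simp only [map_zero, map_one, mul_zero, zero_mul, mul_one, zero_add, add_zero, S.o_zero] at r
  rw [h] at r
  have r1 : S.e (a + 1) 0 1 * S.o (a + 1) 1 * S.e (a + 2) 0 1 = 1 := by
    have e : S.e (a + 3) 0 1 * S.e a 0 1 * (S.e (a + 1) 0 1 * S.o (a + 1) 1 * S.e (a + 2) 0 1) =
        S.e (a + 3) 0 1 * S.e a 0 1 := by
      rw [← mul_assoc, ← mul_assoc]; exact r.symm
    exact mul_eq_left.1 e
  obtain ⟨n, hn⟩ := exists_int (1 - a)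
  have r2 := congrArg (S.ck n) r1
  rw [map_mul, map_mul, S.ck_e, S.ck_o, S.ck_e, map_one, hn] at r2
  rw [show a + 1 + (1 - a) = 2 by ring, show a + 2 + (1 - a) = 3 by ring] at r2
  have r3 : q2 S 0 0 1 1 1 = 1 := by
    unfold q2
    rw [S.e_zero, S.o_zero, one_mul, one_mul]
    exact r2
  exact one_ne_zero (Card.q2_eq_one S r3).2.2.1

theorem ncomm4 (a : ZMod 8) : S.e a 0 1 * S.e (a + 4) 0 1 ≠ S.e (a + 4) 0 1 * S.e a 0 1 := by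
  intro h
  obtain ⟨n, hn⟩ := exists_int (-a)
  have r2 := congrArg (S.ck n) h
  rw [map_mul, map_mul, S.ck_e, S.ck_e, hn] at r2
  rw [show a + -a = 0 by ring, show a + 4 + -a = 4 by ring] at r2
  have h1 : S.e 0 1 0 * S.e 0 0 1 = S.e 0 0 1 * S.e 0 1 0 := by
    rw [S.e_mul, S.e_mul]
    simp
  have h2 : S.n2 * S.e 0 0 1 * S.n2⁻¹ = S.e 0 0 1 := by
    rw [n2_word' S]
    calc S.e 0 1 0 * S.e 4 0 1 * (S.e 0 1 0)⁻¹ * S.e 0 0 1 * (S.e 0 1 0 * S.e 4 0 1 * (S.e 0 1 0)⁻¹)⁻¹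
        = S.e 0 1 0 * S.e 4 0 1 * ((S.e 0 1 0)⁻¹ * (S.e 0 0 1 * S.e 0 1 0)) * (S.e 4 0 1)⁻¹ * (S.e 0 1 0)⁻¹ := by group
      _ = S.e 0 1 0 * (S.e 4 0 1 * S.e 0 0 1) * (S.e 4 0 1)⁻¹ * (S.e 0 1 0)⁻¹ := by rw [← h1]; group
      _ = S.e 0 1 0 * S.e 0 0 1 * (S.e 0 1 0)⁻¹ := by rw [← r2]; group
      _ = S.e 0 0 1 := by rw [h1]; group
  rw [S.n2_e, sub_zero] at h2
  have h3 : S.e 0 0 1 ∈ S.XZ 0 := (mem_X0 S).2 ⟨0, 1, rfl⟩
  have h4 : S.e 0 0 1 ∈ S.XZ 8 := by rw [← h2]; exact (mem_X8 S).2 ⟨0, 1, rfl⟩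
  have h5 := S.X_inf_opp (i := 0) h3 h4
  exact one_ne_zero (S.e_eq_one h5).2

/-! ### the normaliser of `Zc 2` -/

theorem PL_norm {g : G} (hg : g ∈ S.PL) : g ∈ normalizer (S.Zc 2 : Set G) := by
  rw [mem_normalizer_iff]
  intro x
  constructor
  · intro hx
    rw [Z_conj S hg hx]; exact hx
  · intro hx
    have h := Z_conj S (inv_mem hg) hx
    have e : g⁻¹ * (g * x * g⁻¹) * g⁻¹⁻¹ = x := by group
    rw [e] at h
    rw [h]; exact hx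

theorem T_norm {t : G} (ht : t ∈ S.T) : t ∈ normalizer (S.Zc 2 : Set G) := by
  rw [mem_normalizer_iff]
  intro x
  constructor
  · intro hx
    exact S.T_conj_Zc ht hx
  · intro hx
    have h := S.T_conj_Zc (inv_mem ht) hx
    have e : t⁻¹ * (t * x * t⁻¹) * t⁻¹⁻¹ = x := by group
    rwa [e] at h

theorem norm_form {g : G} (hg : g ∈ normalizer (S.Zc 2 : Set G)) : ∃ y ∈ S.PL, ∃ t ∈ S.T, g = y * t :=
  S.mem_of_conj (z := S.e 2 0 1) ⟨1, rfl⟩ (fun h => one_ne_zero (S.e_eq_one h).2)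
    ((mem_normalizer_iff.1 hg _).1 ⟨1, rfl⟩)

theorem T_Q2 {t x : G} (ht : t ∈ S.T) (hx : x ∈ S.Q2) : t * x * t⁻¹ ∈ S.Q2 := by
  obtain ⟨c, d, rfl⟩ := S.mem_T.1 ht
  have h : S.Q2 ≤ S.Q2.comap (MulAut.conj (S.h c d)).toMonoidHom := by
    refine S.Q2_le (fun u => ?_) (fun u => ?_) (fun u => ?_) (fun u => ?_) (fun u => ?_)
    · show S.h c d * S.e 1 0 u * (S.h c d)⁻¹ ∈ S.Q2
      rw [S.h_e, mul_zero]; exact S.q2_1 _
    · show S.h c d * S.o 1 u * (S.h c d)⁻¹ ∈ S.Q2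
      rw [S.h_o]; exact S.q2_2 _
    · show S.h c d * S.e 2 0 u * (S.h c d)⁻¹ ∈ S.Q2
      rw [S.h_e, mul_zero]; exact S.q2_3 _
    · show S.h c d * S.o 2 u * (S.h c d)⁻¹ ∈ S.Q2
      rw [S.h_o]; exact S.q2_4 _
    · show S.h c d * S.e 3 0 u * (S.h c d)⁻¹ ∈ S.Q2
      rw [S.h_e, mul_zero]; exact S.q2_5 _
  exact h hx

theorem norm_Q2 {g x : G} (hg : g ∈ normalizer (S.Zc 2 : Set G)) (hx : x ∈ S.Q2) : g * x * g⁻¹ ∈ S.Q2 := by
  obtain ⟨y, hy, t, ht, rfl⟩ := norm_form S hg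
  have e : y * t * x * (y * t)⁻¹ = y * (t * x * t⁻¹) * y⁻¹ := by group
  rw [e]
  exact Q2_norm' S hy (T_Q2 S ht hx)

theorem norm_Pt {h k : G} (hh : h ∈ normalizer (S.Zc 2 : Set G)) : Pt S (k * h) 2 = Pt S k 2 := by
  rw [Pt_mul]
  have e : Pt S h 2 = S.Zc 2 := by
    ext x
    rw [mem_Pt]
    constructor
    · rintro ⟨u, rfl⟩
      exact (mem_normalizer_iff.1 hh _).1 ⟨u, rfl⟩
    · intro hx
      have h1 := (mem_normalizer_iff.1 (inv_mem hh) _).1 hx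
      obtain ⟨u, hu⟩ := h1
      exact ⟨u, by rw [hu]; group⟩
  rw [e]; rfl

theorem norm_of_Pt {h k : G} (e : Pt S h 2 = Pt S k 2) : h⁻¹ * k ∈ normalizer (S.Zc 2 : Set G) := by
  rw [mem_normalizer_iff]
  intro x
  constructor
  · rintro ⟨u, rfl⟩
    have h1 : k * S.e 2 0 u * k⁻¹ ∈ Pt S h 2 := by rw [e]; exact (mem_Pt S).2 ⟨u, rfl⟩
    obtain ⟨v, hv⟩ := (mem_Pt S).1 h1
    refine ⟨v, ?_⟩
    calc S.e 2 0 v = h⁻¹ * (h * S.e 2 0 v * h⁻¹) * h := by group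
      _ = h⁻¹ * (k * S.e 2 0 u * k⁻¹) * h := by rw [hv]
      _ = _ := by group
  · rintro ⟨u, hu⟩
    have h1 : h * S.e 2 0 u * h⁻¹ ∈ Pt S k 2 := by rw [← e]; exact (mem_Pt S).2 ⟨u, rfl⟩
    obtain ⟨v, hv⟩ := (mem_Pt S).1 h1
    refine ⟨v, ?_⟩
    calc S.e 2 0 v = k⁻¹ * (k * S.e 2 0 v * k⁻¹) * k := by group
      _ = k⁻¹ * (h * S.e 2 0 u * h⁻¹) * k := by rw [hv]
      _ = k⁻¹ * (h * (h⁻¹ * k * x * (h⁻¹ * k)⁻¹) * h⁻¹) * k := by rw [hu]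
      _ = x := by group

/-! ### pairs of points -/

theorem w_form [Finite F] {w : G} (hw : S.IsDih w) : ∃ n : ℤ, ∃ t ∈ S.T, w = S.rot ^ n * t ∨ w = S.rot ^ n * t * S.n2 := by
  obtain ⟨c, hc⟩ := hw
  have h0 : ∀ x, w * x * w⁻¹ ∈ S.R.X c ↔ x ∈ S.R.X 0 := by
    intro x
    rcases hc with h | h
    · have := h 0 x
      simpa using this
    · have := h 0 x
      simpa using this
  rcases od_or_ev c with ⟨a, ha⟩ | ⟨a, ha⟩
  · exfalso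
    have h1 : Nat.card (S.R.X 0) = Nat.card (S.R.X c) := by
      refine Nat.card_congr ⟨fun x => ⟨w * x * w⁻¹, (h0 x).2 x.2⟩, fun y => ⟨w⁻¹ * y * w, ?_⟩, ?_, ?_⟩
      · rw [← h0]
        have e : w * (w⁻¹ * (y : G) * w) * w⁻¹ = y := by group
        rw [e]; exact y.2
      · intro x
        apply Subtype.ext
        show w⁻¹ * (w * (x : G) * w⁻¹) * w = x
        group
      · intro y
        apply Subtype.ext
        show w * (w⁻¹ * (y : G) * w) * w⁻¹ = y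
        group
    have h2 : Nat.card (S.R.X 0) = Nat.card F * Nat.card F := Card.card_even S 0
    have h3 : Nat.card (S.R.X c) = Nat.card F := by
      have h4 := Card.card_odd S a.val
      rw [ha]
      exact h4
    have h5 : 1 < Nat.card F := Finite.one_lt_card
    rw [h2, h3] at h1
    nlinarith
  · rcases hc with h | h
    · refine ⟨a.val, S.rot ^ (-(a.val : ℤ)) * w, ?_, Or.inl (by rw [zpow_neg, mul_inv_cancel_left])⟩
      have h1 := (S.rot_maps (-(a.val : ℤ))).mul h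
      show Maps S.R.X _ id
      refine h1.congr fun k => ?_
      show ((2 * (-(a.val : ℤ)) : ℤ) : ZMod (2 * 8)) + (c + k) = k
      rw [ha]
      unfold ev
      push_cast
      ring
    · refine ⟨(a.val : ℤ) - 4, S.rot ^ (-((a.val : ℤ) - 4)) * w * S.n2, ?_, Or.inr ?_⟩
      · have h1 := ((S.rot_maps (-((a.val : ℤ) - 4))).mul h).mul S.n2_maps
        show Maps S.R.X _ id
        refine h1.congr fun k => ?_
        show ((2 * (-((a.val : ℤ) - 4)) : ℤ) : ZMod (2 * 8)) + (c - (8 - k)) = k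
        rw [ha]
        unfold ev
        push_cast
        ring
      · rw [zpow_neg]
        calc w = w * (S.n2 * S.n2) := by rw [S.n2_sq, mul_one]
          _ = _ := by group

/-- **pairs of points** -/
theorem Pt_class [Finite F] (k : G) : ∃ h ∈ normalizer (S.Zc 2 : Set G), ∃ a, Pt S k 2 = Pt S h a := by
  obtain ⟨b, hb, t, ht, w, hw, b', hb', rfl⟩ := S.bruhat k
  have hbn : b * t ∈ normalizer (S.Zc 2 : Set G) :=
    mul_mem (PL_norm S (J_mono (by norm_num) le_rfl hb)) (T_norm S ht)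
  rw [norm_Pt S (PL_norm S (J_mono (by norm_num) le_rfl hb'))]
  obtain ⟨n, t', ht', rfl | rfl⟩ := w_form S hw
  · refine ⟨b * t, hbn, 2 + n, ?_⟩
    rw [← mul_assoc, norm_Pt S (T_norm S ht'), Pt_rot]
  · refine ⟨b * t, hbn, 2 + n, ?_⟩
    rw [← mul_assoc, norm_Pt S (PL_norm S S.n2_mem), ← mul_assoc, norm_Pt S (T_norm S ht'), Pt_rot]

/-- **commuting points** -/
theorem comm_class [Finite F] {k : G} (hc : ∀ x ∈ Pt S k 2, ∀ z ∈ S.Zc 2, x * z = z * x) :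
    ∃ h ∈ normalizer (S.Zc 2 : Set G), ∃ a, (a = 2 ∨ a = 3 ∨ a = 4) ∧ Pt S k 2 = Pt S h a := by
  obtain ⟨h, hh, a, e⟩ := Pt_class S k
  have hca : ∀ u v, S.e a 0 u * S.e 2 0 v = S.e 2 0 v * S.e a 0 u := by
    intro u v
    have h1 := hc (h * S.e a 0 u * h⁻¹) (by rw [e]; exact (mem_Pt S).2 ⟨u, rfl⟩) (h * S.e 2 0 v * h⁻¹)
      ((mem_normalizer_iff.1 hh _).1 ⟨v, rfl⟩)
    calc S.e a 0 u * S.e 2 0 v = h⁻¹ * (h * S.e a 0 u * h⁻¹ * (h * S.e 2 0 v * h⁻¹)) * h := by group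
      _ = h⁻¹ * (h * S.e 2 0 v * h⁻¹ * (h * S.e a 0 u * h⁻¹)) * h := by rw [h1]
      _ = _ := by group
  have h5 : a ≠ 5 := by
    rintro rfl
    exact ncomm3 S 2 (hca 1 1).symm
  have h6 : a ≠ 6 := by
    rintro rfl
    exact ncomm4 S 2 (hca 1 1).symm
  have h7 : a ≠ 7 := by
    rintro rfl
    exact ncomm3 S 7 (hca 1 1)
  have hn2 : h * S.n2 ∈ normalizer (S.Zc 2 : Set G) := mul_mem hh (PL_norm S S.n2_mem)
  have hswap : Pt S h a = Pt S (h * S.n2) (4 - a) := by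
    rw [Pt_n2]; congr 1; ring
  have hcases : a = 0 ∨ a = 1 ∨ a = 2 ∨ a = 3 ∨ a = 4 := by
    revert h5 h6 h7
    clear hswap hca e
    revert a
    decide
  rcases hcases with h0 | h0 | h0 | h0 | h0
  · exact ⟨h * S.n2, hn2, 4, Or.inr (Or.inr rfl), by rw [e, hswap, h0]; rfl⟩
  · exact ⟨h * S.n2, hn2, 3, Or.inr (Or.inl rfl), by rw [e, hswap, h0]; rfl⟩
  · exact ⟨h, hh, a, Or.inl h0, e⟩
  · exact ⟨h, hh, a, Or.inr (Or.inl h0), e⟩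
  · exact ⟨h, hh, a, Or.inr (Or.inr h0), e⟩

/-- **symmetry** -/
theorem sym [Finite F] {k : G} (hk : Pt S k 2 ≤ S.Q2) {z : G} (hz : z ∈ S.Zc 2) : k⁻¹ * z * k ∈ S.Q2 := by
  have hZ : S.Zc 2 ≤ S.Q2 := by rintro _ ⟨u, rfl⟩; exact S.q2_3 u
  obtain ⟨h, hh, a, ha, e⟩ := comm_class S (k := k) (fun x hx z hz => Q2_comm S (hk hx) (hZ hz))
  have h4 : a ≠ 4 := by
    rintro rfl
    have h1 : h * S.e 4 0 1 * h⁻¹ ∈ S.Q2 := hk (by rw [e]; exact (mem_Pt S).2 ⟨1, rfl⟩)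
    have h2 := norm_Q2 S (inv_mem hh) h1
    have e2 : h⁻¹ * (h * S.e 4 0 1 * h⁻¹) * h⁻¹⁻¹ = S.e 4 0 1 := by group
    rw [e2] at h2
    exact e401_Q (Layers.Q2_le_Q S h2)
  have hz' : h⁻¹ * z * h ∈ S.Zc 2 := by
    have h1 := (mem_normalizer_iff.1 (inv_mem hh) _).1 hz
    rwa [inv_inv] at h1
  rcases ha with rfl | rfl | rfl
  · have hn := norm_of_Pt S e.symm
    have h1 := norm_Q2 S (inv_mem hn) (hZ hz')
    have e3 : (h⁻¹ * k)⁻¹ * (h⁻¹ * z * h) * (h⁻¹ * k)⁻¹⁻¹ = k⁻¹ * z * k := by group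
    rwa [e3] at h1
  · have e1 : Pt S h 3 = Pt S (h * S.rot ^ (1 : ℤ)) 2 := by rw [Pt_rot]; rfl
    rw [e1] at e
    have hn := norm_of_Pt S e.symm
    have h1 : (S.rot ^ (1 : ℤ))⁻¹ * (h⁻¹ * z * h) * S.rot ^ (1 : ℤ) ∈ S.Q2 := by
      obtain ⟨u, hu⟩ := hz'
      rw [← hu]
      have h2 := S.rotk_e (-1) 2 0 u
      rw [zpow_neg, inv_inv] at h2
      rw [h2]
      exact S.q2_1 u
    have h2 := norm_Q2 S (inv_mem hn) h1
    have e3 : (((h * S.rot ^ (1 : ℤ))⁻¹ * k)⁻¹ * ((S.rot ^ (1 : ℤ))⁻¹ * (h⁻¹ * z * h) * S.rot ^ (1 : ℤ)) *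
        ((h * S.rot ^ (1 : ℤ))⁻¹ * k)⁻¹⁻¹) = k⁻¹ * z * k := by group
    rwa [e3] at h2
  · exact absurd rfl h4

/-! ### involutions commuting with `Zc 2` and `Zc 4` -/

theorem comm8 {k : ℤ} (h1 : 4 ≤ k) (h2 : k ≤ 12) {x : G} (hx : x ∈ S.XZ k) (v : F) :
    x * S.e 4 0 v = S.e 4 0 v * x := by
  have h3 := S.rotk_X' (-2) k hx
  have h4 := S.comm_Z4 (k := k + 2 * -2) (by omega) (by omega) h3 v
  have h5 : S.ck 2 ((S.rot ^ (-2 : ℤ) * x * (S.rot ^ (-2 : ℤ))⁻¹) * S.e 2 0 v) =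
      S.ck 2 (S.e 2 0 v * (S.rot ^ (-2 : ℤ) * x * (S.rot ^ (-2 : ℤ))⁻¹)) := by rw [h4]
  have e1 : S.ck 2 (S.rot ^ (-2 : ℤ) * x * (S.rot ^ (-2 : ℤ))⁻¹) = x := by rw [S.ck_apply]; group
  rw [map_mul (S.ck 2) _ (S.e 2 0 v), map_mul (S.ck 2) (S.e 2 0 v) _, e1, S.ck_e] at h5
  exact h5

theorem comm8_J {x : G} (hx : x ∈ J S.XZ 4 8) (v : F) : x * S.e 4 0 v = S.e 4 0 v * x := by
  have h : J S.XZ 4 8 ≤ centralizer ({S.e 4 0 v} : Set G) := J_le fun k h1 h2 y hy => by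
    rw [mem_centralizer_singleton_iff]
    exact comm8 S h1 (by omega) hy v
  exact mem_centralizer_singleton_iff.1 (h hx)

theorem in_UT [Finite F] {x : G} (hx : x ∈ S.PL) (hc : x * S.e 4 0 1 = S.e 4 0 1 * x) :
    x ∈ J S.XZ 1 8 ⊔ S.T := by
  rcases bruhat_PL S hx with h | ⟨b, hb, y, hy, rfl⟩
  · exact h.2
  · exfalso
    have hz8 : S.e 4 0 1 ∈ S.XZ 8 := e401_8
    have hy' : y * S.e 4 0 1 = S.e 4 0 1 * y := comm8 S (k := 8) (by norm_num) (by norm_num) hy 1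
    have h1 : b⁻¹ * S.e 4 0 1 * b = S.n2 * S.e 4 0 1 * S.n2⁻¹ := by
      have h2 : b * (S.n2 * S.e 4 0 1 * S.n2⁻¹) * b⁻¹ = S.e 4 0 1 := by
        calc b * (S.n2 * S.e 4 0 1 * S.n2⁻¹) * b⁻¹ = b * S.n2 * (S.e 4 0 1 * y) * (b * S.n2 * y)⁻¹ := by group
          _ = (b * S.n2 * y * S.e 4 0 1) * (b * S.n2 * y)⁻¹ := by rw [← hy']; group
          _ = S.e 4 0 1 := by rw [hc]; group
      calc b⁻¹ * S.e 4 0 1 * b = b⁻¹ * (b * (S.n2 * S.e 4 0 1 * S.n2⁻¹) * b⁻¹) * b := by rw [h2]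
        _ = _ := by group
    have h3 : S.n2 * S.e 4 0 1 * S.n2⁻¹ ∈ S.XZ 0 := S.n2_refl.mem' hz8 (by norm_num)
    have h4 : b⁻¹ * S.e 4 0 1 * b ∈ J S.XZ 1 8 ⊔ S.T := by
      refine mul_mem (mul_mem (inv_mem hb.2) (mem_sup_left ?_)) hb.2
      exact mem_J hz8 (by norm_num) (by norm_num)
    rw [h1] at h4
    have h5 := H127.TwFInv.X0_inf_BT S h3 h4
    rw [mul_inv_eq_one] at h5
    have h6 : S.e 4 0 1 = 1 := mul_left_cancel (h5.trans (mul_one _).symm)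
    exact one_ne_zero (S.e_eq_one h6).2

theorem in_U [Finite F] [Finite G] (hR : S.R.p = 2) {x : G} (h2 : x * x = 1) (hx : x ∈ J S.XZ 1 8 ⊔ S.T) :
    x ∈ J S.XZ 1 8 := by
  obtain ⟨u, hu, t, ht, rfl⟩ := H127.TwFInv.form_BT S hx
  have h1 : t * t ∈ J S.XZ 1 8 := by
    have e : t * t = (u * (t * u * t⁻¹))⁻¹ * (u * t * (u * t)) := by group
    rw [e, h2, mul_one]
    exact inv_mem (mul_mem hu (S.T_conj_J ht hu))
  have hU : IsPGroup 2 (J S.XZ 1 8) := isPGroup_J S.zsys8 (two_X S hR) 8 1 8 (by norm_num) (by norm_num)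
  obtain ⟨k, hk⟩ := hU ⟨t * t, h1⟩
  have hk' : (t * t) ^ 2 ^ k = 1 := by simpa using congrArg Subtype.val hk
  obtain ⟨c, d, rfl⟩ := S.mem_T.1 ht
  have h3 : S.h c d ^ 2 ^ (k + 1) = 1 := by rw [pow_succ', pow_mul, pow_two, hk']
  obtain ⟨rfl, rfl⟩ := SylU.torus_two S h3
  rw [S.h_one, mul_one]; exact hu

theorem in_J48 [Finite F] {x : G} (hx : x ∈ J S.XZ 1 8) (hc : x * S.e 4 0 1 = S.e 4 0 1 * x) : x ∈ J S.XZ 4 8 := by
  have Z := S.zsys8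
  obtain ⟨A, hA, x', hx', rfl⟩ := Z.split_ll (a := 1) (b := 8) (by norm_num) (by norm_num) hx
  obtain ⟨B1, hB1, x'', hx'', rfl⟩ := Z.split_ll (a := 1 + 1) (b := 8) (by norm_num) (by norm_num) hx'
  obtain ⟨B2, hB2, r, hr, rfl⟩ := Z.split_ll (a := 1 + 1 + 1) (b := 8) (by norm_num) (by norm_num) hx''
  have hr' : r ∈ J S.XZ 4 8 := hr
  obtain ⟨t, rfl⟩ := (mem_X1 S).1 hA
  obtain ⟨p, u, rfl⟩ := (mem_X2 S).1 hB1
  obtain ⟨s, rfl⟩ := (mem_X3 S).1 hB2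
  have hrz := comm8_J S hr' 1
  set z := S.e 4 0 1 with hz
  -- the product of the first three factors commutes with `z`
  have hy : S.o 0 t * (S.e 1 p u * S.o 1 s) * z = z * (S.o 0 t * (S.e 1 p u * S.o 1 s)) := by
    have h1 : S.o 0 t * (S.e 1 p u * (S.o 1 s * r)) * z = z * (S.o 0 t * (S.e 1 p u * (S.o 1 s * r))) := hc
    calc S.o 0 t * (S.e 1 p u * S.o 1 s) * z = S.o 0 t * (S.e 1 p u * S.o 1 s) * z * r * r⁻¹ := by group
      _ = S.o 0 t * (S.e 1 p u * S.o 1 s) * (z * r) * r⁻¹ := by group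
      _ = S.o 0 t * (S.e 1 p u * (S.o 1 s * r)) * z * r⁻¹ := by rw [← hrz]; group
      _ = _ := by rw [h1]; group
  -- the commutator of `o 1 s` and `e 1 p u` with `z`
  have h3 : S.o 1 s * z = z * S.o 1 s * S.e 3 0 s := by
    have h := S.o_e3 1 s 0 1
    simp only [map_zero, mul_zero, mul_one, zero_add, S.o_zero, S.e_zero] at h
    exact h
  have h4 : S.e 1 p u * z = z * S.e 1 p u * (S.e 2 0 (p * u + p * p * σ p + σ u) * S.o 2 u *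
      S.e 3 0 (p * σ p + u) * S.o 3 p) := by
    have h := S.e_e3 1 p u 0 1
    simp only [map_zero, map_one, mul_zero, mul_one, zero_add, add_zero, S.o_zero, S.e_zero] at h
    have h' : S.e 1 p u * S.e 4 0 1 = S.e 4 0 1 * S.e 1 p u * S.e 2 0 (p * u + p * p * σ p + σ u) * S.o 2 u *
      S.e 3 0 (p * σ p + u) * S.o 3 p := h
    rw [hz, h']
    group
  obtain ⟨c, hcJ, h5⟩ : ∃ c ∈ J S.XZ 3 7, S.o 0 t * z = z * S.o 0 t * (S.e 1 0 (t * σ t) * c) := by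
    have h := S.o_e4 0 t 0 1
    simp only [map_zero, map_one, mul_zero, mul_one, zero_add, add_zero] at h
    refine ⟨S.o 1 (t * σ t) * S.e 2 (σ t) (t * t * σ t) * S.o 2 (t * σ t) * S.e 3 t 0 * S.o 3 t, ?_, ?_⟩
    · refine mul_mem (mul_mem (mul_mem (mul_mem ?_ ?_) ?_) ?_) ?_
      · exact mem_J ((mem_X3 S).2 ⟨_, rfl⟩) (by norm_num) (by norm_num)
      · exact mem_J ((mem_X4 S).2 ⟨_, _, rfl⟩) (by norm_num) (by norm_num)
      · exact mem_J ((mem_X5 S).2 ⟨_, rfl⟩) (by norm_num) (by norm_num)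
      · exact mem_J ((mem_X6 S).2 ⟨_, _, rfl⟩) (by norm_num) (by norm_num)
      · exact mem_J ((mem_X7 S).2 ⟨_, rfl⟩) (by norm_num) (by norm_num)
    · have h' : S.o 0 t * S.e 4 0 1 = S.e 4 0 1 * S.o 0 t * S.e 1 0 (t * σ t) * S.o 1 (t * σ t) *
        S.e 2 (σ t) (t * t * σ t) * S.o 2 (t * σ t) * S.e 3 t 0 * S.o 3 t := h
      rw [hz, h']
      group
  set D := S.e 2 0 (p * u + p * p * σ p + σ u) * S.o 2 u * S.e 3 0 (p * σ p + u) * S.o 3 p with hD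
  have hDc : D * S.o 1 s = S.o 1 s * D := by
    have c1 := S.o_e1 1 s 0 (p * u + p * p * σ p + σ u)
    have c2 := S.o_o1 1 s u
    have c3 := S.o_e2 1 s 0 (p * σ p + u)
    rw [mul_zero, S.e_zero, mul_one] at c3
    have c4 := S.o_o2 1 s p
    have c1' : S.o 1 s * S.e 2 0 (p * u + p * p * σ p + σ u) = S.e 2 0 (p * u + p * p * σ p + σ u) * S.o 1 s := c1
    have c2' : S.o 1 s * S.o 2 u = S.o 2 u * S.o 1 s := c2
    have c3' : S.o 1 s * S.e 3 0 (p * σ p + u) = S.e 3 0 (p * σ p + u) * S.o 1 s := c3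
    have c4' : S.o 1 s * S.o 3 p = S.o 3 p * S.o 1 s := c4
    rw [hD]
    calc S.e 2 0 (p * u + p * p * σ p + σ u) * S.o 2 u * S.e 3 0 (p * σ p + u) * S.o 3 p * S.o 1 s
        = S.e 2 0 (p * u + p * p * σ p + σ u) * S.o 2 u * S.e 3 0 (p * σ p + u) * (S.o 3 p * S.o 1 s) := by group
      _ = S.e 2 0 (p * u + p * p * σ p + σ u) * S.o 2 u * (S.e 3 0 (p * σ p + u) * S.o 1 s) * S.o 3 p := by
          rw [← c4']; group
      _ = S.e 2 0 (p * u + p * p * σ p + σ u) * (S.o 2 u * S.o 1 s) * S.e 3 0 (p * σ p + u) * S.o 3 p := by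
          rw [← c3']; group
      _ = (S.e 2 0 (p * u + p * p * σ p + σ u) * S.o 1 s) * S.o 2 u * S.e 3 0 (p * σ p + u) * S.o 3 p := by
          rw [← c2']; group
      _ = _ := by rw [← c1']; group
  have hDJ : D ∈ J S.XZ 4 7 := by
    refine mul_mem (mul_mem (mul_mem ?_ ?_) ?_) ?_
    · exact mem_J ((mem_X4 S).2 ⟨_, _, rfl⟩) (by norm_num) (by norm_num)
    · exact mem_J ((mem_X5 S).2 ⟨_, rfl⟩) (by norm_num) (by norm_num)
    · exact mem_J ((mem_X6 S).2 ⟨_, _, rfl⟩) (by norm_num) (by norm_num)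
    · exact mem_J ((mem_X7 S).2 ⟨_, rfl⟩) (by norm_num) (by norm_num)
  have h3s : S.e 3 0 s ∈ J S.XZ 4 7 := mem_J ((mem_X6 S).2 ⟨_, _, rfl⟩) (by norm_num) (by norm_num)
  set B := S.e 1 p u * S.o 1 s with hB
  have hBz : B * z = z * B * (D * S.e 3 0 s) := by
    rw [hB]
    calc S.e 1 p u * S.o 1 s * z = S.e 1 p u * (S.o 1 s * z) := by group
      _ = (S.e 1 p u * z) * S.o 1 s * S.e 3 0 s := by rw [h3]; group
      _ = z * S.e 1 p u * (D * S.o 1 s) * S.e 3 0 s := by rw [h4]; group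
      _ = _ := by rw [hDc]; group
  have hBJ : B ∈ J S.XZ 2 3 := mul_mem (mem_J hB1 (by norm_num) (by norm_num)) (mem_J hB2 (by norm_num) (by norm_num))
  have key : S.e 1 0 (t * σ t) * c * B * (D * S.e 3 0 s) = B := by
    have h6 : z * S.o 0 t * (S.e 1 0 (t * σ t) * c * B * (D * S.e 3 0 s)) = z * S.o 0 t * B := by
      calc z * S.o 0 t * (S.e 1 0 (t * σ t) * c * B * (D * S.e 3 0 s))
          = (z * S.o 0 t * (S.e 1 0 (t * σ t) * c)) * B * (D * S.e 3 0 s) := by group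
        _ = S.o 0 t * (z * B * (D * S.e 3 0 s)) := by rw [← h5]; group
        _ = S.o 0 t * B * z := by rw [← hBz]; group
        _ = z * S.o 0 t * B := by rw [hy]; group
    exact mul_left_cancel h6
  have ht : t = 0 := by
    have h6 : S.e 1 0 (t * σ t) = B * (D * S.e 3 0 s)⁻¹ * B⁻¹ * c⁻¹ := by
      have h7 : S.e 1 0 (t * σ t) = S.e 1 0 (t * σ t) * c * B * (D * S.e 3 0 s) * ((D * S.e 3 0 s)⁻¹ * B⁻¹ * c⁻¹) := by
        group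
      rw [key] at h7
      rw [h7]; group
    have h8 : B * (D * S.e 3 0 s)⁻¹ * B⁻¹ ∈ J S.XZ 3 7 :=
      Z.conj_J (a := 3) (b := 7) (c := 2) (d := 3) (by norm_num) (by norm_num) (by norm_num) hBJ
        (J_mono (by norm_num) le_rfl (inv_mem (mul_mem hDJ h3s)))
    have h9 : S.e 1 0 (t * σ t) ∈ J S.XZ 3 7 := by
      rw [h6]; exact mul_mem h8 (inv_mem hcJ)
    have h10 : S.e 1 0 (t * σ t) = 1 := Z.inter 2 _ ((mem_X2 S).2 ⟨_, _, rfl⟩) (J_mono le_rfl (by norm_num) h9)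
    have h11 := (S.e_eq_one h10).2
    rcases mul_eq_zero.1 h11 with h | h
    · exact h
    · exact (map_eq_zero σ).1 h
  have hc1 : S.e 1 0 (t * σ t) * c = 1 := by
    rw [ht, S.o_zero, one_mul, mul_one] at h5
    rw [ht]
    exact (mul_eq_left.1 h5.symm)
  rw [hc1, one_mul] at key
  have hD1 : D * S.e 3 0 s = 1 := mul_eq_left.1 key
  have hcomm : S.o 3 p * S.e 3 0 s = S.e 3 0 s * S.o 3 p := (S.e_o0 3 0 s p).symm
  have hD2 : S.e 2 0 (p * u + p * p * σ p + σ u) * S.o 2 u * S.e 3 0 (p * σ p + u + s) * S.o 3 p = 1 := by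
    rw [← hD1, hD, ← z_add S 3 (p * σ p + u) s]
    calc _ = S.e 2 0 (p * u + p * p * σ p + σ u) * S.o 2 u * S.e 3 0 (p * σ p + u) * (S.e 3 0 s * S.o 3 p) := by group
      _ = _ := by rw [← hcomm]; group
  have hp : p = 0 := by
    have h6 : S.o 3 p ∈ J S.XZ 0 6 := by
      rw [eq_inv_of_mul_eq_one_right hD2]
      refine inv_mem (mul_mem (mul_mem ?_ ?_) ?_)
      · exact mem_J ((mem_X4 S).2 ⟨_, _, rfl⟩) (by norm_num) (by norm_num)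
      · exact mem_J ((mem_X5 S).2 ⟨_, rfl⟩) (by norm_num) (by norm_num)
      · exact mem_J ((mem_X6 S).2 ⟨_, _, rfl⟩) (by norm_num) (by norm_num)
    have h7 := Z.inter' (k := 7) ((mem_X7 S).2 ⟨p, rfl⟩) h6
    exact S.o_eq_one h7
  rw [hp, S.o_zero, mul_one] at hD2
  have h8 : q2 S 0 0 (0 * u + 0 * 0 * σ 0 + σ u) u (0 * σ 0 + u + s) = 1 := by
    unfold q2
    rw [S.e_zero, S.o_zero, one_mul, one_mul]
    exact hD2
  obtain ⟨-, -, -, hu, hs⟩ := Card.q2_eq_one S h8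
  rw [hu, zero_mul, zero_add, zero_add] at hs
  rw [ht, hp, hu, hs, S.o_zero, S.e_zero, S.o_zero, one_mul, one_mul, one_mul]
  exact hr'

/-- an involution of `J 4 8` -/
theorem in_Q2' {x : G} (h2 : x * x = 1) (hx : x ∈ J S.XZ 4 8) :
    ∃ u s z t w, x = S.e 2 0 u * S.o 2 s * S.e 3 0 z * S.o 3 t * S.e 4 0 w := by
  have Z := S.zsys8
  have hsq : ∀ a p u, S.e a p u * S.e a p u = S.e a 0 (p * σ p) := by
    intro a p u
    rw [S.e_mul, char2 S, char2 S, zero_add]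
  obtain ⟨x4, hx4, y, hy, e1⟩ := Z.split_ll (a := 4) (b := 8) (by norm_num) (by norm_num) hx
  obtain ⟨y', hy', x8, hx8, e2⟩ := Z.split_rr (a := 4) (b := 8) (by norm_num) (by norm_num) hx
  obtain ⟨p, u, rfl⟩ := (mem_X4 S).1 hx4
  obtain ⟨q, w, rfl⟩ := (mem_X8 S).1 hx8
  have hy5 : y ∈ J S.XZ 5 8 := hy
  have hy7 : y' ∈ J S.XZ 4 7 := hy'
  have hp : p = 0 := by
    have h3 : (S.e 2 p u)⁻¹ * y * (S.e 2 p u)⁻¹⁻¹ ∈ J S.XZ 5 8 :=
      Z.conj_J (a := 5) (b := 8) (c := 4) (d := 4) (by norm_num) (by norm_num) (by norm_num)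
        (inv_mem (mem_J hx4 le_rfl le_rfl)) hy5
    have h4 : S.e 2 p u * S.e 2 p u ∈ J S.XZ 5 8 := by
      have e : S.e 2 p u * S.e 2 p u = (x * x) * (((S.e 2 p u)⁻¹ * y * (S.e 2 p u)⁻¹⁻¹) * y)⁻¹ := by
        rw [e1]; group
      rw [e, h2, one_mul]
      exact inv_mem (mul_mem h3 hy5)
    have h5 := Z.inter 4 _ ((S.XZ 4).mul_mem hx4 hx4) (J_mono le_rfl (by norm_num) h4)
    rw [hsq] at h5
    rcases mul_eq_zero.1 (S.e_eq_one h5).2 with h | h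
    · exact h
    · exact (map_eq_zero σ).1 h
  have hq : q = 0 := by
    have h3 : S.e 4 q w * y' * (S.e 4 q w)⁻¹ ∈ J S.XZ 4 7 :=
      Z.conj_J (a := 4) (b := 7) (c := 8) (d := 8) (by norm_num) (by norm_num) (by norm_num)
        (mem_J hx8 le_rfl le_rfl) hy7
    have h4 : S.e 4 q w * S.e 4 q w ∈ J S.XZ 4 7 := by
      have e : S.e 4 q w * S.e 4 q w = (y' * (S.e 4 q w * y' * (S.e 4 q w)⁻¹))⁻¹ * (x * x) := by
        rw [e2]; group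
      rw [e, h2, mul_one]
      exact inv_mem (mul_mem hy7 h3)
    have h5 := Z.inter' (k := 8) ((S.XZ 8).mul_mem hx8 hx8) (J_mono (by norm_num) le_rfl h4)
    rw [hsq] at h5
    rcases mul_eq_zero.1 (S.e_eq_one h5).2 with h | h
    · exact h
    · exact (map_eq_zero σ).1 h
  subst hp hq
  obtain ⟨y5, hy5', x8', hx8', e3⟩ := Z.split_rr (a := 5) (b := 8) (by norm_num) (by norm_num) hy5
  have hy5 : y5 ∈ J S.XZ 5 7 := hy5'
  have h8 : x8' = S.e 4 0 w := by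
    have h3 : S.e 4 0 w * x8'⁻¹ = y'⁻¹ * (S.e 2 0 u * y5) := by
      have e4 : y' * S.e 4 0 w = S.e 2 0 u * (y5 * x8') := by rw [← e3, ← e1, ← e2]
      calc S.e 4 0 w * x8'⁻¹ = y'⁻¹ * (y' * S.e 4 0 w) * x8'⁻¹ := by group
        _ = _ := by rw [e4]; group
    have h4 : S.e 4 0 w * x8'⁻¹ ∈ J S.XZ 4 7 := by
      rw [h3]
      exact mul_mem (inv_mem hy7) (mul_mem (mem_J hx4 (by norm_num) (by norm_num)) (J_mono (by norm_num) le_rfl hy5))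
    have h5 := Z.inter' (k := 8) ((S.XZ 8).mul_mem hx8 ((S.XZ 8).inv_mem hx8')) (J_mono (by norm_num) le_rfl h4)
    exact (mul_inv_eq_one.1 h5).symm
  obtain ⟨x5, hx5, y6, hy6, e5⟩ := Z.split_ll (a := 5) (b := 7) (by norm_num) (by norm_num) hy5
  obtain ⟨x6, hx6, x7, hx7, e6⟩ := Z.split_ll (a := 5 + 1) (b := 7) (by norm_num) (by norm_num) hy6
  have hx7 : x7 ∈ S.XZ 7 := by
    have h : J S.XZ (5 + 1 + 1) 7 ≤ S.XZ 7 := J_le fun k h1 h2 => by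
      rw [show k = 7 by omega]
    exact h hx7
  obtain ⟨s, rfl⟩ := (mem_X5 S).1 hx5
  obtain ⟨r, z, rfl⟩ := (mem_X6 S).1 hx6
  obtain ⟨t, rfl⟩ := (mem_X7 S).1 hx7
  have hxe : x = S.e 2 0 u * y5 * S.e 4 0 w := by rw [e1, e3, h8]; group
  have hr : r = 0 := by
    have hc2 : ∀ g ∈ S.PL, g * S.e 2 0 u = S.e 2 0 u * g := fun g hg => S.comm_PL hg ⟨u, rfl⟩
    have hc8 : y5 * S.e 4 0 w = S.e 4 0 w * y5 := comm8_J S (J_mono (by norm_num) (by norm_num) hy5) w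
    have hy5P : y5 ∈ S.PL := J_mono (by norm_num) (by norm_num) hy5
    have h4P : S.e 4 0 w ∈ S.PL := mem_J hx8 (by norm_num) (by norm_num)
    have h3 : y5 * y5 = 1 := by
      have h4 : x * x = (S.e 2 0 u * S.e 2 0 u) * (y5 * y5) * (S.e 4 0 w * S.e 4 0 w) := by
        rw [hxe]
        calc S.e 2 0 u * y5 * S.e 4 0 w * (S.e 2 0 u * y5 * S.e 4 0 w)
            = S.e 2 0 u * y5 * (S.e 4 0 w * S.e 2 0 u) * y5 * S.e 4 0 w := by group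
          _ = S.e 2 0 u * (y5 * S.e 2 0 u) * (S.e 4 0 w * y5) * S.e 4 0 w := by rw [hc2 _ h4P]; group
          _ = _ := by rw [hc2 _ hy5P, ← hc8]; group
      rw [z_sq, z_sq, one_mul, mul_one, h2] at h4
      exact h4.symm
    have c56 : S.o 2 s * S.e 3 r z = S.e 3 r z * S.o 2 s := S.o_e1 2 s r z
    have c67 : S.e 3 r z * S.o 3 t = S.o 3 t * S.e 3 r z := S.e_o0 3 r z t
    have c57 : S.o 2 s * S.o 3 t = S.o 3 t * S.o 2 s := S.o_o1 2 s t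
    have h4 : y5 * y5 = (S.o 2 s * S.o 2 s) * (S.e 3 r z * S.e 3 r z) * (S.o 3 t * S.o 3 t) := by
      rw [e5, e6]
      calc S.o 2 s * (S.e 3 r z * S.o 3 t) * (S.o 2 s * (S.e 3 r z * S.o 3 t))
          = S.o 2 s * S.e 3 r z * (S.o 3 t * S.o 2 s) * S.e 3 r z * S.o 3 t := by group
        _ = S.o 2 s * (S.e 3 r z * S.o 2 s) * (S.o 3 t * S.e 3 r z) * S.o 3 t := by rw [← c57]; group
        _ = _ := by rw [← c56, ← c67]; group
    rw [h3, Inv.o_sq, Inv.o_sq, one_mul, mul_one, hsq] at h4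
    rcases mul_eq_zero.1 (S.e_eq_one h4.symm).2 with h | h
    · exact h
    · exact (map_eq_zero σ).1 h
  exact ⟨u, s, z, t, w, by rw [hxe, e5, e6, hr]; group⟩

/-- **involutions commuting with `Zc 2` and `Zc 4`** -/
theorem inv_form [Finite F] [Finite G] (hR : S.R.p = 2) {x : G} (h2 : x * x = 1)
    (hc2 : x * S.e 2 0 1 = S.e 2 0 1 * x) (hc4 : x * S.e 4 0 1 = S.e 4 0 1 * x) :
    ∃ u s z t w, x = S.e 2 0 u * S.o 2 s * S.e 3 0 z * S.o 3 t * S.e 4 0 w := by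
  have h1 : x ∈ S.PL := by
    rw [← S.centralizer_z (z := S.e 2 0 1) ⟨1, rfl⟩ (fun h => one_ne_zero (S.e_eq_one h).2)]
    exact mem_centralizer_singleton_iff.2 hc2
  exact in_Q2' S h2 (in_J48 S (in_U S hR h2 (in_UT S h1 hc4)) hc4)

theorem inv_form' [Finite F] [Finite G] (hR : S.R.p = 2) {x : G} (h2 : x * x = 1)
    (hc2 : x * S.e 2 0 1 = S.e 2 0 1 * x) (hc4 : x * S.e 4 0 1 = S.e 4 0 1 * x) :
    (S.rot ^ (1 : ℤ))⁻¹ * x * S.rot ^ (1 : ℤ) ∈ S.Q2 := by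
  obtain ⟨u, s, z, t, w, rfl⟩ := inv_form S hR h2 hc2 hc4
  refine (mem_Q2 S).2 ⟨u, s, z, t, w, ?_⟩
  have h3 : S.ck 1 (q2 S u s z t w) = S.e 2 0 u * S.o 2 s * S.e 3 0 z * S.o 3 t * S.e 4 0 w := by
    unfold q2
    rw [map_mul, map_mul, map_mul, map_mul, S.ck_e, S.ck_o, S.ck_e, S.ck_o, S.ck_e]
    rfl
  rw [← h3, S.ck_apply]
  group

/-- `Q2 ∩ Q2^{rot²} = Zc 3` -/
theorem inter24 {y : G} (h1 : y ∈ S.Q2) (h2 : (S.rot ^ (2 : ℤ))⁻¹ * y * S.rot ^ (2 : ℤ) ∈ S.Q2) : y ∈ S.Zc 3 := by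
  -- `y` commutes with the conjugate of `Q2`
  have hc : ∀ g ∈ S.Q2, y * S.ck 2 g = S.ck 2 g * y := by
    intro g hg
    have h3 := Q2_comm S h2 hg
    have h4 : S.ck 2 ((S.rot ^ (2 : ℤ))⁻¹ * y * S.rot ^ (2 : ℤ)) = y := by rw [S.ck_apply]; group
    have h5 := congrArg (S.ck 2) h3
    rw [map_mul (S.ck 2) _ g, map_mul (S.ck 2) g _, h4] at h5
    exact h5
  have c4 : y * S.e 4 0 1 = S.e 4 0 1 * y := by
    have h := hc _ (S.q2_3 1)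
    rw [S.ck_e] at h
    exact h
  have c9 : y * S.o 4 1 = S.o 4 1 * y := by
    have h := hc _ (S.q2_4 1)
    rw [S.ck_o] at h
    exact h
  have c10 : y * S.e 5 0 1 = S.e 5 0 1 * y := by
    have h := hc _ (S.q2_5 1)
    rw [S.ck_e] at h
    exact h
  obtain ⟨u, s, z, t, w, rfl⟩ := (mem_Q2 S).1 h1
  have h3 := dl_01_q2 S u s z t w
  have h4 : dl (S.e 4 0 1) (q2 S u s z t w) = 1 := dl_of (by rw [mul_one]; exact c4)
  rw [h4] at h3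
  have h5 : q2 S 0 0 (σ u) u (u + s) = 1 := by
    unfold q2
    rw [S.e_zero, S.o_zero, one_mul, one_mul]
    exact h3.symm
  obtain ⟨-, -, -, hu, hs⟩ := Card.q2_eq_one S h5
  subst hu
  rw [zero_add] at hs
  subst hs
  have e : q2 S 0 0 z t w = S.e 2 0 z * S.o 2 t * S.e 3 0 w := by
    unfold q2; rw [S.e_zero, S.o_zero, one_mul, one_mul]
  rw [e] at c9 c10 ⊢
  have r1 : S.e 2 0 z * S.o 4 1 = S.o 4 1 * S.e 2 0 z * S.e 3 0 z := by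
    have h := S.e_o2 2 0 z 1
    simp only [map_zero, map_one, mul_zero, zero_mul, mul_one, zero_add, add_zero, S.o_zero, S.e_zero] at h
    exact h
  have r2 : S.o 2 t * S.o 4 1 = S.o 4 1 * S.o 2 t := S.o_o2 2 t 1
  have r3 : S.e 3 0 w * S.o 4 1 = S.o 4 1 * S.e 3 0 w := by
    have h := S.e_o1 3 0 w 1
    rw [zero_mul, S.e_zero, mul_one] at h
    exact h
  have r4 : S.o 2 t * S.e 3 0 z = S.e 3 0 z * S.o 2 t := S.o_e1 2 t 0 z
  have hz : z = 0 := by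
    have h6 : S.e 3 0 z = 1 := by
      have h7 : S.o 4 1 * S.e 2 0 z * S.o 2 t * S.e 3 0 w * S.e 3 0 z = S.o 4 1 * S.e 2 0 z * S.o 2 t * S.e 3 0 w := by
        have r5 : S.e 3 0 w * S.e 3 0 z = S.e 3 0 z * S.e 3 0 w := by rw [z_add, z_add, add_comm]
        calc S.o 4 1 * S.e 2 0 z * S.o 2 t * S.e 3 0 w * S.e 3 0 z
            = S.o 4 1 * S.e 2 0 z * (S.o 2 t * S.e 3 0 z) * S.e 3 0 w := by rw [mul_assoc _ _ (S.e 3 0 z), r5]; group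
          _ = S.o 4 1 * S.e 2 0 z * S.e 3 0 z * S.o 2 t * S.e 3 0 w := by rw [r4]; group
          _ = S.e 2 0 z * (S.o 4 1 * S.o 2 t) * S.e 3 0 w := by rw [← r1]; group
          _ = S.e 2 0 z * S.o 2 t * (S.o 4 1 * S.e 3 0 w) := by rw [← r2]; group
          _ = S.e 2 0 z * S.o 2 t * S.e 3 0 w * S.o 4 1 := by rw [← r3]; group
          _ = _ := by rw [c9]; group
      exact mul_eq_left.1 h7
    exact (S.e_eq_one h6).2
  subst hz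
  rw [S.e_zero, one_mul] at c10 ⊢
  have r6 : S.o 2 t * S.e 5 0 1 = S.e 5 0 1 * S.o 2 t * S.e 4 0 t := by
    have h := S.o_e3 2 t 0 1
    simp only [map_zero, mul_zero, zero_mul, mul_one, zero_add, S.o_zero, S.e_zero] at h
    exact h
  have r7 : S.e 3 0 w * S.e 5 0 1 = S.e 5 0 1 * S.e 3 0 w := S.e_e2 3 0 w 0 1
  have ht : t = 0 := by
    have r8 : S.e 4 0 t * S.e 3 0 w = S.e 3 0 w * S.e 4 0 t := by
      have h := S.e_e1 3 0 w 0 t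
      rw [zero_mul, S.o_zero, mul_one] at h
      exact h.symm
    have h7 : S.e 5 0 1 * S.o 2 t * S.e 3 0 w * S.e 4 0 t = S.e 5 0 1 * S.o 2 t * S.e 3 0 w := by
      calc S.e 5 0 1 * S.o 2 t * S.e 3 0 w * S.e 4 0 t = S.e 5 0 1 * S.o 2 t * (S.e 3 0 w * S.e 4 0 t) := by group
        _ = (S.e 5 0 1 * S.o 2 t * S.e 4 0 t) * S.e 3 0 w := by rw [← r8]; group
        _ = S.o 2 t * (S.e 5 0 1 * S.e 3 0 w) := by rw [← r6]; group
        _ = S.o 2 t * S.e 3 0 w * S.e 5 0 1 := by rw [← r7]; group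
        _ = _ := by rw [c10]; group
    exact (S.e_eq_one (mul_eq_left.1 h7)).2
  rw [ht, S.o_zero, one_mul]
  exact ⟨w, rfl⟩

/-- **the middle point is unique** -/
theorem middle [Finite F] [Finite G] (hR : S.R.p = 2) {f : G}
    (h22 : ∀ x ∈ Pt S f 2, x * S.e 2 0 1 = S.e 2 0 1 * x) (h24 : ∀ x ∈ Pt S f 2, x * S.e 4 0 1 = S.e 4 0 1 * x)
    (h42 : ∀ x ∈ Pt S f 4, x * S.e 2 0 1 = S.e 2 0 1 * x) (h44 : ∀ x ∈ Pt S f 4, x * S.e 4 0 1 = S.e 4 0 1 * x) :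
    S.Zc 3 ≤ Pt S f 3 := by
  have hsq : ∀ a, ∀ x ∈ Pt S f a, x * x = 1 := by
    intro a x hx
    obtain ⟨u, rfl⟩ := (mem_Pt S).1 hx
    calc f * S.e a 0 u * f⁻¹ * (f * S.e a 0 u * f⁻¹) = f * (S.e a 0 u * S.e a 0 u) * f⁻¹ := by group
      _ = 1 := by rw [z_sq]; group
  have k2 : Pt S ((S.rot ^ (1 : ℤ))⁻¹ * f) 2 ≤ S.Q2 := by
    intro x hx
    rw [Pt_mul] at hx
    obtain ⟨y, hy, rfl⟩ := hx
    have h := inv_form' S hR (hsq 2 y hy) (h22 y hy) (h24 y hy)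
    show (S.rot ^ (1 : ℤ))⁻¹ * y * (S.rot ^ (1 : ℤ))⁻¹⁻¹ ∈ S.Q2
    rwa [inv_inv]
  have k4 : Pt S ((S.rot ^ (1 : ℤ))⁻¹ * (f * S.rot ^ (2 : ℤ))) 2 ≤ S.Q2 := by
    intro x hx
    rw [Pt_mul, Pt_rot] at hx
    obtain ⟨y, hy, rfl⟩ := hx
    have hy : y ∈ Pt S f 4 := hy
    have h := inv_form' S hR (hsq 4 y hy) (h42 y hy) (h44 y hy)
    show (S.rot ^ (1 : ℤ))⁻¹ * y * (S.rot ^ (1 : ℤ))⁻¹⁻¹ ∈ S.Q2
    rwa [inv_inv]
  rintro _ ⟨v, rfl⟩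
  have hz : S.e 2 0 v ∈ S.Zc 2 := ⟨v, rfl⟩
  have hr : S.rot ^ (1 : ℤ) * S.e 2 0 v * (S.rot ^ (1 : ℤ))⁻¹ = S.e 3 0 v := S.rotk_e 1 2 0 v
  have m1 := sym S k2 hz
  have m2 := sym S k4 hz
  have e1 : ((S.rot ^ (1 : ℤ))⁻¹ * f)⁻¹ * S.e 2 0 v * ((S.rot ^ (1 : ℤ))⁻¹ * f) = f⁻¹ * S.e 3 0 v * f := by
    rw [← hr]; group
  have e2 : ((S.rot ^ (1 : ℤ))⁻¹ * (f * S.rot ^ (2 : ℤ)))⁻¹ * S.e 2 0 v * ((S.rot ^ (1 : ℤ))⁻¹ * (f * S.rot ^ (2 : ℤ))) =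
      (S.rot ^ (2 : ℤ))⁻¹ * (f⁻¹ * S.e 3 0 v * f) * S.rot ^ (2 : ℤ) := by
    rw [← hr]; group
  rw [e1] at m1
  rw [e2] at m2
  obtain ⟨w, hw⟩ := inter24 S m1 m2
  exact (mem_Pt S).2 ⟨w, by rw [hw]; group⟩

/-! ### automorphisms -/

theorem aut_Pt [Finite F] [Finite G] (hF : ∃ c : Fˣ, c ≠ 1) (hR : S.R.p = 2) (γ : MulAut G) : ∃ k : G,
    (∀ (h : G) (a : ZMod 8), ∀ x ∈ Pt S (γ h * k) a, ∃ y ∈ Pt S h a, γ y = x) ∧
      ∀ (h : G) (a : ZMod 8), ∀ y ∈ Pt S h a, γ y ∈ Pt S (γ h * k) a := by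
  obtain ⟨k, τ, -, he⟩ := AutNorm.aut_form S hF hR γ
  have hτ : Function.Surjective τ := Finite.injective_iff_surjective.1 τ.injective
  refine ⟨k, ?_, ?_⟩
  · intro h a x hx
    obtain ⟨u, rfl⟩ := (mem_Pt S).1 hx
    obtain ⟨u', rfl⟩ := hτ u
    refine ⟨h * S.e a 0 u' * h⁻¹, (mem_Pt S).2 ⟨u', rfl⟩, ?_⟩
    rw [map_mul, map_mul, map_inv, he, map_zero]
    group
  · intro h a y hy
    obtain ⟨u, rfl⟩ := (mem_Pt S).1 hy
    refine (mem_Pt S).2 ⟨τ u, ?_⟩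
    rw [map_mul, map_mul, map_inv, he, map_zero]
    group

/-- **a group of automorphisms moving `Zc 2` to commuting conjugates** -/
theorem loc [Finite F] [Finite G] (hF : ∃ c : Fˣ, c ≠ 1) (hR : S.R.p = 2) (Φ : Subgroup (MulAut G))
    (hcomm : ∀ α ∈ Φ, ∀ β ∈ Φ, ∀ x ∈ S.Zc 2, ∀ y ∈ S.Zc 2, α x * β y = β y * α x) :
    (∀ α ∈ Φ, ∀ x ∈ S.Zc 2, α x ∈ S.Q2) ∨ ∃ h, ∀ α ∈ Φ, ∀ x ∈ Pt S h 3, α x ∈ Pt S h 3 := by
  by_contra hcon
  push Not at hcon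
  obtain ⟨⟨β, hβ, x, hx, hxQ⟩, hcon⟩ := hcon
  obtain ⟨k, hk1, hk2⟩ := aut_Pt S hF hR β
  have hβk : Pt S (β 1 * k) 2 = Pt S k 2 := by rw [map_one, one_mul]
  have hc : ∀ x ∈ Pt S k 2, ∀ z ∈ S.Zc 2, x * z = z * x := by
    intro x hx z hz
    rw [← hβk] at hx
    obtain ⟨y, hy, rfl⟩ := hk1 _ _ _ hx
    rw [Pt_one] at hy
    exact hcomm β hβ 1 (one_mem _) y hy z hz
  obtain ⟨h, hh, a, ha, e⟩ := comm_class S hc
  have hZ2 : Pt S h 2 = S.Zc 2 := by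
    have h1 := norm_Pt S (k := 1) hh
    rwa [one_mul, Pt_one] at h1
  have ha4 : a = 4 := by
    have hx' : β x ∈ Pt S h a := by
      rw [← e, ← hβk]
      exact hk2 1 2 x (by rw [Pt_one]; exact hx)
    obtain ⟨u, hu⟩ := (mem_Pt S).1 hx'
    rcases ha with rfl | rfl | rfl
    · exact absurd (by rw [← hu]; exact norm_Q2 S hh (S.q2_3 u)) hxQ
    · exact absurd (by rw [← hu]; exact norm_Q2 S hh (S.q2_5 u)) hxQ
    · rfl
  subst ha4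
  -- `Pt h 4 = β (Zc 2)`
  have h4 : ∀ y ∈ Pt S h 4, ∃ z ∈ S.Zc 2, β z = y := by
    intro y hy
    rw [← e, ← hβk] at hy
    obtain ⟨z, hz, rfl⟩ := hk1 _ _ _ hy
    rw [Pt_one] at hz
    exact ⟨z, hz, rfl⟩
  have key : ∀ γ ∈ Φ, ∀ x ∈ Pt S h 3, ∃ y ∈ Pt S h 3, γ y = x := by
    intro γ hγ x hx
    obtain ⟨k', hk1', hk2'⟩ := aut_Pt S hF hR γ
    set g' := γ h * k' with hg'
    have hPtf : ∀ a, ∀ y ∈ Pt S (h⁻¹ * g') a, h * y * h⁻¹ ∈ Pt S g' a := by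
      intro a y hy
      rw [Pt_mul] at hy
      obtain ⟨y', hy', rfl⟩ := hy
      have e1 : h * (h⁻¹ * y' * h⁻¹⁻¹) * h⁻¹ = y' := by group
      show h * (h⁻¹ * y' * h⁻¹⁻¹) * h⁻¹ ∈ _
      rw [e1]; exact hy'
    have back : ∀ {y z : G}, h * y * h⁻¹ * (h * z * h⁻¹) = h * z * h⁻¹ * (h * y * h⁻¹) → y * z = z * y := by
      intro y z h1
      calc y * z = h⁻¹ * (h * y * h⁻¹ * (h * z * h⁻¹)) * h := by group
        _ = h⁻¹ * (h * z * h⁻¹ * (h * y * h⁻¹)) * h := by rw [h1]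
        _ = z * y := by group
    have t2 : h * S.e 2 0 1 * h⁻¹ ∈ S.Zc 2 := (mem_normalizer_iff.1 hh _).1 ⟨1, rfl⟩
    obtain ⟨z4, hz4, hz4'⟩ := h4 (h * S.e 4 0 1 * h⁻¹) ((mem_Pt S).2 ⟨1, rfl⟩)
    have i2 : ∀ y ∈ Pt S g' 2, ∃ z ∈ S.Zc 2, γ z = y := by
      intro y hy
      obtain ⟨z, hz, rfl⟩ := hk1' _ _ _ hy
      rw [hZ2] at hz
      exact ⟨z, hz, rfl⟩
    have i4 : ∀ y ∈ Pt S g' 4, ∃ z ∈ S.Zc 2, (γ * β) z = y := by
      intro y hy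
      obtain ⟨z, hz, rfl⟩ := hk1' _ _ _ hy
      obtain ⟨z', hz', rfl⟩ := h4 z hz
      exact ⟨z', hz', rfl⟩
    have h3 := middle S hR (f := h⁻¹ * g')
      (fun y hy => by
        obtain ⟨z, hz, hz'⟩ := i2 _ (hPtf _ y hy)
        apply back
        rw [← hz']
        exact hcomm γ hγ 1 (one_mem _) z hz _ t2)
      (fun y hy => by
        obtain ⟨z, hz, hz'⟩ := i2 _ (hPtf _ y hy)
        apply back
        rw [← hz', ← hz4']
        exact hcomm γ hγ β hβ z hz _ hz4)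
      (fun y hy => by
        obtain ⟨z, hz, hz'⟩ := i4 _ (hPtf _ y hy)
        apply back
        rw [← hz']
        exact hcomm (γ * β) (mul_mem hγ hβ) 1 (one_mem _) z hz _ t2)
      (fun y hy => by
        obtain ⟨z, hz, hz'⟩ := i4 _ (hPtf _ y hy)
        apply back
        rw [← hz', ← hz4']
        exact hcomm (γ * β) (mul_mem hγ hβ) β hβ z hz _ hz4)
    obtain ⟨u, rfl⟩ := (mem_Pt S).1 hx
    have h5 : h * S.e 3 0 u * h⁻¹ ∈ Pt S g' 3 := by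
      apply hPtf 3
      exact h3 ⟨u, rfl⟩
    exact hk1' _ _ _ h5
  obtain ⟨α, hα, x, hx, hxn⟩ := hcon h
  obtain ⟨y, hy, e1⟩ := key α⁻¹ (inv_mem hα) x hx
  apply hxn
  rw [← e1]
  have e2 : α (α⁻¹ y) = y := by
    rw [← MulAut.mul_apply, mul_inv_cancel, MulAut.one_apply]
  rw [e2]
  exact hy

end Cfsg.Agent.H762.Loc
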